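/-
A group `R` acting on an `𝔽₃`-module `W`, normalized by an operator `B` with `B³ = 1` and
`rank (B - 1) ≤ 2`: the frame attached to a `B`-cycled four-group.
-/
import Mathlib

set_option autoImplicit false

namespace Cfsg.Agent.Lib.Cubic3.Basic

variable {R W : Type*} [Group R] [AddCommGroup W] [Module (ZMod 3) W]

theorem three_smul (v : W) : (3 : ZMod 3) • v = 0 := by
  rw [show (3 : ZMod 3) = 0 from rfl, zero_smul]

theorem add_self_eq_neg' (v : W) : v + v = -v := by
  have h := three_smul v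
  linear_combination (norm := module) h

theorem eq_neg_self_iff (v : W) : v = -v ↔ v = 0 := by
  constructor
  · intro h
    have h3 := three_smul v
    have : v + v = 0 := by
      nth_rewrite 1 [h]
      simp
    rw [add_self_eq_neg'] at this
    simpa using this
  · rintro rfl; simp

/-- The basic hypotheses, without irreducibility. -/
structure PreCtx (ρ : R →* Module.End (ZMod 3) W) (B : Module.End (ZMod 3) W) (φ : R ≃* R) : Prop where
  inj : Function.Injective ρ
  B3 : B ^ 3 = 1
  conj : ∀ r, B * ρ r = ρ (φ r) * B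
  φ3 : ∀ r, φ (φ (φ r)) = r
  rank : Module.finrank (ZMod 3) (LinearMap.range (B - 1)) ≤ 2

/-- The running hypotheses. -/
structure Ctx (ρ : R →* Module.End (ZMod 3) W) (B : Module.End (ZMod 3) W) (φ : R ≃* R) : Prop
    extends PreCtx ρ B φ where
  irr : ∀ N : Submodule (ZMod 3) W, (∀ r, ∀ v ∈ N, ρ r v ∈ N) → (∀ v ∈ N, B v ∈ N) → N = ⊥ ∨ N = ⊤
  gen : ∀ H : Subgroup R, (∀ r, r⁻¹ * φ r ∈ H) → H = ⊤
  odd3 : ¬ 3 ∣ Nat.card R

/-- `x`, `φ x`, `φ² x` are the involutions of a `φ`-cycled four-group. -/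
structure Triple (φ : R ≃* R) (x : R) : Prop where
  sq : x * x = 1
  ne : x ≠ 1
  prod : x * φ x * φ (φ x) = 1

/-- The frame of a triple. -/
structure Frame (ρ : R →* Module.End (ZMod 3) W) (B : Module.End (ZMod 3) W) (φ : R ≃* R)
    (x : R) (e : W) : Prop where
  h1 : ρ x e = e
  h2 : ρ (φ x) e = -e
  line : ∀ v, ρ x v = v → ρ (φ x) v = -v → v = 0 ∨ v = e ∨ v = -e
  fix : ∀ v, ρ x v = v → ρ (φ x) v = v → B v = v
  ne : e ≠ 0

section ops

variable (ρ : R →* Module.End (ZMod 3) W)

theorem rho_mul (r s : R) (v : W) : ρ (r * s) v = ρ r (ρ s v) := by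
  rw [map_mul]; rfl

theorem rho_one (v : W) : ρ 1 v = v := by
  rw [map_one]; rfl

theorem rho_inv_rho (r : R) (v : W) : ρ r⁻¹ (ρ r v) = v := by
  rw [← rho_mul, inv_mul_cancel, rho_one]

theorem rho_rho_inv (r : R) (v : W) : ρ r (ρ r⁻¹ v) = v := by
  rw [← rho_mul, mul_inv_cancel, rho_one]

theorem rho_inj (r : R) {v w : W} (h : ρ r v = ρ r w) : v = w := by
  have := congrArg (ρ r⁻¹) h
  rwa [rho_inv_rho, rho_inv_rho] at this

end ops

section weights

/-- The four weight components of a vector under two commuting involutions. -/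
theorem decomp (a c : Module.End (ZMod 3) W)
    (haa : ∀ v, a (a v) = v) (hcc : ∀ v, c (c v) = v) (hac : ∀ v, a (c v) = c (a v)) (v : W) :
    ∃ v₀ v₁ v₂ v₃, v = v₀ + v₁ + v₂ + v₃ ∧ (a v₀ = v₀ ∧ c v₀ = v₀) ∧ (a v₁ = v₁ ∧ c v₁ = -v₁) ∧
      (a v₂ = -v₂ ∧ c v₂ = v₂) ∧ (a v₃ = -v₃ ∧ c v₃ = -v₃) := by
  refine ⟨v + a v + c v + a (c v), v + a v - c v - a (c v), v - a v + c v - a (c v),
    v - a v - c v + a (c v), ?_, ⟨?_, ?_⟩, ⟨?_, ?_⟩, ⟨?_, ?_⟩, ⟨?_, ?_⟩⟩
  · have h := three_smul v
    linear_combination (norm := module) -h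
  all_goals
    simp only [map_add, map_sub, haa, hcc, ← hac]
    try rw [hac]
    simp only [← hac]
    try abel

/-- Uniqueness of the weight components. -/
theorem comp_unique (a c : Module.End (ZMod 3) W)
    {v₀ v₁ v₂ v₃ : W} (h0 : a v₀ = v₀ ∧ c v₀ = v₀) (h1 : a v₁ = v₁ ∧ c v₁ = -v₁)
    (h2 : a v₂ = -v₂ ∧ c v₂ = v₂) (h3 : a v₃ = -v₃ ∧ c v₃ = -v₃)
    (h : v₀ + v₁ + v₂ + v₃ = 0) : v₀ = 0 ∧ v₁ = 0 ∧ v₂ = 0 ∧ v₃ = 0 := by
  have ha := congrArg a h
  have hc := congrArg c h
  have hac := congrArg c ha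
  simp only [map_add, map_neg, map_zero, h0.1, h0.2, h1.1, h1.2, h2.1, h2.2, h3.1, h3.2] at ha hc hac
  refine ⟨?_, ?_, ?_, ?_⟩
  · have t := three_smul v₀
    linear_combination (norm := module) h + ha + hc + hac - t
  · have t := three_smul v₁
    linear_combination (norm := module) h + ha - hc - hac - t
  · have t := three_smul v₂
    linear_combination (norm := module) h - ha + hc - hac - t
  · have t := three_smul v₃
    linear_combination (norm := module) h - ha - hc + hac - t

end weights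

section triple

variable {φ : R ≃* R} {x : R}

theorem Triple.rot (ht : Triple φ x) : Triple φ (φ x) where
  sq := by rw [← map_mul, ht.sq, map_one]
  ne := fun h => ht.ne (by simpa using h)
  prod := by rw [← map_mul, ← map_mul, ht.prod, map_one]

theorem Triple.inv (ht : Triple φ x) : x⁻¹ = x := inv_eq_of_mul_eq_one_left ht.sq

theorem Triple.third (ht : Triple φ x) : φ (φ x) = φ x * x := by
  have h : φ (φ x) = (x * φ x)⁻¹ := eq_inv_of_mul_eq_one_right ht.prod
  rw [h, mul_inv_rev, ht.inv, ht.rot.inv]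

theorem Triple.comm (ht : Triple φ x) : x * φ x = φ x * x := by
  have h := ht.rot.rot.sq
  rw [ht.third] at h
  have h2 : φ x * x = (φ x * x)⁻¹ := (inv_eq_of_mul_eq_one_left h).symm
  rw [h2, mul_inv_rev, ht.inv, ht.rot.inv]

theorem Triple.phi_ne (ht : Triple φ x) : φ x ≠ x := by
  intro h
  have h1 := ht.third
  rw [h, h, ht.sq] at h1
  exact ht.ne (by simpa using h1)

end triple

section frame

variable {ρ : R →* Module.End (ZMod 3) W} {B : Module.End (ZMod 3) W} {φ : R ≃* R} {x : R}

theorem PreCtx.B3_apply (hc : PreCtx ρ B φ) (v : W) : B (B (B v)) = v := by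
  have := LinearMap.congr_fun hc.B3 v
  simpa [pow_succ] using this

theorem PreCtx.conj_apply (hc : PreCtx ρ B φ) (r : R) (v : W) : B (ρ r v) = ρ (φ r) (B v) := by
  have := LinearMap.congr_fun (hc.conj r) v
  simpa using this

theorem PreCtx.B_inj (hc : PreCtx ρ B φ) {v w : W} (h : B v = B w) : v = w := by
  have := congrArg (fun u => B (B u)) h
  simpa [hc.B3_apply] using this

theorem PreCtx.B_ne_zero (hc : PreCtx ρ B φ) {v : W} (h : v ≠ 0) : B v ≠ 0 := by
  intro h0
  apply h
  apply hc.B_inj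
  rw [h0, map_zero]

/-- Three vectors are dependent modulo `ker (B - 1)`. -/
theorem PreCtx.dep3 [Finite W] (hc : PreCtx ρ B φ) (u₁ u₂ u₃ : W) :
    ∃ α β γ : ZMod 3, (α ≠ 0 ∨ β ≠ 0 ∨ γ ≠ 0) ∧
      B (α • u₁ + β • u₂ + γ • u₃) = α • u₁ + β • u₂ + γ • u₃ := by
  classical
  have : Module.Finite (ZMod 3) W := Module.Finite.of_finite
  let T : Module.End (ZMod 3) W := B - 1
  let f : Fin 3 → LinearMap.range T := ![⟨T u₁, ⟨u₁, rfl⟩⟩, ⟨T u₂, ⟨u₂, rfl⟩⟩, ⟨T u₃, ⟨u₃, rfl⟩⟩]
  have hnot : ¬ LinearIndependent (ZMod 3) f := by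
    intro h
    have := h.fintype_card_le_finrank
    have h2 := hc.rank
    simp only [Fintype.card_fin] at this
    have h3 : Module.finrank (ZMod 3) (LinearMap.range T) ≤ 2 := h2
    omega
  rw [Fintype.not_linearIndependent_iff] at hnot
  obtain ⟨g, hg, i, hi⟩ := hnot
  refine ⟨g 0, g 1, g 2, ?_, ?_⟩
  · fin_cases i
    · exact Or.inl hi
    · exact Or.inr (Or.inl hi)
    · exact Or.inr (Or.inr hi)
  · rw [Fin.sum_univ_three] at hg
    have h4 := congrArg Subtype.val hg
    simp only [f, Submodule.coe_add, Submodule.coe_smul, Matrix.cons_val_zero, Matrix.cons_val_one,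
      Matrix.cons_val, Submodule.coe_zero, T, LinearMap.sub_apply, Module.End.one_apply] at h4
    simp only [map_add, map_smul]
    linear_combination (norm := module) h4

/-- The action of `B` on weights. -/
theorem PreCtx.ops (hc : PreCtx ρ B φ) (ht : Triple φ x) :
    (∀ v, ρ x (ρ x v) = v) ∧ (∀ v, ρ (φ x) (ρ (φ x) v) = v) ∧
    (∀ v, ρ x (ρ (φ x) v) = ρ (φ x) (ρ x v)) ∧
    (∀ v, ρ (φ (φ x)) v = ρ x (ρ (φ x) v)) ∧
    (∀ v, B (ρ x v) = ρ (φ x) (B v)) ∧
    (∀ v, B (ρ (φ x) v) = ρ x (ρ (φ x) (B v))) ∧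
    (∀ v, B (ρ (φ (φ x)) v) = ρ x (B v)) := by
  have h1 : ∀ v, ρ x (ρ x v) = v := fun v => by rw [← rho_mul, ht.sq, rho_one]
  have h2 : ∀ v, ρ (φ x) (ρ (φ x) v) = v := fun v => by rw [← rho_mul, ht.rot.sq, rho_one]
  have h3 : ∀ v, ρ x (ρ (φ x) v) = ρ (φ x) (ρ x v) := fun v => by
    rw [← rho_mul, ht.comm, rho_mul]
  have h4 : ∀ v, ρ (φ (φ x)) v = ρ x (ρ (φ x) v) := fun v => by
    rw [ht.third, ← ht.comm, rho_mul]
  refine ⟨h1, h2, h3, h4, fun v => hc.conj_apply x v, fun v => ?_, fun v => ?_⟩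
  · rw [hc.conj_apply, h4]
  · rw [hc.conj_apply, hc.φ3]

/-- The frame of a triple. -/
theorem PreCtx.exists_frame [Finite W] (hc : PreCtx ρ B φ) (ht : Triple φ x) : ∃ e, Frame ρ B φ x e := by
  obtain ⟨haa, hcc, hac, hd, hBa, hBc, hBd⟩ := hc.ops ht
  set a := ρ x with ha
  set c := ρ (φ x) with hc'
  -- `B` on weight spaces
  have B1 : ∀ v, a v = v → c v = -v → a (B v) = -B v ∧ c (B v) = B v := by
    intro v h1 h2
    have e1 : c (B v) = B v := by rw [← hBa, h1]
    refine ⟨?_, e1⟩
    have := hBc v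
    rw [h2, map_neg, e1] at this
    exact this.symm
  have B2 : ∀ v, a v = -v → c v = v → a (B v) = -B v ∧ c (B v) = -B v := by
    intro v h1 h2
    have e1 : c (B v) = -B v := by rw [← hBa, h1, map_neg]
    refine ⟨?_, e1⟩
    have := hBc v
    rw [h2, e1, map_neg] at this
    have h5 := congrArg Neg.neg this
    simpa using h5.symm
  have B3 : ∀ v, a v = -v → c v = -v → a (B v) = B v ∧ c (B v) = -B v := by
    intro v h1 h2
    have e1 : c (B v) = -B v := by rw [← hBa, h1, map_neg]
    refine ⟨?_, e1⟩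
    have := hBc v
    rw [h2, e1, map_neg, map_neg] at this
    have h5 := congrArg Neg.neg this
    simpa using h5.symm
  have B0 : ∀ v, a v = v → c v = v → a (B v) = B v ∧ c (B v) = B v := by
    intro v h1 h2
    have e1 : c (B v) = B v := by rw [← hBa, h1]
    refine ⟨?_, e1⟩
    have := hBc v
    rw [h2, e1] at this
    exact this.symm
  -- injectivity of `B - 1` on `E₁ ⊕ E₂`
  have inj : ∀ u w c₀, (a u = u ∧ c u = -u) → (a w = -w ∧ c w = w) → (a c₀ = c₀ ∧ c c₀ = c₀) →
      B (u + w + c₀) = u + w + c₀ → u = 0 ∧ w = 0 ∧ B c₀ = c₀ := by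
    intro u w c₀ hu hw h0 h
    have h1 := B1 u hu.1 hu.2
    have h2 := B2 w hw.1 hw.2
    have h0' := B0 c₀ h0.1 h0.2
    have hneg : a (-u) = -u ∧ c (-u) = - -u := by
      simp [hu.1, hu.2]
    have hsub : a (B c₀ - c₀) = B c₀ - c₀ ∧ c (B c₀ - c₀) = B c₀ - c₀ := by
      simp [h0'.1, h0'.2, h0.1, h0.2]
    have hmid : a (B u - w) = -(B u - w) ∧ c (B u - w) = B u - w := by
      constructor
      · simp only [map_sub, h1.1, hw.1]; abel
      · simp only [map_sub, h1.2, hw.2]
    have key := comp_unique a c hsub hneg hmid h2 (by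
      simp only [map_add] at h
      linear_combination (norm := module) h)
    obtain ⟨k0, k1, k2, k3⟩ := key
    have hu0 : u = 0 := by simpa using k1
    have hw0 : w = 0 := by
      rw [hu0, map_zero, zero_sub] at k2
      simpa using k2
    exact ⟨hu0, hw0, sub_eq_zero.mp k0⟩
  -- a nonzero vector in `E₁`
  have hex : ∃ e, a e = e ∧ c e = -e ∧ e ≠ 0 := by
    have hne : a ≠ 1 := by
      intro h
      apply ht.ne
      apply hc.inj
      rw [map_one]
      exact h
    obtain ⟨v, hv⟩ : ∃ v, a v ≠ v := by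
      by_contra hcon
      push Not at hcon
      apply hne
      ext v
      simpa using hcon v
    set u := v - a v with hu
    have hau : a u = -u := by
      simp only [hu, map_sub, haa]; abel
    have hu0 : u ≠ 0 := by
      intro h
      apply hv
      exact (sub_eq_zero.mp h).symm
    have hw2 : a (u + c u) = -(u + c u) ∧ c (u + c u) = u + c u := by
      constructor
      · simp only [map_add, hac, hau, map_neg]; abel
      · simp only [map_add, hcc]; abel
    have hw3 : a (u - c u) = -(u - c u) ∧ c (u - c u) = -(u - c u) := by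
      constructor
      · simp only [map_sub, hac, hau, map_neg]; abel
      · simp only [map_sub, hcc]; abel
    by_cases h2 : u + c u = 0
    · have h3 : u - c u ≠ 0 := by
        intro h3
        have h4 : u + u = 0 := by
          have := congrArg₂ (· + ·) h2 h3
          simp only [add_zero] at this
          linear_combination (norm := module) this
        rw [add_self_eq_neg'] at h4
        exact hu0 (by simpa using h4)
      have h5 := B3 _ hw3.1 hw3.2
      exact ⟨B (u - c u), h5.1, h5.2, hc.B_ne_zero h3⟩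
    · have h5 := B2 _ hw2.1 hw2.2
      have h6 := B3 _ h5.1 h5.2
      exact ⟨B (B (u + c u)), h6.1, h6.2, hc.B_ne_zero (hc.B_ne_zero h2)⟩
  obtain ⟨e, he1, he2, he0⟩ := hex
  have hBe := B1 e he1 he2
  have smulE1 : ∀ (α β : ZMod 3) (v : W), a v = v → c v = -v →
      a (α • e + β • v) = α • e + β • v ∧ c (α • e + β • v) = -(α • e + β • v) := by
    intro α β v h1 h2
    constructor
    · simp only [map_add, map_smul, he1, h1]
    · simp only [map_add, map_smul, he2, h2, smul_neg]; abel
  refine ⟨e, he1, he2, ?_, ?_, he0⟩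
  · -- the line
    intro v (h1 : a v = v) (h2 : c v = -v)
    obtain ⟨α, β, γ, hne, hB⟩ := hc.dep3 e v (B e)
    have hw : a (γ • B e) = -(γ • B e) ∧ c (γ • B e) = γ • B e := by
      simp only [map_smul, hBe.1, hBe.2, smul_neg, and_self]
    have hz : a (0 : W) = 0 ∧ c (0 : W) = 0 := by simp
    have key := inj (α • e + β • v) (γ • B e) 0 (smulE1 α β v h1 h2) hw hz (by simpa using hB)
    have hγ : γ = 0 := by
      have := key.2.1
      rcases smul_eq_zero.mp this with h | h
      · exact h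
      · exact absurd h (hc.B_ne_zero he0)
    have h0 := key.1
    by_cases hβ : β = 0
    · exfalso
      rw [hβ, zero_smul, add_zero] at h0
      have hα : α = 0 := by
        rcases smul_eq_zero.mp h0 with h | h
        · exact h
        · exact absurd h he0
      rw [hα, hβ, hγ] at hne
      simp at hne
    · -- `v` is a multiple of `e`
      have h3 : v = (-(β⁻¹ * α)) • e := by
        have : β⁻¹ • (α • e + β • v) = 0 := by rw [h0, smul_zero]
        rw [smul_add, smul_smul, smul_smul, inv_mul_cancel₀ hβ, one_smul] at this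
        rw [neg_smul]
        exact eq_neg_of_add_eq_zero_right this
      generalize (-(β⁻¹ * α)) = t at h3
      have ht3 : ∀ t : ZMod 3, t = 0 ∨ t = 1 ∨ t = -1 := by decide
      rcases ht3 t with rfl | rfl | rfl
      · left; simpa using h3
      · right; left; simpa using h3
      · right; right; simpa using h3
  · -- the fixed vectors
    intro v (h1 : a v = v) (h2 : c v = v)
    obtain ⟨α, β, γ, hne, hB⟩ := hc.dep3 e (B e) v
    have hu : a (α • e) = α • e ∧ c (α • e) = -(α • e) := by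
      simp only [map_smul, he1, he2, smul_neg, and_self]
    have hw : a (β • B e) = -(β • B e) ∧ c (β • B e) = β • B e := by
      simp only [map_smul, hBe.1, hBe.2, smul_neg, and_self]
    have hz : a (γ • v) = γ • v ∧ c (γ • v) = γ • v := by
      simp only [map_smul, h1, h2, and_self]
    have key := inj _ _ _ hu hw hz hB
    have hα : α = 0 := by
      rcases smul_eq_zero.mp key.1 with h | h
      · exact h
      · exact absurd h he0
    have hβ : β = 0 := by
      rcases smul_eq_zero.mp key.2.1 with h | h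
      · exact h
      · exact absurd h (hc.B_ne_zero he0)
    have hγ : γ ≠ 0 := by
      intro h
      rw [hα, hβ, h] at hne
      simp at hne
    have h3 := key.2.2
    rw [map_smul] at h3
    have : γ⁻¹ • γ • B v = γ⁻¹ • γ • v := by rw [h3]
    rwa [smul_smul, smul_smul, inv_mul_cancel₀ hγ, one_smul, one_smul] at this

end frame

end Cfsg.Agent.Lib.Cubic3.Basic
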