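/-
Order-coprime-to-six operators on small spaces, and the vanishing of the odd core.
-/
import Cfsg.Agent.Lib.Cubic3.Basic
import Cfsg.Agent.Lib.Coprime.Generation2

set_option autoImplicit false

namespace Cfsg.Agent.Lib.Cubic3.Odd

open Cfsg.Agent.Lib.Cubic3.Basic

variable {R W : Type*} [Group R] [AddCommGroup W] [Module (ZMod 3) W]

/-- A unit of the endomorphism ring of an `n`-dimensional space has order dividing `|GL_n(3)|`. -/
theorem unit_pow_card [Finite W] (n : ℕ) (hn : Module.finrank (ZMod 3) W = n)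
    (u : (Module.End (ZMod 3) W)ˣ) : u ^ (∏ i : Fin n, (3 ^ n - 3 ^ (i : ℕ))) = 1 := by
  have : Module.Finite (ZMod 3) W := Module.Finite.of_finite
  let b := Module.finBasisOfFinrankEq (ZMod 3) W hn
  let g : (Module.End (ZMod 3) W)ˣ ≃* Matrix.GeneralLinearGroup (Fin n) (ZMod 3) :=
    Units.mapEquiv (LinearMap.toMatrixAlgEquiv b).toMulEquiv
  apply g.injective
  rw [map_pow, map_one]
  have hcard := Matrix.card_GL_field (𝔽 := ZMod 3) n
  rw [ZMod.card] at hcard
  rw [← hcard]
  exact pow_card_eq_one'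

/-- The order of a group acting faithfully on an `n`-dimensional space divides `|GL_n(3)|`. -/
theorem card_dvd_GL [Finite W] [Finite R] (n : ℕ) (hn : Module.finrank (ZMod 3) W = n)
    (ρ : R →* Module.End (ZMod 3) W) (hρ : Function.Injective ρ) :
    Nat.card R ∣ ∏ i : Fin n, (3 ^ n - 3 ^ (i : ℕ)) := by
  have : Module.Finite (ZMod 3) W := Module.Finite.of_finite
  let b := Module.finBasisOfFinrankEq (ZMod 3) W hn
  let g : (Module.End (ZMod 3) W)ˣ ≃* Matrix.GeneralLinearGroup (Fin n) (ZMod 3) :=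
    Units.mapEquiv (LinearMap.toMatrixAlgEquiv b).toMulEquiv
  let f : R →* Matrix.GeneralLinearGroup (Fin n) (ZMod 3) := g.toMonoidHom.comp (MonoidHom.toHomUnits ρ)
  have hf : Function.Injective f := by
    intro r s h
    apply hρ
    have h2 := g.injective h
    have h3 := congrArg Units.val h2
    simpa using h3
  have hcard := Matrix.card_GL_field (𝔽 := ZMod 3) n
  rw [ZMod.card] at hcard
  rw [← hcard]
  exact Subgroup.card_dvd_of_injective f hf

/-- An operator of order coprime to `6` acts trivially on an invariant subspace of dimension at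
most `2`. -/
theorem gl2_odd [Finite W] (y : Module.End (ZMod 3) W) (k : ℕ) (hk : y ^ k = 1)
    (hcop : Nat.Coprime k 6) (X : Submodule (ZMod 3) W) (hinv : ∀ v ∈ X, y v ∈ X)
    (hX : Module.finrank (ZMod 3) X ≤ 2) : ∀ v ∈ X, y v = v := by
  have hk0 : k ≠ 0 := by
    rintro rfl
    simp at hcop
  let M : Module.End (ZMod 3) X := y.restrict hinv
  have hM : M ^ k = 1 := by
    have h1 : M ^ k = (y ^ k).restrict (Module.End.pow_apply_mem_of_forall_mem k hinv) :=
      Module.End.pow_restrict k hinv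
    rw [h1]
    ext v
    simp [LinearMap.restrict_apply, hk]
  let u : (Module.End (ZMod 3) X)ˣ := Units.ofPowEqOne M k hM hk0
  have hN := unit_pow_card _ rfl u
  have hdvd : (∏ i : Fin (Module.finrank (ZMod 3) X), (3 ^ (Module.finrank (ZMod 3) X) - 3 ^ (i : ℕ))) ∣ 48 := by
    generalize Module.finrank (ZMod 3) X = n at hX
    interval_cases n <;> decide
  have h48 : u ^ 48 = 1 := by
    obtain ⟨c, hc⟩ := hdvd
    rw [hc, pow_mul, hN, one_pow]
  have huk : u ^ k = 1 := Units.ext (by simpa [u] using hM)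
  have hgcd : Nat.gcd 48 k = 1 := by
    have h1 : Nat.Coprime k 48 := by
      have : (48 : ℕ) = 6 ^ 2 * 4 / 3 := by norm_num
      have h2 : Nat.Coprime k 2 := Nat.Coprime.coprime_dvd_right (by norm_num) hcop
      have h3 : Nat.Coprime k 3 := Nat.Coprime.coprime_dvd_right (by norm_num) hcop
      have : (48 : ℕ) = 2 ^ 4 * 3 := by norm_num
      rw [this]
      exact Nat.Coprime.mul_right (Nat.Coprime.pow_right 4 h2) h3
    rw [Nat.gcd_comm]
    exact h1
  have hu1 : u = 1 := by
    have := pow_gcd_eq_one.mpr ⟨h48, huk⟩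
    rwa [hgcd, pow_one] at this
  have hM1 : M = 1 := by
    have := congrArg Units.val hu1
    simpa [u] using this
  intro v hv
  have := LinearMap.congr_fun hM1 ⟨v, hv⟩
  simpa [M, LinearMap.restrict_apply] using this

/-- The `End` power of `ρ`. -/
theorem rho_pow (ρ : R →* Module.End (ZMod 3) W) (r : R) (k : ℕ) : ρ r ^ k = ρ (r ^ k) := by
  rw [map_pow]

variable {ρ : R →* Module.End (ZMod 3) W} {B : Module.End (ZMod 3) W} {φ : R ≃* R} {x : R} {e : W}

/-- Weights of the translates of `e`. -/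
theorem Frame.wt2 (hc : PreCtx ρ B φ) (ht : Triple φ x) (hf : Frame ρ B φ x e) :
    ρ x (B e) = -B e ∧ ρ (φ x) (B e) = B e := by
  obtain ⟨haa, hcc, hac, hd, hBa, hBc, hBd⟩ := hc.ops ht
  have e1 : ρ (φ x) (B e) = B e := by rw [← hBa, hf.h1]
  refine ⟨?_, e1⟩
  have := hBc e
  rw [hf.h2, map_neg, e1] at this
  exact this.symm

theorem Frame.wt3 (hc : PreCtx ρ B φ) (ht : Triple φ x) (hf : Frame ρ B φ x e) :
    ρ x (B (B e)) = -B (B e) ∧ ρ (φ x) (B (B e)) = -B (B e) := by
  obtain ⟨haa, hcc, hac, hd, hBa, hBc, hBd⟩ := hc.ops ht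
  obtain ⟨h1, h2⟩ := Frame.wt2 hc ht hf
  have e1 : ρ (φ x) (B (B e)) = -B (B e) := by rw [← hBa, h1, map_neg]
  refine ⟨?_, e1⟩
  have := hBc (B e)
  rw [h2, e1, map_neg] at this
  have h5 := congrArg Neg.neg this
  simpa using h5.symm

theorem Frame.B_inv_wt2 (hc : PreCtx ρ B φ) (ht : Triple φ x) {v : W}
    (h1 : ρ x v = -v) (h2 : ρ (φ x) v = v) :
    ρ x (B (B v)) = B (B v) ∧ ρ (φ x) (B (B v)) = -B (B v) := by
  obtain ⟨haa, hcc, hac, hd, hBa, hBc, hBd⟩ := hc.ops ht
  have a1 : ρ (φ x) (B v) = -B v := by rw [← hBa, h1, map_neg]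
  have a2 : ρ x (B v) = -B v := by
    have := hBc v
    rw [h2, a1, map_neg] at this
    have h5 := congrArg Neg.neg this
    simpa using h5.symm
  have a3 : ρ (φ x) (B (B v)) = -B (B v) := by rw [← hBa, a2, map_neg]
  refine ⟨?_, a3⟩
  have := hBc (B v)
  rw [a1, a3, map_neg, map_neg] at this
  have h5 := congrArg Neg.neg this
  simpa using h5.symm

theorem Frame.B_inv_wt3 (hc : PreCtx ρ B φ) (ht : Triple φ x) {v : W}
    (h1 : ρ x v = -v) (h2 : ρ (φ x) v = -v) :
    ρ x (B v) = B v ∧ ρ (φ x) (B v) = -B v := by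
  obtain ⟨haa, hcc, hac, hd, hBa, hBc, hBd⟩ := hc.ops ht
  have a1 : ρ (φ x) (B v) = -B v := by rw [← hBa, h1, map_neg]
  refine ⟨?_, a1⟩
  have := hBc v
  rw [h2, a1, map_neg, map_neg] at this
  have h5 := congrArg Neg.neg this
  simpa using h5.symm

/-- The line of the second weight. -/
theorem Frame.line2 (hc : PreCtx ρ B φ) (ht : Triple φ x) (hf : Frame ρ B φ x e) {v : W}
    (h1 : ρ x v = -v) (h2 : ρ (φ x) v = v) : v = 0 ∨ v = B e ∨ v = -B e := by
  obtain ⟨a1, a2⟩ := Frame.B_inv_wt2 hc ht h1 h2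
  have hv : B (B (B v)) = v := hc.B3_apply v
  rcases hf.line _ a1 a2 with h | h | h
  · left; rw [← hv, h, map_zero]
  · right; left; rw [← hv, h]
  · right; right; rw [← hv, h, map_neg]

/-- The line of the third weight. -/
theorem Frame.line3 (hc : PreCtx ρ B φ) (ht : Triple φ x) (hf : Frame ρ B φ x e) {v : W}
    (h1 : ρ x v = -v) (h2 : ρ (φ x) v = -v) : v = 0 ∨ v = B (B e) ∨ v = -B (B e) := by
  obtain ⟨a1, a2⟩ := Frame.B_inv_wt3 hc ht h1 h2
  have hv : B (B (B v)) = v := hc.B3_apply v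
  rcases hf.line _ a1 a2 with h | h | h
  · left; rw [← hv, h, map_zero, map_zero]
  · right; left; rw [← hv, h]
  · right; right; rw [← hv, h, map_neg, map_neg]

/-- Every vector is a combination of the frame and a `Q`-fixed vector. -/
theorem Frame.expand (hc : PreCtx ρ B φ) (ht : Triple φ x) (hf : Frame ρ B φ x e) (v : W) :
    ∃ (v₀ : W) (α β γ : ZMod 3), v = v₀ + α • e + β • B e + γ • B (B e) ∧
      ρ x v₀ = v₀ ∧ ρ (φ x) v₀ = v₀ := by
  obtain ⟨haa, hcc, hac, hd, hBa, hBc, hBd⟩ := hc.ops ht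
  obtain ⟨v₀, v₁, v₂, v₃, hv, h0, h1, h2, h3⟩ := decomp (ρ x) (ρ (φ x)) haa hcc hac v
  have step : ∀ w f : W, (w = 0 ∨ w = f ∨ w = -f) → ∃ α : ZMod 3, w = α • f := by
    rintro w f (h | h | h)
    · exact ⟨0, by simp [h]⟩
    · exact ⟨1, by simp [h]⟩
    · exact ⟨-1, by simp [h]⟩
  obtain ⟨α, hα⟩ := step _ _ (hf.line _ h1.1 h1.2)
  obtain ⟨β, hβ⟩ := step _ _ (Frame.line2 hc ht hf h2.1 h2.2)
  obtain ⟨γ, hγ⟩ := step _ _ (Frame.line3 hc ht hf h3.1 h3.2)
  exact ⟨v₀, α, β, γ, by rw [hv, hα, hβ, hγ], h0.1, h0.2⟩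

/-- The rotated frame. -/
theorem Frame.rot (hc : PreCtx ρ B φ) (ht : Triple φ x) (hf : Frame ρ B φ x e) :
    Frame ρ B φ (φ x) (B e) := by
  obtain ⟨haa, hcc, hac, hd, hBa, hBc, hBd⟩ := hc.ops ht
  obtain ⟨w1, w2⟩ := Frame.wt2 hc ht hf
  refine ⟨w2, ?_, ?_, ?_, hc.B_ne_zero hf.ne⟩
  · rw [hd, w2, w1]
  · intro v h1 h2
    rw [hd, h1] at h2
    exact Frame.line2 hc ht hf h2 h1
  · intro v h1 h2
    rw [hd, h1] at h2
    exact hf.fix v h2 h1

theorem finrank_span_pair [Finite W] (u v : W) :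
    Module.finrank (ZMod 3) (Submodule.span (ZMod 3) ({u, v} : Set W)) ≤ 2 := by
  classical
  have := finrank_span_finset_le_card (R := ZMod 3) ({u, v} : Finset W)
  rw [Finset.coe_insert, Finset.coe_singleton] at this
  exact this.trans Finset.card_le_two

/-- Linear algebra core of the inverted-element lemma. -/
theorem inverted_core [Finite W] (a c Y Yi : Module.End (ZMod 3) W) (e e₂ e₃ : W) (k : ℕ)
    (hk : Y ^ k = 1) (hcop : Nat.Coprime k 6)
    (hYi : ∀ v, Y (Yi v) = v) (hiY : ∀ v, Yi (Y v) = v)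
    (hYd : ∀ v, a (c (Y v)) = Y (a (c v))) (hinv : ∀ v, a (Y v) = Yi (a v))
    (he1 : a e = e) (he2 : c e = -e) (w21 : a e₂ = -e₂) (w22 : c e₂ = e₂)
    (w31 : a e₃ = -e₃) (w32 : c e₃ = -e₃)
    (hexp : ∀ v, ∃ (v₀ : W) (α β γ : ZMod 3), v = v₀ + α • e + β • e₂ + γ • e₃ ∧ a v₀ = v₀ ∧ c v₀ = v₀) :
    ∀ v, Y (Y (Y (Y (Y (Y v))))) = v := by
  classical
  have span12 : ∀ v, a (c v) = -v → v ∈ Submodule.span (ZMod 3) {e, e₂} := by
    intro v hv
    obtain ⟨v₀, α, β, γ, rfl, h3, h4⟩ := hexp v
    simp only [map_add, map_smul, he1, he2, w21, w22, w31, w32, h3, h4, smul_neg, neg_neg, map_neg]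
      at hv
    have h5 : v₀ + v₀ + (γ • e₃ + γ • e₃) = 0 := by
      have t1 := three_smul (α • e)
      have t2 := three_smul (β • e₂)
      linear_combination (norm := module) hv
    have k := comp_unique a c (v₀ := v₀ + v₀) (v₁ := 0) (v₂ := 0) (v₃ := γ • e₃ + γ • e₃)
      (by simp [h3, h4]) (by simp) (by simp) (by simp [w31, w32, smul_neg])
      (by simpa using h5)
    have k0 : v₀ = 0 := by
      have := k.1
      rw [add_self_eq_neg'] at this
      simpa using this
    have k3 : γ • e₃ = 0 := by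
      have := k.2.2.2
      rw [add_self_eq_neg'] at this
      simpa using this
    rw [k0, k3, zero_add, add_zero]
    exact Submodule.add_mem _ (Submodule.smul_mem _ _ (Submodule.subset_span (by simp)))
      (Submodule.smul_mem _ _ (Submodule.subset_span (by simp)))
  have hfix12 : ∀ v ∈ Submodule.span (ZMod 3) {e, e₂}, Y v = v := by
    apply gl2_odd Y k hk hcop
    · intro v hv
      apply span12
      rw [hYd]
      have h3 : a (c v) = -v := by
        induction hv using Submodule.span_induction with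
        | mem u hu =>
          rcases hu with rfl | hu
          · rw [he2, map_neg, he1]
          · rw [Set.mem_singleton_iff] at hu
            rw [hu, w22, w21]
        | zero => simp
        | add u₁ u₂ _ _ h₁ h₂ => simp only [map_add, h₁, h₂]; abel
        | smul t u _ h₁ => simp only [map_smul, h₁, smul_neg]
      rw [h3, map_neg]
    · exact finrank_span_pair e e₂
  have he1' : Y e = e := hfix12 e (Submodule.subset_span (by simp))
  have he2' : Y e₂ = e₂ := hfix12 e₂ (Submodule.subset_span (by simp))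
  -- expansion of a vector with `d`-weight `+1`
  have expX : ∀ v, a (c v) = v → ∃ (u₀ : W) (α : ZMod 3), v = u₀ + α • e₃ ∧ a u₀ = u₀ ∧ c u₀ = u₀ := by
    intro v hv
    obtain ⟨v₀, α, β, γ, rfl, h3, h4⟩ := hexp v
    simp only [map_add, map_smul, he1, he2, w21, w22, w31, w32, h3, h4, smul_neg, neg_neg, map_neg]
      at hv
    have h5 : (α • e + α • e) + (β • e₂ + β • e₂) = 0 := by
      linear_combination (norm := module) - hv
    have k := comp_unique a c (v₀ := 0) (v₁ := α • e + α • e) (v₂ := β • e₂ + β • e₂) (v₃ := 0)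
      (by simp) (by simp [he1, he2, smul_neg]) (by simp [w21, w22, smul_neg]) (by simp)
      (by simpa using h5)
    have k1 : α • e = 0 := by
      have := k.2.1
      rw [add_self_eq_neg'] at this
      simpa using this
    have k2 : β • e₂ = 0 := by
      have := k.2.2.1
      rw [add_self_eq_neg'] at this
      simpa using this
    exact ⟨v₀, γ, by rw [k1, k2]; simp, h3, h4⟩
  -- `Y` fixes `e₃`
  have he3' : Y e₃ = e₃ := by
    have hX : a (c e₃) = e₃ := by rw [w32, map_neg, w31, neg_neg]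
    obtain ⟨u₀, α, hu, h3, h4⟩ := expX (Y e₃) (by rw [hYd, hX])
    have h5 : a (Y e₃) = -Yi e₃ := by rw [hinv, w31, map_neg]
    rw [hu] at h5
    simp only [map_add, map_smul, w31, h3, smul_neg] at h5
    -- `Y e₃ + Y⁻¹ e₃ = 2 α e₃`
    have h6 : Yi e₃ = -u₀ + α • e₃ := by
      have := congrArg Neg.neg h5
      simp only [neg_neg] at this
      rw [← this]
      abel
    have h7 : Y e₃ + Yi e₃ = -(α • e₃) := by
      have := add_self_eq_neg' (α • e₃)
      rw [hu, h6, ← this]
      abel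
    have hinvspan : ∀ v ∈ Submodule.span (ZMod 3) {e₃, Y e₃}, Y v ∈ Submodule.span (ZMod 3) {e₃, Y e₃} := by
      intro v hv
      induction hv using Submodule.span_induction with
      | mem u hu =>
        rcases hu with rfl | hu
        · exact Submodule.subset_span (by simp)
        · rw [Set.mem_singleton_iff] at hu
          rw [hu]
          have h8 : Y (Y e₃) = - e₃ - (α • Y e₃) := by
            have := congrArg Y h7
            simp only [map_add, hYi, map_neg, map_smul] at this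
            linear_combination (norm := module) this
          rw [h8]
          exact Submodule.sub_mem _ (Submodule.neg_mem _ (Submodule.subset_span (by simp)))
            (Submodule.smul_mem _ _ (Submodule.subset_span (by simp)))
      | zero => simp
      | add u₁ u₂ _ _ h₁ h₂ => rw [map_add]; exact Submodule.add_mem _ h₁ h₂
      | smul t u _ h₁ => rw [map_smul]; exact Submodule.smul_mem _ _ h₁
    have := gl2_odd Y k hk hcop _ hinvspan (finrank_span_pair e₃ (Y e₃)) e₃
      (Submodule.subset_span (by simp))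
    exact this
  -- `Y²` on the fixed part
  have hfix0 : ∀ v₀, a v₀ = v₀ → c v₀ = v₀ → Y (Y (Y (Y (Y (Y v₀))))) = v₀ := by
    intro v₀ h3 h4
    have hX : a (c (Y v₀)) = Y v₀ := by rw [hYd, h4, h3]
    obtain ⟨u₀, β, hu, h5, h6⟩ := expX (Y v₀) hX
    have h7 : a (Y v₀) = Yi v₀ := by rw [hinv, h3]
    rw [hu] at h7
    simp only [map_add, map_smul, w31, h5, smul_neg] at h7
    have h8 : Y v₀ = Yi v₀ + (β • e₃ + β • e₃) := by
      rw [hu, ← h7]
      abel
    have h9 : Y (Y v₀) = v₀ - β • e₃ := by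
      rw [h8]
      simp only [map_add, map_smul, hYi, he3']
      have t := three_smul (β • e₃)
      linear_combination (norm := module) t
    have h10 : Y (Y (Y (Y (Y (Y v₀))))) = v₀ - β • e₃ - β • e₃ - β • e₃ := by
      simp only [h9, map_sub, map_smul, he3']
    rw [h10]
    have t := three_smul (β • e₃)
    linear_combination (norm := module) -t
  intro v
  obtain ⟨v₀, α, β, γ, rfl, h3, h4⟩ := hexp v
  simp only [map_add, map_smul, he1', he2', he3', hfix0 v₀ h3 h4]

/-- The key lemma: an element of order coprime to `6` centralizing `x₃ = φ² x` and inverted by `x`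
is trivial. -/
theorem inverted_eq_one [Finite W] (hc : Ctx ρ B φ) (ht : Triple φ x) (hf : Frame ρ B φ x e)
    (y : R) (hy : Nat.Coprime (orderOf y) 6) (hfin : y ^ orderOf y = 1)
    (h1 : y * φ (φ x) = φ (φ x) * y) (h2 : x * y * x⁻¹ = y⁻¹) : y = 1 := by
  obtain ⟨haa, hcc, hac, hd, hBa, hBc, hBd⟩ := hc.ops ht
  obtain ⟨w21, w22⟩ := Frame.wt2 hc.toPreCtx ht hf
  obtain ⟨w31, w32⟩ := Frame.wt3 hc.toPreCtx ht hf
  have hYk : ρ y ^ orderOf y = 1 := by rw [rho_pow, hfin, map_one]
  have hYd : ∀ v, ρ x (ρ (φ x) (ρ y v)) = ρ y (ρ x (ρ (φ x) v)) := by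
    intro v
    rw [← hd, ← hd, ← rho_mul, ← rho_mul, h1]
  have hinv : ∀ v, ρ x (ρ y v) = ρ y⁻¹ (ρ x v) := by
    intro v
    have : x * y = y⁻¹ * x := by
      rw [← h2]; group
    rw [← rho_mul, this, rho_mul]
  have key := inverted_core (ρ x) (ρ (φ x)) (ρ y) (ρ y⁻¹) e (B e) (B (B e)) (orderOf y) hYk hy
    (fun v => rho_rho_inv ρ y v) (fun v => rho_inv_rho ρ y v) hYd hinv hf.h1 hf.h2 w21 w22 w31 w32
    (Frame.expand hc.toPreCtx ht hf)
  have h6 : ρ (y ^ 6) = 1 := by
    ext v
    simpa [pow_succ, rho_mul] using key v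
  have h7 : y ^ 6 = 1 := hc.inj (by rw [h6, map_one])
  have h8 : orderOf y ∣ 6 := orderOf_dvd_of_pow_eq_one h7
  have h9 : orderOf y = 1 := Nat.Coprime.eq_one_of_dvd hy h8
  exact orderOf_eq_one_iff.mp h9

/-- The four-group of a triple. -/
def fourGroup (ht : Triple φ x) : Subgroup R where
  carrier := {g | g = 1 ∨ g = x ∨ g = φ x ∨ g = φ (φ x)}
  one_mem' := Or.inl rfl
  inv_mem' := by
    rintro g (rfl | rfl | rfl | rfl)
    · left; simp
    · right; left; exact ht.inv
    · right; right; left; exact ht.rot.inv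
    · right; right; right; exact ht.rot.rot.inv
  mul_mem' := by
    have h1 := ht.sq
    have h2 := ht.rot.sq
    have h3 := ht.rot.rot.sq
    have h4 : x * φ x = φ (φ x) := by rw [ht.third, ht.comm]
    have h5 : φ x * x = φ (φ x) := ht.third.symm
    have h6 : x * φ (φ x) = φ x := by rw [← h4, ← mul_assoc, h1, one_mul]
    have h7 : φ (φ x) * x = φ x := by rw [← h5, mul_assoc, h1, mul_one]
    have h8 : φ x * φ (φ x) = x := by rw [← h5, ← mul_assoc, h2, one_mul]
    have h9 : φ (φ x) * φ x = x := by rw [← h4, mul_assoc, h2, mul_one]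
    rintro a b (rfl | rfl | rfl | rfl) (rfl | rfl | rfl | rfl) <;>
      simp only [Set.mem_ofPred_eq, one_mul, mul_one, h1, h2, h3, h4, h5, h6, h7, h8, h9, true_or, or_true]

theorem mem_fourGroup (ht : Triple φ x) {g : R} :
    g ∈ fourGroup ht ↔ g = 1 ∨ g = x ∨ g = φ x ∨ g = φ (φ x) := Iff.rfl

theorem fourGroup_elementary (ht : Triple φ x) : Cfsg.IsElementaryAbelian 2 (fourGroup ht) := by
  have h4 : x * φ x = φ x * x := ht.comm
  have h5 : φ x * x = φ (φ x) := ht.third.symm
  refine ⟨⟨⟨?_⟩⟩, ?_⟩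
  · rintro ⟨a, ha⟩ ⟨b, hb⟩
    apply Subtype.ext
    simp only [Subgroup.coe_mul]
    have h6 : ∀ g, g ∈ fourGroup ht → ∃ i j : ℕ, g = x ^ i * (φ x) ^ j := by
      rintro g (rfl | rfl | rfl | rfl)
      · exact ⟨0, 0, by simp⟩
      · exact ⟨1, 0, by simp⟩
      · exact ⟨0, 1, by simp⟩
      · exact ⟨1, 1, by rw [pow_one, pow_one, h4, h5]⟩
    obtain ⟨i, j, rfl⟩ := h6 a ha
    obtain ⟨k, l, rfl⟩ := h6 b hb
    have hc : Commute x (φ x) := h4
    have e1 : Commute (x ^ i) (x ^ k) := (Commute.refl x).pow_pow i k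
    have e2 : Commute (x ^ i) ((φ x) ^ l) := hc.pow_pow i l
    have e3 : Commute ((φ x) ^ j) (x ^ k) := (hc.symm).pow_pow j k
    have e4 : Commute ((φ x) ^ j) ((φ x) ^ l) := (Commute.refl (φ x)).pow_pow j l
    exact ((e1.mul_right e2).mul_left (e3.mul_right e4))
  · rintro a (rfl | rfl | rfl | rfl)
    · simp
    · rw [pow_two, ht.sq]
    · rw [pow_two, ht.rot.sq]
    · rw [pow_two, ht.rot.rot.sq]

theorem three_le_card_fourGroup [Finite R] (ht : Triple φ x) : 3 ≤ Nat.card (fourGroup ht) := by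
  let f : Fin 3 → fourGroup ht := ![1, ⟨x, Or.inr (Or.inl rfl)⟩, ⟨φ x, Or.inr (Or.inr (Or.inl rfl))⟩]
  have hf : Function.Injective f := by
    have h1 : (f 0 : R) = 1 := rfl
    have h2 : (f 1 : R) = x := rfl
    have h3 : (f 2 : R) = φ x := rfl
    have n1 : x ≠ 1 := ht.ne
    have n2 : φ x ≠ 1 := ht.rot.ne
    have n3 : φ x ≠ x := ht.phi_ne
    intro i j hij
    have hij' : (f i : R) = f j := congrArg Subtype.val hij
    fin_cases i <;> fin_cases j <;> first
      | rfl
      | (exfalso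
         simp only [Fin.zero_eta, Fin.mk_one, Fin.reduceFinMk, h1, h2, h3] at hij'
         first
           | exact n1 hij'
           | exact n1 hij'.symm
           | exact n2 hij'
           | exact n2 hij'.symm
           | exact n3 hij'
           | exact n3 hij'.symm)
  have := Nat.card_le_card_of_injective f hf
  simpa using this

/-- Elements of odd order normalized by the triple, centralizing one involution, centralize all. -/
theorem commute_of_commute_third [Finite W] [Finite R] (hc : Ctx ρ B φ) (ht : Triple φ x)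
    (hf : Frame ρ B φ x e) (K : Subgroup R) (hKn : K.Normal) (hK2 : ¬ 2 ∣ Nat.card K)
    (k : R) (hk : k ∈ K) (hcomm : k * φ (φ x) = φ (φ x) * k) : k * x = x * k ∧ k * φ x = φ x * k := by
  have hxinv := ht.inv
  set y := k⁻¹ * (x * k * x) with hy
  have hyK : y ∈ K := by
    apply K.mul_mem (K.inv_mem hk)
    have := hKn.conj_mem k hk x
    rwa [hxinv] at this
  have hK3 : ¬ 3 ∣ Nat.card K := fun h =>
    hc.odd3 (h.trans (Subgroup.card_subgroup_dvd_card K))
  have hord : orderOf y ∣ Nat.card K := Subgroup.orderOf_dvd_natCard K hyK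
  have hcop : Nat.Coprime (orderOf y) 6 := by
    have h2 : Nat.Coprime (orderOf y) 2 := by
      rw [Nat.coprime_comm, Nat.Prime.coprime_iff_not_dvd Nat.prime_two]
      exact fun h => hK2 (h.trans hord)
    have h3 : Nat.Coprime (orderOf y) 3 := by
      rw [Nat.coprime_comm, Nat.Prime.coprime_iff_not_dvd Nat.prime_three]
      exact fun h => hK3 (h.trans hord)
    exact Nat.Coprime.mul_right h2 h3
  have hx3 : x * φ (φ x) = φ (φ x) * x := by
    rw [ht.third, ← mul_assoc, ht.comm]
  have hy3 : y * φ (φ x) = φ (φ x) * y := by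
    have hk' : k⁻¹ * φ (φ x) = φ (φ x) * k⁻¹ := by
      rw [inv_mul_eq_iff_eq_mul, ← mul_assoc, hcomm, mul_assoc, mul_inv_cancel, mul_one]
    simp only [hy, mul_assoc]
    rw [hx3, ← mul_assoc k, hcomm, mul_assoc, ← mul_assoc x, hx3, mul_assoc, ← mul_assoc k⁻¹, hk', mul_assoc]
  have hy2 : x * y * x⁻¹ = y⁻¹ := by
    rw [hxinv, hy]
    simp only [mul_inv_rev, hxinv, inv_inv, mul_assoc]
    rw [ht.sq, mul_one]
  have hy1 := inverted_eq_one hc ht hf y hcop (pow_orderOf_eq_one y) hy3 hy2
  have h5 : x * k * x = k := by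
    rw [hy, inv_mul_eq_one] at hy1
    exact hy1.symm
  have h6 : k * x = x * k := by
    calc k * x = x * k * x * x := by rw [h5]
      _ = x * k * (x * x) := by group
      _ = x * k := by rw [ht.sq, mul_one]
  refine ⟨h6, ?_⟩
  have h7 : φ x = φ (φ x) * x := by
    rw [ht.third, mul_assoc, ht.sq, mul_one]
  rw [h7, ← mul_assoc, hcomm, mul_assoc, h6, mul_assoc]

/-- The odd core is trivial. -/
theorem normal_odd_eq_bot [Finite W] [Finite R] (hc : Ctx ρ B φ) (ht : Triple φ x)
    (hf : Frame ρ B φ x e) (K : Subgroup R) (hKn : K.Normal) (hKφ : ∀ k ∈ K, φ k ∈ K)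
    (hK2 : ¬ 2 ∣ Nat.card K) : K = ⊥ := by
  classical
  have hKQ : ∀ k ∈ K, k * x = x * k ∧ k * φ x = φ x * k := by
    have hle : K ≤ Subgroup.centralizer ((fourGroup ht : Subgroup R) : Set R) := by
      have hnorm : fourGroup ht ≤ Subgroup.normalizer (K : Set R) := by
        rw [Subgroup.normalizer_eq_top_iff.mpr hKn]; exact le_top
      rw [Cfsg.Agent.Lib.Coprime.Generation2.eq_iSup_relIndex_le (p := 2) (fourGroup_elementary ht) hK2 hnorm]
      refine iSup_le ?_
      rintro ⟨D, hD, hDi⟩ k ⟨hk, hkD⟩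
      have hne : D ≠ ⊥ := by
        rintro rfl
        rw [Subgroup.relIndex_bot_left] at hDi
        have := three_le_card_fourGroup ht
        omega
      obtain ⟨d, hd, hd1⟩ := D.bot_or_exists_ne_one.resolve_left hne
      have hkd : k * d = d * k := ((Subgroup.mem_centralizer_iff.mp hkD) d hd).symm
      have all3 : k * x = x * k ∧ k * φ x = φ x * k ∧ k * φ (φ x) = φ (φ x) * k := by
        rcases hD hd with h | h | h | h
        · exact absurd h hd1
        · subst h
          have := commute_of_commute_third hc ht.rot (Frame.rot hc.toPreCtx ht hf) K hKn hK2 k hk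
            (by rw [hc.φ3]; exact hkd)
          exact ⟨hkd, this.1, this.2⟩
        · subst h
          have := commute_of_commute_third hc ht.rot.rot (Frame.rot hc.toPreCtx ht.rot (Frame.rot hc.toPreCtx ht hf)) K hKn hK2 k hk
            (by rw [hc.φ3]; exact hkd)
          rw [hc.φ3] at this
          exact ⟨this.2, hkd, this.1⟩
        · subst h
          have := commute_of_commute_third hc ht hf K hKn hK2 k hk hkd
          exact ⟨this.1, this.2, hkd⟩
      rw [Subgroup.mem_centralizer_iff]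
      rintro g (rfl | rfl | rfl | rfl)
      · simp
      · exact all3.1.symm
      · exact all3.2.1.symm
      · exact all3.2.2.symm
    intro k hk
    have h1 := Subgroup.mem_centralizer_iff.mp (hle hk)
    exact ⟨(h1 x (Or.inr (Or.inl rfl))).symm, (h1 (φ x) (Or.inr (Or.inr (Or.inl rfl)))).symm⟩
  have he : ∀ k ∈ K, ρ k e = e := by
    intro k hk
    obtain ⟨h1, h2⟩ := hKQ k hk
    have a1 : ρ x (ρ k e) = ρ k e := by rw [← rho_mul, ← h1, rho_mul, hf.h1]
    have a2 : ρ (φ x) (ρ k e) = -ρ k e := by rw [← rho_mul, ← h2, rho_mul, hf.h2, map_neg]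
    rcases hf.line _ a1 a2 with h | h | h
    · exfalso
      apply hf.ne
      apply rho_inj ρ k
      rw [h, map_zero]
    · exact h
    · exfalso
      -- `orderOf k` is odd
      have hord : orderOf k ∣ Nat.card K := Subgroup.orderOf_dvd_natCard K hk
      have hodd : ¬ 2 ∣ orderOf k := fun h => hK2 (h.trans hord)
      have hsq : ρ (k * k) e = e := by
        rw [rho_mul, h, map_neg, h, neg_neg]
      have hpow : ∀ n : ℕ, ρ ((k * k) ^ n) e = e := by
        intro n
        induction n with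
        | zero => simp [rho_one]
        | succ n ih => rw [pow_succ, rho_mul, hsq, ih]
      obtain ⟨t, ht'⟩ : ∃ t, orderOf k = 2 * t + 1 := by
        have := Nat.odd_iff.mpr (Nat.mod_two_ne_zero.mp (fun h0 => hodd (Nat.dvd_of_mod_eq_zero h0)))
        exact this
      have h1k : k ^ (2 * t + 1) = 1 := by rw [← ht']; exact pow_orderOf_eq_one k
      have h5 : ρ (k * (k * k) ^ t) e = -e := by
        rw [rho_mul, hpow, h]
      have h6 : k * (k * k) ^ t = k ^ (2 * t + 1) := by
        rw [← pow_two, ← pow_mul, pow_succ']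
      rw [h6, h1k, rho_one] at h5
      exact hf.ne ((eq_neg_self_iff e).mp h5)
  let N : Submodule (ZMod 3) W :=
    { carrier := {v | ∀ k ∈ K, ρ k v = v}
      add_mem' := fun {u v} hu hv k hk => by rw [map_add, hu k hk, hv k hk]
      zero_mem' := fun k _ => map_zero _
      smul_mem' := fun t v hv k hk => by rw [map_smul, hv k hk] }
  have hN : N = ⊤ := by
    have i1 : ∀ r, ∀ v ∈ N, ρ r v ∈ N := by
      intro r v hv k hk
      have h1 : r⁻¹ * k * r ∈ K := by
        have := hKn.conj_mem k hk r⁻¹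
        rwa [inv_inv] at this
      have h2 := hv _ h1
      calc ρ k (ρ r v) = ρ r (ρ (r⁻¹ * k * r) v) := by
            simp only [rho_mul, rho_rho_inv]
        _ = ρ r v := by rw [h2]
    have i2 : ∀ v ∈ N, B v ∈ N := by
      intro v hv k hk
      have h1 : φ (φ k) ∈ K := hKφ _ (hKφ _ hk)
      have h2 := hc.conj_apply (φ (φ k)) v
      rw [hc.φ3, hv _ h1] at h2
      exact h2.symm
    rcases hc.irr N i1 i2 with h | h
    · exfalso
      have : e ∈ N := he
      rw [h] at this
      exact hf.ne (by simpa using this)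
    · exact h
  rw [eq_bot_iff]
  intro k hk
  rw [Subgroup.mem_bot]
  apply hc.inj
  rw [map_one]
  ext v
  have : v ∈ N := by rw [hN]; trivial
  exact this k hk

end Cfsg.Agent.Lib.Cubic3.Odd
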