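/-
Dimension bounds: the quaternion lemma and the case without a `φ`-moved normal elementary
abelian subgroup.
-/
import Cfsg.Agent.Lib.Cubic3.Odd
import Cfsg.Agent.Lib.CaseTh.SolvableCharP
import Cfsg.Agent.Lib.SolvStruct.Fit

set_option autoImplicit false

namespace Cfsg.Agent.Lib.Cubic3.Dim

open Cfsg.Agent.Lib.Cubic3.Basic Cfsg.Agent.Lib.Cubic3.Odd

variable {R W : Type*} [Group R] [AddCommGroup W] [Module (ZMod 3) W]

/-- The quaternion lemma. -/
theorem quat_dim [Finite W] (i j k B : Module.End (ZMod 3) W)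
    (hii : ∀ v, i (i v) = -v) (hij : ∀ v, i (j v) = k v) (hji : ∀ v, j (i v) = -k v)
    (hjk : ∀ v, j (k v) = i v) (hkj : ∀ v, k (j v) = -i v) (hki : ∀ v, k (i v) = j v)
    (hik : ∀ v, i (k v) = -j v) (hjj : ∀ v, j (j v) = -v) (hkk : ∀ v, k (k v) = -v)
    (hBi : ∀ v, B (i v) = j (B v)) (hBj : ∀ v, B (j v) = k (B v)) (hBk : ∀ v, B (k v) = i (B v))
    (hrank : Module.finrank (ZMod 3) (LinearMap.range (B - 1)) ≤ 2) :
    Module.finrank (ZMod 3) W ≤ 4 := by
  have : Module.Finite (ZMod 3) W := Module.Finite.of_finite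
  let x : Module.End (ZMod 3) W := i + j + k
  have hx : ∀ v, x v = i v + j v + k v := fun v => rfl
  have hxx : ∀ v, x (x v) = 0 := by
    intro v
    simp only [hx, map_add, hii, hij, hik, hji, hjj, hjk, hki, hkj, hkk]
    have h := three_smul v
    linear_combination (norm := module) -h
  have hxi : ∀ v, x (i v) + i (x v) = v := by
    intro v
    simp only [hx, map_add, hii, hij, hik, hji, hki]
    have h := three_smul v
    linear_combination (norm := module) -h
  have hBx : ∀ v, B (x v) = x (B v) := by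
    intro v
    simp only [hx, map_add, hBi, hBj, hBk]
    abel
  let W₀ : Submodule (ZMod 3) W := LinearMap.ker x
  have hW₀ : ∀ w, w ∈ W₀ ↔ x w = 0 := fun w => LinearMap.mem_ker
  -- on `W₀`: `j = i + 1`
  have hjW : ∀ w, x w = 0 → j w = i w + w := by
    intro w hw
    have h1 := congrArg j hw
    simp only [hx, map_add, map_zero, hji, hjj, hjk] at hw h1
    have h := three_smul (j w)
    -- `k w = i w - w` from `j x w = 0`, then `x w = 0`
    have h2 : k w = i w - w := by
      linear_combination (norm := module) - h1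
    rw [h2] at hw
    have h3 := three_smul (i w)
    have h4 := three_smul w
    linear_combination (norm := module) hw - h3 + h4 + (-1 : ZMod 3) • h4 - h4 + h4
  -- `T ∘ i` is injective on `W₀`
  have hinj : ∀ w, x w = 0 → B (i w) = i w → w = 0 := by
    intro w hw hT
    have hw' : x (B w) = 0 := by rw [← hBx, hw, map_zero]
    rw [hBi, hjW _ hw'] at hT
    -- `T (i w) = B w + i (B w - w)`, apply `x`
    have h1 := congrArg x hT
    have h2 := hxi (B w)
    have h3 := hxi w
    rw [hw', map_zero, add_zero] at h2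
    rw [hw, map_zero, add_zero] at h3
    simp only [map_add] at h1
    rw [h2, hw', add_zero, h3] at h1
    -- so `B w = w`, whence `w = 0`
    rw [h1] at hT
    simpa using hT
  let f : W₀ →ₗ[ZMod 3] LinearMap.range (B - 1) :=
    LinearMap.codRestrict _ ((B - 1) ∘ₗ i ∘ₗ W₀.subtype) (fun w => ⟨_, rfl⟩)
  have hf : Function.Injective f := by
    rw [← LinearMap.ker_eq_bot, LinearMap.ker_eq_bot']
    rintro ⟨w, hw⟩ h
    have h1 := congrArg Subtype.val h
    simp only [f, LinearMap.codRestrict_apply, LinearMap.comp_apply, Submodule.subtype_apply,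
      LinearMap.sub_apply, Module.End.one_apply, Submodule.coe_zero] at h1
    have := hinj w ((hW₀ w).mp hw) (sub_eq_zero.mp h1)
    exact Subtype.ext this
  have h1 : Module.finrank (ZMod 3) W₀ ≤ 2 :=
    (LinearMap.finrank_le_finrank_of_injective hf).trans hrank
  have htop : (⊤ : Submodule (ZMod 3) W) ≤ W₀ ⊔ W₀.map i := by
    intro v _
    have e := hxi v
    rw [← e]
    refine Submodule.add_mem_sup ((hW₀ _).mpr (hxx _)) ⟨x v, (hW₀ _).mpr (hxx _), rfl⟩
  have h2 : Module.finrank (ZMod 3) W ≤ Module.finrank (ZMod 3) W₀ + Module.finrank (ZMod 3) (W₀.map i) := by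
    calc Module.finrank (ZMod 3) W = Module.finrank (ZMod 3) (⊤ : Submodule (ZMod 3) W) := finrank_top _ _ |>.symm
      _ ≤ Module.finrank (ZMod 3) (W₀ ⊔ W₀.map i : Submodule (ZMod 3) W) := Submodule.finrank_mono htop
      _ ≤ _ := Submodule.finrank_add_le_finrank_add_finrank _ _
  have h3 : Module.finrank (ZMod 3) (W₀.map i) ≤ Module.finrank (ZMod 3) W₀ := Submodule.finrank_map_le _ _
  omega

variable {ρ : R →* Module.End (ZMod 3) W} {B : Module.End (ZMod 3) W} {φ : R ≃* R} {x : R} {e : W}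

/-- A normal `φ`-invariant subgroup of exponent two. -/
structure Good (φ : R ≃* R) (A : Subgroup R) : Prop where
  normal : A.Normal
  inv : ∀ a ∈ A, φ a ∈ A
  sq : ∀ a ∈ A, a * a = 1

/-- `φ`-fixed normal subgroups are central. -/
theorem central_of_fixed (hc : Ctx ρ B φ) (M : Subgroup R) (hM : M.Normal) (hfix : ∀ m ∈ M, φ m = m) :
    ∀ m ∈ M, ∀ r, r * m = m * r := by
  have hC : Subgroup.centralizer (M : Set R) = ⊤ := by
    apply hc.gen
    intro r
    rw [Subgroup.mem_centralizer_iff]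
    intro m hm
    have h1 : r * m * r⁻¹ ∈ M := hM.conj_mem m hm r
    have h2 := hfix _ h1
    rw [map_mul, map_mul, map_inv, hfix m hm] at h2
    calc m * (r⁻¹ * φ r) = r⁻¹ * (r * m * r⁻¹) * φ r := by group
      _ = r⁻¹ * (φ r * m * (φ r)⁻¹) * φ r := by rw [h2]
      _ = r⁻¹ * φ r * m := by group
  intro m hm r
  have : r ∈ Subgroup.centralizer (M : Set R) := by rw [hC]; trivial
  exact ((Subgroup.mem_centralizer_iff.mp this) m hm).symm

/-- Central `φ`-fixed elements act as `±1`. -/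
theorem scalar_of_central [Finite W] (hc : Ctx ρ B φ) (hf : Frame ρ B φ x e)
    (m : R) (hcen : ∀ r, r * m = m * r) (hfix : φ m = m) :
    (∀ v, ρ m v = v) ∨ (∀ v, ρ m v = -v) := by
  have a1 : ρ x (ρ m e) = ρ m e := by rw [← rho_mul, hcen, rho_mul, hf.h1]
  have a2 : ρ (φ x) (ρ m e) = -ρ m e := by rw [← rho_mul, hcen, rho_mul, hf.h2, map_neg]
  have key : ∀ t : ZMod 3, ρ m e = t • e → ∀ v, ρ m v = t • v := by
    intro t ht
    let N : Submodule (ZMod 3) W :=
      { carrier := {v | ρ m v = t • v}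
        add_mem' := fun {u v} hu hv => by
          change ρ m (u + v) = t • (u + v)
          rw [map_add, hu, hv, smul_add]
        zero_mem' := by
          change ρ m 0 = t • 0
          simp
        smul_mem' := fun s v hv => by
          change ρ m (s • v) = t • (s • v)
          rw [map_smul, hv, smul_comm] }
    have i1 : ∀ r, ∀ v ∈ N, ρ r v ∈ N := by
      intro r v (hv : ρ m v = t • v)
      change ρ m (ρ r v) = t • ρ r v
      rw [← rho_mul, ← hcen, rho_mul, hv, map_smul]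
    have i2 : ∀ v ∈ N, B v ∈ N := by
      intro v (hv : ρ m v = t • v)
      change ρ m (B v) = t • B v
      have := hc.conj_apply m v
      rw [hfix, hv, map_smul] at this
      exact this.symm
    rcases hc.irr N i1 i2 with h | h
    · exfalso
      have h3 : e ∈ N := ht
      rw [h] at h3
      exact hf.ne (by simpa using h3)
    · intro v
      have : v ∈ N := by rw [h]; trivial
      exact this
  rcases hf.line _ a1 a2 with h | h | h
  · exfalso
    apply hf.ne
    apply rho_inj ρ m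
    rw [h, map_zero]
  · left
    intro v
    have := key 1 (by rw [h, one_smul]) v
    rwa [one_smul] at this
  · right
    intro v
    have := key (-1) (by rw [h, neg_smul, one_smul]) v
    rwa [neg_smul, one_smul] at this

theorem tele (a b c : R) (hab : a * b = b * a) (hac : a * c = c * a) (hbc : b * c = c * b) :
    (b * a⁻¹) * (c * b⁻¹) * (a * c⁻¹) = 1 := by
  have h1 : Commute a b := hab
  have h2 : Commute a c := hac
  have h3 : Commute b c := hbc
  have h4 : c * b⁻¹ * (a * c⁻¹) = b⁻¹ * a := by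
    have h5 : Commute c (b⁻¹ * a) := (h3.symm.inv_right).mul_right h2.symm
    calc c * b⁻¹ * (a * c⁻¹) = c * (b⁻¹ * a) * c⁻¹ := by group
      _ = (b⁻¹ * a) * c * c⁻¹ := by rw [h5.eq]
      _ = b⁻¹ * a := by group
  rw [mul_assoc, h4]
  have h6 : a⁻¹ * b⁻¹ = b⁻¹ * a⁻¹ := (h1.inv_inv).eq
  calc b * a⁻¹ * (b⁻¹ * a) = b * (a⁻¹ * b⁻¹) * a := by group
    _ = b * (b⁻¹ * a⁻¹) * a := by rw [h6]
    _ = 1 := by group

theorem exists_involution_pow {t : R} {k : ℕ} (hk : t ^ (2 ^ k) = 1) (ht : t ≠ 1) :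
    ∃ j, t ^ (2 ^ j) ≠ 1 ∧ t ^ (2 ^ j) * t ^ (2 ^ j) = 1 := by
  induction k with
  | zero => simp at hk; exact absurd hk ht
  | succ k ih =>
    by_cases h : t ^ (2 ^ k) = 1
    · exact ih h
    · refine ⟨k, h, ?_⟩
      rw [← hk, pow_succ, pow_mul, pow_two]

/-- Under the negation of the main dichotomy, normal abelian `2`-subgroups act as scalars. -/
theorem abelian_scalar [Finite W] (hc : Ctx ρ B φ) (hf : Frame ρ B φ x e)
    (hgood : ∀ A, Good φ A → ∀ a ∈ A, φ a = a)
    (M : Subgroup R) (hM : M.Normal) (hMφ : ∀ m ∈ M, φ m ∈ M) (hM2 : IsPGroup 2 M)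
    (hab : ∀ a ∈ M, ∀ b ∈ M, a * b = b * a) :
    ∀ m ∈ M, (∀ v, ρ m v = v) ∨ (∀ v, ρ m v = -v) := by
  let Ω : Subgroup R :=
    { carrier := {m | m ∈ M ∧ m * m = 1}
      one_mem' := ⟨M.one_mem, by simp⟩
      inv_mem' := fun {a} ha => ⟨M.inv_mem ha.1, by
        have := ha.2
        rw [← mul_inv_rev, this, inv_one]⟩
      mul_mem' := fun {a b} ha hb => ⟨M.mul_mem ha.1 hb.1, by
        calc a * b * (a * b) = a * (b * a) * b := by group
          _ = a * (a * b) * b := by rw [hab b hb.1 a ha.1]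
          _ = (a * a) * (b * b) := by group
          _ = 1 := by rw [ha.2, hb.2, one_mul]⟩ }
  have hΩ : Good φ Ω := by
    refine ⟨⟨fun a ha g => ⟨hM.conj_mem a ha.1 g, ?_⟩⟩, fun a ha => ⟨hMφ a ha.1, ?_⟩, fun a ha => ha.2⟩
    · calc g * a * g⁻¹ * (g * a * g⁻¹) = g * (a * a) * g⁻¹ := by group
        _ = 1 := by rw [ha.2]; group
    · rw [← map_mul, ha.2, map_one]
  have hinv : ∀ t ∈ M, t * t = 1 → φ t = t := fun t ht h => hgood Ω hΩ t ⟨ht, h⟩
  have hfixall : ∀ m ∈ M, φ m = m := by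
    intro m hm
    by_contra hne
    set t := φ m * m⁻¹ with ht
    have htM : t ∈ M := M.mul_mem (hMφ m hm) (M.inv_mem hm)
    have ht1 : t ≠ 1 := by
      intro h
      exact hne (by rwa [ht, mul_inv_eq_one] at h)
    have h1 := hMφ m hm
    have h2 := hMφ _ h1
    have hN : t * φ t * φ (φ t) = 1 := by
      have e1 : φ t = φ (φ m) * (φ m)⁻¹ := by rw [ht, map_mul, map_inv]
      have e2 : φ (φ t) = m * (φ (φ m))⁻¹ := by
        rw [e1, map_mul, map_inv, hc.φ3]
      rw [e2, e1, ht]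
      exact tele m (φ m) (φ (φ m)) (hab _ hm _ h1) (hab _ hm _ h2) (hab _ h1 _ h2)
    obtain ⟨k, hk⟩ := hM2 ⟨t, htM⟩
    have hk' : t ^ (2 ^ k) = 1 := by
      have := congrArg Subtype.val hk
      simpa using this
    obtain ⟨j, hj1, hj2⟩ := exists_involution_pow hk' ht1
    have htj : t ^ (2 ^ j) ∈ M := M.pow_mem htM _
    have hfx := hinv _ htj hj2
    have h3 : φ t ∈ M := hMφ _ htM
    have h4 : φ (φ t) ∈ M := hMφ _ h3
    have hcomm1 : Commute t (φ t) := hab _ htM _ h3
    have hcomm2 : Commute (t * φ t) (φ (φ t)) :=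
      Commute.mul_left (hab _ htM _ h4) (hab _ h3 _ h4)
    have hpow : t ^ (2 ^ j) * (φ t) ^ (2 ^ j) * (φ (φ t)) ^ (2 ^ j) = 1 := by
      rw [← hcomm1.mul_pow, ← hcomm2.mul_pow, hN, one_pow]
    have e1 : (φ t) ^ (2 ^ j) = t ^ (2 ^ j) := by rw [← map_pow, hfx]
    have e2 : (φ (φ t)) ^ (2 ^ j) = t ^ (2 ^ j) := by rw [← map_pow, e1]; exact hfx
    rw [e1, e2, hj2, one_mul] at hpow
    exact hj1 hpow
  intro m hm
  exact scalar_of_central hc hf m (central_of_fixed hc M hM hfixall m hm) (hfixall m hm)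

open Cfsg Cfsg.Agent.Lib.Core.Basic

/-- Properties of the central element acting as `-1`. -/
structure IsMinus (ρ : R →* Module.End (ZMod 3) W) (φ : R ≃* R) (z : R) : Prop where
  neg : ∀ v, ρ z v = -v
  sq : z * z = 1
  cen : ∀ r, r * z = z * r
  fix : φ z = z

theorem isMinus_of_neg (hc : Ctx ρ B φ) {z : R} (hz : ∀ v, ρ z v = -v) : IsMinus ρ φ z := by
  refine ⟨hz, ?_, ?_, ?_⟩
  · apply hc.inj
    rw [map_one]
    ext v
    simp [rho_mul, hz]
  · intro r
    apply hc.inj
    ext v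
    simp [rho_mul, hz]
  · apply hc.inj
    ext v
    have h1 := hc.conj_apply z (B (B v))
    rw [hz, hc.B3_apply, map_neg, hc.B3_apply] at h1
    rw [hz]
    exact h1.symm

theorem IsMinus.eq_of_scalar {z m : R} (hc : Ctx ρ B φ) (hz : IsMinus ρ φ z)
    (h : (∀ v, ρ m v = v) ∨ (∀ v, ρ m v = -v)) : m = 1 ∨ m = z := by
  rcases h with h | h
  · left
    apply hc.inj
    ext v
    simp [h]
  · right
    apply hc.inj
    ext v
    simp [h, hz.neg]

theorem IsMinus.ne_one {z : R} [Nontrivial W] (hz : IsMinus ρ φ z) : z ≠ 1 := by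
  rintro rfl
  obtain ⟨v, hv⟩ := exists_ne (0 : W)
  have h := hz.neg v
  rw [rho_one] at h
  exact hv ((eq_neg_self_iff v).mp h)

/-- `T ∩ C(T)`-type objects: `pCore 2 R` is normal and `φ`-invariant. -/
theorem pCore_phi_mem [Finite R] (φ : R ≃* R) {t : R} (ht : t ∈ pCore 2 R) : φ t ∈ pCore 2 R := by
  have hc : (pCore 2 R).Characteristic := inferInstance
  have := hc.fixed φ
  have h2 : t ∈ (pCore 2 R).comap φ.toMonoidHom := by rw [this]; exact ht
  exact h2

theorem pPrimeCore_eq_bot [Finite R] [Finite W] (hc : Ctx ρ B φ) (ht : Triple φ x) (hf : Frame ρ B φ x e) :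
    pPrimeCore 2 R = ⊥ := by
  apply normal_odd_eq_bot hc ht hf
  · exact pPrimeCore_normal 2 R
  · intro k hk
    have hc : (pPrimeCore 2 R).Characteristic := inferInstance
    have := hc.fixed φ
    have h2 : k ∈ (pPrimeCore 2 R).comap φ.toMonoidHom := by rw [this]; exact hk
    exact h2
  · have := pPrimeCore_coprime (p := 2) (G := R)
    intro h
    have h2 := Nat.dvd_gcd h (dvd_refl 2)
    rw [Nat.Coprime.gcd_eq_one this] at h2
    omega

/-- The centralizer of `O₂(R)` lies in `O₂(R)`. -/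
theorem centralizer_le [Finite R] [Finite W] [Group.IsSolvable R] (hc : Ctx ρ B φ) (ht : Triple φ x)
    (hf : Frame ρ B φ x e) :
    Subgroup.centralizer ((pCore 2 R : Subgroup R) : Set R) ≤ pCore 2 R :=
  Cfsg.Agent.Lib.CaseTh.SolvableCharP.centralizer_pCore_le 2 (pPrimeCore_eq_bot hc ht hf)

/-- The centre of `O₂(R)` acts as scalars. -/
theorem center_scalar [Finite R] [Finite W] (hc : Ctx ρ B φ)
    (hf : Frame ρ B φ x e) (hgood : ∀ A, Good φ A → ∀ a ∈ A, φ a = a) {z : R} (hz : z ∈ pCore 2 R)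
    (hzc' : ∀ s ∈ pCore 2 R, s * z = z * s) : (∀ v, ρ z v = v) ∨ (∀ v, ρ z v = -v) := by
  have hT2 : IsPGroup 2 (pCore 2 R) := pCore_isPGroup
  have hTn : (pCore 2 R).Normal := pCore_normal 2 R
  let Z : Subgroup R := pCore 2 R ⊓ Subgroup.centralizer ((pCore 2 R : Subgroup R) : Set R)
  have hZn : Z.Normal := by
    have : (Subgroup.centralizer ((pCore 2 R : Subgroup R) : Set R)).Normal := inferInstance
    exact Subgroup.normal_inf_normal _ _
  have hZφ : ∀ m ∈ Z, φ m ∈ Z := by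
    intro m hm
    obtain ⟨h1, h2⟩ := Subgroup.mem_inf.mp hm
    refine Subgroup.mem_inf.mpr ⟨pCore_phi_mem φ h1, ?_⟩
    rw [Subgroup.mem_centralizer_iff]
    intro g hg
    have h3 : φ (φ g) ∈ pCore 2 R := pCore_phi_mem φ (pCore_phi_mem φ hg)
    have h4 := (Subgroup.mem_centralizer_iff.mp h2) _ h3
    have h5 := congrArg φ h4
    simpa [hc.φ3] using h5
  have hZ2 : IsPGroup 2 Z := IsPGroup.to_le (K := pCore 2 R) hT2 inf_le_left |> fun h => h
  have hZab : ∀ a ∈ Z, ∀ b ∈ Z, a * b = b * a := by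
    intro a ha b hb
    have h2 := (Subgroup.mem_inf.mp ha).2
    have h3 := (Subgroup.mem_inf.mp hb).1
    exact ((Subgroup.mem_centralizer_iff.mp h2) b h3).symm
  have hzZ : z ∈ Z := Subgroup.mem_inf.mpr ⟨hz, by
    rw [Subgroup.mem_centralizer_iff]
    exact hzc'⟩
  exact abelian_scalar hc hf hgood Z hZn hZφ hZ2 hZab z hzZ

/-- There is an element of `O₂(R)` acting as `-1`. -/
theorem exists_minus [Finite R] [Finite W] [Group.IsSolvable R] (hc : Ctx ρ B φ) (ht : Triple φ x)
    (hf : Frame ρ B φ x e) (hgood : ∀ A, Good φ A → ∀ a ∈ A, φ a = a) :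
    ∃ z ∈ pCore 2 R, IsMinus ρ φ z := by
  have hT2 : IsPGroup 2 (pCore 2 R) := pCore_isPGroup
  have hCle := centralizer_le hc ht hf
  have hTne : Nontrivial (pCore 2 R) := by
    rw [Subgroup.nontrivial_iff_ne_bot]
    intro h
    rw [h] at hCle
    apply ht.ne
    have h1 : x ∈ Subgroup.centralizer (((⊥ : Subgroup R) : Subgroup R) : Set R) := by
      rw [Subgroup.mem_centralizer_iff]
      intro g hg
      rw [Subgroup.coe_bot, Set.mem_singleton_iff] at hg
      simp [hg]
    simpa using hCle h1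
  have hcn : Nontrivial (Subgroup.center (pCore 2 R)) := hT2.center_nontrivial
  obtain ⟨⟨⟨z, hz⟩, hzc⟩, hz1⟩ := exists_ne (1 : Subgroup.center (pCore 2 R))
  have hz1' : z ≠ 1 := by
    intro h
    apply hz1
    apply Subtype.ext
    apply Subtype.ext
    exact h
  have hzc' : ∀ s ∈ pCore 2 R, s * z = z * s := by
    intro s hs
    have := (Subgroup.mem_center_iff.mp hzc) ⟨s, hs⟩
    exact congrArg Subtype.val this
  have hsc := center_scalar hc hf hgood hz hzc'
  refine ⟨z, hz, isMinus_of_neg hc ?_⟩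
  rcases hsc with h | h
  · exfalso
    apply hz1'
    apply hc.inj
    ext v
    simp [h]
  · exact h

theorem closure_aut_mem (α : R →* R) (S : Set R) (hS : ∀ y ∈ S, α y ∈ S) {f : R}
    (hf : f ∈ Subgroup.closure S) : α f ∈ Subgroup.closure S := by
  have : Subgroup.closure S ≤ (Subgroup.closure S).comap α :=
    (Subgroup.closure_le _).mpr (fun y hy => Subgroup.subset_closure (hS y hy))
  exact this hf

/-- All squares of `O₂(R)` lie in `⟨z⟩`. -/
theorem frattini_le [Finite R] [Finite W] (hc : Ctx ρ B φ)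
    (hf : Frame ρ B φ x e) (hgood : ∀ A, Good φ A → ∀ a ∈ A, φ a = a) {z : R}
    (hzT : z ∈ pCore 2 R) (hz : IsMinus ρ φ z) :
    ∀ f ∈ Subgroup.closure {y | ∃ s ∈ pCore 2 R, y = s * s}, f = 1 ∨ f = z := by
  have hT2 : IsPGroup 2 (pCore 2 R) := pCore_isPGroup
  have hTn : (pCore 2 R).Normal := pCore_normal 2 R
  set Fr : Subgroup R := Subgroup.closure {y | ∃ s ∈ pCore 2 R, y = s * s} with hFr
  have hzc : ∀ r, r * z = z * r := hz.cen
  have hzz : z * z = 1 := hz.sq
  have hFrT : Fr ≤ pCore 2 R := by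
    rw [hFr, Subgroup.closure_le]
    rintro y ⟨s, hs, rfl⟩
    exact (pCore 2 R).mul_mem hs hs
  have hFrn : Fr.Normal := by
    refine ⟨fun f hf g => ?_⟩
    have := closure_aut_mem (MulAut.conj g).toMonoidHom {y | ∃ s ∈ pCore 2 R, y = s * s} (by
      rintro y ⟨s, hs, rfl⟩
      refine ⟨g * s * g⁻¹, hTn.conj_mem s hs g, ?_⟩
      simp [mul_assoc]) hf
    simpa using this
  have hFrφ : ∀ f ∈ Fr, φ f ∈ Fr := by
    intro f hf
    exact closure_aut_mem φ.toMonoidHom {y | ∃ s ∈ pCore 2 R, y = s * s} (by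
      rintro y ⟨s, hs, rfl⟩
      exact ⟨φ s, pCore_phi_mem φ hs, by simp⟩) hf
  -- the second centre
  let Z₂ : Subgroup R :=
    { carrier := {c | c ∈ pCore 2 R ∧ ∀ t ∈ pCore 2 R, c * t * c⁻¹ = t ∨ c * t * c⁻¹ = z * t}
      one_mem' := ⟨one_mem _, fun t _ => Or.inl (by simp)⟩
      mul_mem' := by
        rintro c c' ⟨h1, h2⟩ ⟨h3, h4⟩
        refine ⟨mul_mem h1 h3, fun t ht => ?_⟩
        have e : c * c' * t * (c * c')⁻¹ = c * (c' * t * c'⁻¹) * c⁻¹ := by group
        rw [e]
        rcases h4 t ht with h | h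
        · rw [h]; exact h2 t ht
        · rw [h]
          have e2 : c * (z * t) * c⁻¹ = z * (c * t * c⁻¹) := by
            rw [← mul_assoc c, hzc c]; group
          rw [e2]
          rcases h2 t ht with h' | h'
          · rw [h']; exact Or.inr rfl
          · rw [h', ← mul_assoc, hzz, one_mul]; exact Or.inl rfl
      inv_mem' := by
        rintro c ⟨h1, h2⟩
        refine ⟨inv_mem h1, fun t ht => ?_⟩
        have ht' : c⁻¹ * t * c⁻¹⁻¹ ∈ pCore 2 R := hTn.conj_mem t ht c⁻¹
        rw [inv_inv] at ht'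
        rw [inv_inv]
        rcases h2 _ ht' with h | h
        · left
          have e : c * (c⁻¹ * t * c) * c⁻¹ = t := by group
          rw [e] at h
          exact h.symm
        · right
          have e : c * (c⁻¹ * t * c) * c⁻¹ = t := by group
          rw [e] at h
          calc c⁻¹ * t * c = z * (z * (c⁻¹ * t * c)) := by rw [← mul_assoc, hzz, one_mul]
            _ = z * t := by rw [← h] }
  have hZ₂n : Z₂.Normal := by
    refine ⟨fun c hc' g => ⟨hTn.conj_mem c hc'.1 g, fun t ht => ?_⟩⟩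
    have ht' : g⁻¹ * t * g⁻¹⁻¹ ∈ pCore 2 R := hTn.conj_mem t ht g⁻¹
    rw [inv_inv] at ht'
    have e : g * c * g⁻¹ * t * (g * c * g⁻¹)⁻¹ = g * (c * (g⁻¹ * t * g) * c⁻¹) * g⁻¹ := by group
    rw [e]
    rcases hc'.2 _ ht' with h | h
    · left; rw [h]; group
    · right
      rw [h, ← mul_assoc g, hzc g]
      group
  have hZ₂φ : ∀ c ∈ Z₂, φ c ∈ Z₂ := by
    rintro c ⟨h1, h2⟩
    refine ⟨pCore_phi_mem φ h1, fun t ht => ?_⟩
    have ht' : φ (φ t) ∈ pCore 2 R := pCore_phi_mem φ (pCore_phi_mem φ ht)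
    have e : φ c * t * (φ c)⁻¹ = φ (c * φ (φ t) * c⁻¹) := by
      rw [map_mul, map_mul, map_inv, hc.φ3]
    rw [e]
    rcases h2 _ ht' with h | h
    · left; rw [h, hc.φ3]
    · right; rw [h, map_mul, hz.fix, hc.φ3]
  let M₁ : Subgroup R := Z₂ ⊓ Fr
  have hM₁n : M₁.Normal := Subgroup.normal_inf_normal _ _
  have hM₁φ : ∀ m ∈ M₁, φ m ∈ M₁ := fun m hm =>
    Subgroup.mem_inf.mpr ⟨hZ₂φ m (Subgroup.mem_inf.mp hm).1, hFrφ m (Subgroup.mem_inf.mp hm).2⟩
  have hM₁T : M₁ ≤ pCore 2 R := fun m hm => (Subgroup.mem_inf.mp hm).1.1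
  have hM₁2 : IsPGroup 2 M₁ := IsPGroup.to_le hT2 hM₁T
  have hM₁ab : ∀ a ∈ M₁, ∀ b ∈ M₁, a * b = b * a := by
    intro a ha b hb
    obtain ⟨⟨_, h2⟩, _⟩ := Subgroup.mem_inf.mp ha
    have hbF := (Subgroup.mem_inf.mp hb).2
    have hle : Fr ≤ Subgroup.centralizer ({a} : Set R) := by
      rw [hFr, Subgroup.closure_le]
      rintro y ⟨s, hs, rfl⟩
      rw [SetLike.mem_coe, Subgroup.mem_centralizer_iff]
      intro g hg
      rw [Set.mem_singleton_iff] at hg
      subst hg
      have e : g * (s * s) * g⁻¹ = (g * s * g⁻¹) * (g * s * g⁻¹) := by group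
      have e2 : g * (s * s) * g⁻¹ = s * s := by
        rw [e]
        rcases h2 s hs with h | h
        · rw [h]
        · rw [h]
          calc z * s * (z * s) = z * (s * z) * s := by group
            _ = z * (z * s) * s := by rw [hzc s]
            _ = (z * z) * (s * s) := by group
            _ = s * s := by rw [hzz, one_mul]
      rw [mul_inv_eq_iff_eq_mul] at e2
      exact e2
    have := (Subgroup.mem_centralizer_iff.mp (hle hbF)) a rfl
    exact this
  have hM₁val : ∀ m ∈ M₁, m = 1 ∨ m = z := fun m hm =>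
    hz.eq_of_scalar hc (abelian_scalar hc hf hgood M₁ hM₁n hM₁φ hM₁2 hM₁ab m hm)
  -- the quotient
  let P₀ : Subgroup R :=
    { carrier := {g | g = 1 ∨ g = z}
      one_mem' := Or.inl rfl
      mul_mem' := by
        rintro a b (rfl | rfl) (rfl | rfl)
        · left; simp
        · right; simp
        · right; simp
        · left; exact hzz
      inv_mem' := by
        rintro a (rfl | rfl)
        · left; simp
        · right; exact inv_eq_of_mul_eq_one_left hzz }
  have hP₀n : P₀.Normal := by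
    refine ⟨fun n hn g => ?_⟩
    rcases hn with rfl | rfl
    · left; simp
    · right
      rw [hzc g]; group
  let P : Subgroup (pCore 2 R) := P₀.subgroupOf (pCore 2 R)
  have hPn : P.Normal := inferInstance
  have hQ2 : IsPGroup 2 ((pCore 2 R) ⧸ P) := hT2.to_quotient P
  have hQnil : Group.IsNilpotent ((pCore 2 R) ⧸ P) := hQ2.isNilpotent
  let FrG : Subgroup (pCore 2 R) := Fr.subgroupOf (pCore 2 R)
  have hFrGn : FrG.Normal := inferInstance
  let N : Subgroup ((pCore 2 R) ⧸ P) := FrG.map (QuotientGroup.mk' P)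
  have hNn : N.Normal := hFrGn.map _ (QuotientGroup.mk'_surjective P)
  have hNbot : N = ⊥ := by
    by_contra hN
    have hi := Cfsg.Agent.Lib.SolvStruct.Fit.inf_center_ne_bot N hN
    obtain ⟨g, hg, hg1⟩ := (N ⊓ Subgroup.center _).bot_or_exists_ne_one.resolve_left hi
    obtain ⟨hgN, hgc⟩ := Subgroup.mem_inf.mp hg
    obtain ⟨⟨f', hf'T⟩, hf', rfl⟩ := hgN
    have hf'F : f' ∈ Fr := hf'
    have hmem : f' ∈ Z₂ := by
      refine ⟨hf'T, fun t ht => ?_⟩
      have h1 := (Subgroup.mem_center_iff.mp hgc) (QuotientGroup.mk' P ⟨t, ht⟩)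
      have h2 : (QuotientGroup.mk' P (⟨f', hf'T⟩ * ⟨t, ht⟩) : (pCore 2 R) ⧸ P)
          = QuotientGroup.mk' P (⟨t, ht⟩ * ⟨f', hf'T⟩) := by
        rw [map_mul, map_mul]; exact h1.symm
      have h3 := QuotientGroup.eq.mp h2
      have h4 : (((⟨f', hf'T⟩ * ⟨t, ht⟩ : (pCore 2 R))⁻¹ * (⟨t, ht⟩ * ⟨f', hf'T⟩) : (pCore 2 R)) : R) ∈ P₀ := h3
      simp only [Subgroup.coe_mul, Subgroup.coe_inv, mul_inv_rev] at h4
      -- `t⁻¹ f'⁻¹ t f' ∈ {1, z}`
      rcases h4 with h5 | h5
      · left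
        have h6 : t * f' = f' * t := by
          have e : f' * t * (t⁻¹ * f'⁻¹ * (t * f')) = t * f' := by group
          rw [← e, h5, mul_one]
        rw [← h6]; group
      · right
        have h6 : t * f' = z * (f' * t) := by
          have e : f' * t * (t⁻¹ * f'⁻¹ * (t * f')) = t * f' := by group
          rw [← e, h5, hzc]
        have h7 : f' * t = z * t * f' := by
          rw [mul_assoc, h6, ← mul_assoc, hzz, one_mul]
        rw [h7]; group
    have hm := hM₁val f' (Subgroup.mem_inf.mpr ⟨hmem, hf'F⟩)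
    apply hg1
    exact (QuotientGroup.eq_one_iff _).mpr hm
  intro f hf
  have hfT := hFrT hf
  have h1 : QuotientGroup.mk' P (⟨f, hfT⟩ : pCore 2 R) ∈ N := ⟨⟨f, hfT⟩, hf, rfl⟩
  rw [hNbot, Subgroup.mem_bot] at h1
  exact (QuotientGroup.eq_one_iff _).mp h1

/-- A sign-swapped involution bounds the dimension. -/
theorem finrank_le_of_swap [Finite W] (a s si : Module.End (ZMod 3) W) (u₁ u₂ : W)
    (haa : ∀ v, a (a v) = v) (hsi : ∀ v, s (si v) = v) (hswap : ∀ v, a (si v) = -si (a v))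
    (hD : ∀ v, a v = -v → v ∈ Submodule.span (ZMod 3) ({u₁, u₂} : Set W)) :
    Module.finrank (ZMod 3) W ≤ 4 := by
  have : Module.Finite (ZMod 3) W := Module.Finite.of_finite
  set D := Submodule.span (ZMod 3) ({u₁, u₂} : Set W) with hDdef
  have h2 : Module.finrank (ZMod 3) D ≤ 2 := finrank_span_pair u₁ u₂
  have htop : (⊤ : Submodule (ZMod 3) W) ≤ D ⊔ D.map s := by
    intro v _
    have e : v = -(v - a v) + -(v + a v) := by
      have h := three_smul v
      linear_combination (norm := module) h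
    rw [e]
    have hq : v - a v ∈ D := hD _ (by simp only [map_sub, haa]; abel)
    have hp : si (v + a v) ∈ D := hD _ (by
      rw [hswap]; simp only [map_add, haa]; rw [add_comm])
    exact Submodule.add_mem_sup (D.neg_mem hq)
      (Submodule.neg_mem _ ⟨_, hp, hsi _⟩)
  have h3 : Module.finrank (ZMod 3) W ≤ Module.finrank (ZMod 3) D + Module.finrank (ZMod 3) (D.map s) := by
    calc Module.finrank (ZMod 3) W = Module.finrank (ZMod 3) (⊤ : Submodule (ZMod 3) W) := finrank_top _ _ |>.symm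
      _ ≤ Module.finrank (ZMod 3) (D ⊔ D.map s : Submodule (ZMod 3) W) := Submodule.finrank_mono htop
      _ ≤ _ := Submodule.finrank_add_le_finrank_add_finrank _ _
  have h4 : Module.finrank (ZMod 3) (D.map s) ≤ Module.finrank (ZMod 3) D := Submodule.finrank_map_le _ _
  omega

/-- The `-1` eigenspace of the first involution of a frame has dimension at most two. -/
theorem Frame.mem_span_neg [Finite W] (hc : Ctx ρ B φ) (ht : Triple φ x) (hf : Frame ρ B φ x e)
    {v : W} (hv : ρ x v = -v) : v ∈ Submodule.span (ZMod 3) ({B e, B (B e)} : Set W) := by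
  obtain ⟨w21, w22⟩ := Frame.wt2 hc.toPreCtx ht hf
  obtain ⟨w31, w32⟩ := Frame.wt3 hc.toPreCtx ht hf
  obtain ⟨v₀, α, β, γ, rfl, h3, h4⟩ := Frame.expand hc.toPreCtx ht hf v
  simp only [map_add, map_smul, hf.h1, w21, w31, h3, smul_neg] at hv
  have h5 : v₀ + v₀ + (α • e + α • e) = 0 := by
    linear_combination (norm := module) hv
  have k := comp_unique (ρ x) (ρ (φ x)) (v₀ := v₀ + v₀) (v₁ := α • e + α • e) (v₂ := 0) (v₃ := 0)
    (by simp [h3, h4]) (by simp [hf.h1, hf.h2, smul_neg]) (by simp) (by simp)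
    (by simpa using h5)
  have k0 : v₀ = 0 := by
    have := k.1
    rw [add_self_eq_neg'] at this
    simpa using this
  have k3 : α • e = 0 := by
    have := k.2.1
    rw [add_self_eq_neg'] at this
    simpa using this
  rw [k0, k3, zero_add, zero_add]
  exact Submodule.add_mem _ (Submodule.smul_mem _ _ (Submodule.subset_span (by simp)))
    (Submodule.smul_mem _ _ (Submodule.subset_span (by simp)))

/-- If no `φ`-moved normal subgroup of exponent two exists, then `dim W ≤ 4`. -/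
theorem finrank_le_of_no_good [Finite R] [Finite W] [Group.IsSolvable R] (hc : Ctx ρ B φ)
    (ht : Triple φ x) (hf : Frame ρ B φ x e) (hgood : ∀ A, Good φ A → ∀ a ∈ A, φ a = a) :
    Module.finrank (ZMod 3) W ≤ 4 := by
  have hWnt : Nontrivial W := ⟨⟨e, 0, hf.ne⟩⟩
  obtain ⟨z, hzT, hz⟩ := exists_minus hc ht hf hgood
  have hFr := frattini_le hc hf hgood hzT hz
  have hTn : (pCore 2 R).Normal := pCore_normal 2 R
  have hCle := centralizer_le hc ht hf
  have hsq : ∀ s ∈ pCore 2 R, s * s = 1 ∨ s * s = z :=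
    fun s hs => hFr _ (Subgroup.subset_closure ⟨s, hs, rfl⟩)
  have hcomm : ∀ a ∈ pCore 2 R, ∀ b ∈ pCore 2 R, a * b * a⁻¹ * b⁻¹ = 1 ∨ a * b * a⁻¹ * b⁻¹ = z := by
    intro a ha b hb
    apply hFr
    have e' : a * b * a⁻¹ * b⁻¹ = (a * b) * (a * b) * ((b⁻¹ * a⁻¹ * b) * (b⁻¹ * a⁻¹ * b)) * (b⁻¹ * b⁻¹) := by
      group
    rw [e']
    have h1 : a * b ∈ pCore 2 R := mul_mem ha hb
    have h2 : b⁻¹ * a⁻¹ * b ∈ pCore 2 R :=
      mul_mem (mul_mem (inv_mem hb) (inv_mem ha)) hb
    exact mul_mem (mul_mem (Subgroup.subset_closure ⟨_, h1, rfl⟩)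
      (Subgroup.subset_closure ⟨_, h2, rfl⟩)) (Subgroup.subset_closure ⟨_, inv_mem hb, rfl⟩)
  have hw : ∃ w ∈ pCore 2 R, φ w * w⁻¹ ≠ 1 ∧ φ w * w⁻¹ ≠ z := by
    by_contra hno
    push Not at hno
    have hfixT : ∀ w ∈ pCore 2 R, φ w = w := by
      intro w hw
      by_cases h1 : φ w * w⁻¹ = 1
      · exact mul_inv_eq_one.mp h1
      · exfalso
        have h2 := hno w hw h1
        have h3 : φ w = z * w := mul_inv_eq_iff_eq_mul.mp h2
        have h4 : φ (φ w) = w := by
          rw [h3, map_mul, hz.fix, h3, ← mul_assoc, hz.sq, one_mul]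
        have h5 := hc.φ3 w
        rw [h4, h3] at h5
        exact hz.ne_one (by simpa using h5)
    have hcen := central_of_fixed hc (pCore 2 R) hTn hfixT
    have hall : ∀ r, r ∈ pCore 2 R := by
      intro r
      apply hCle
      rw [Subgroup.mem_centralizer_iff]
      intro t ht'
      exact (hcen t ht' r).symm
    exact ht.phi_ne (hfixT x (hall x))
  obtain ⟨w, hwT, hw1, hwz⟩ := hw
  obtain ⟨t₀, ht₀⟩ : ∃ t₀, t₀ = φ w * w⁻¹ := ⟨_, rfl⟩
  rw [← ht₀] at hw1 hwz
  have h0T : t₀ ∈ pCore 2 R := by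
    rw [ht₀]; exact mul_mem (pCore_phi_mem φ hwT) (inv_mem hwT)
  have h1T : φ t₀ ∈ pCore 2 R := pCore_phi_mem φ h0T
  have h2T : φ (φ t₀) ∈ pCore 2 R := pCore_phi_mem φ h1T
  have hprod : φ (φ t₀) * φ t₀ * t₀ = 1 := by
    rw [ht₀]
    simp only [map_mul, map_inv, hc.φ3]
    group
  by_cases hc01 : t₀ * φ t₀ = φ t₀ * t₀
  · -- a cycled four-group
    have hsq0 : t₀ * t₀ = 1 := by
      rcases hsq t₀ h0T with h | h
      · exact h
      · exfalso
        have h1 : φ t₀ * φ t₀ = z := by rw [← map_mul, h, hz.fix]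
        have h2 : φ (φ t₀) * φ (φ t₀) = z := by rw [← map_mul, h1, hz.fix]
        have h3 : φ (φ t₀) = (φ t₀ * t₀)⁻¹ := by
          rw [mul_assoc] at hprod
          exact eq_inv_of_mul_eq_one_left hprod
        have h4 : (φ t₀ * t₀) * (φ t₀ * t₀) = 1 := by
          calc (φ t₀ * t₀) * (φ t₀ * t₀) = φ t₀ * (t₀ * φ t₀) * t₀ := by group
            _ = φ t₀ * (φ t₀ * t₀) * t₀ := by rw [hc01]
            _ = (φ t₀ * φ t₀) * (t₀ * t₀) := by group
            _ = 1 := by rw [h1, h, hz.sq]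
        have h5 : φ (φ t₀) * φ (φ t₀) = 1 := by
          rw [h3, ← mul_inv_rev, h4, inv_one]
        rw [h2] at h5
        exact hz.ne_one h5
    have ht' : Triple φ t₀ := by
      refine ⟨hsq0, hw1, ?_⟩
      rw [hc01]
      have h3 : φ (φ t₀) = (φ t₀ * t₀)⁻¹ := by
        rw [mul_assoc] at hprod
        exact eq_inv_of_mul_eq_one_left hprod
      rw [h3, mul_inv_cancel]
    obtain ⟨e', hf'⟩ := hc.toPreCtx.exists_frame ht'
    have hnc : ∃ s ∈ pCore 2 R, s * t₀ ≠ t₀ * s := by
      by_contra hno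
      push Not at hno
      rcases hz.eq_of_scalar hc (center_scalar hc hf hgood h0T hno) with h | h
      · exact hw1 h
      · exact hwz h
    obtain ⟨s, hsT, hs⟩ := hnc
    have hs2 : s * t₀ * s⁻¹ = z * t₀ := by
      rcases hcomm s hsT t₀ h0T with h | h
      · exfalso
        apply hs
        rwa [mul_inv_eq_one, mul_inv_eq_iff_eq_mul] at h
      · rwa [mul_inv_eq_iff_eq_mul] at h
    apply finrank_le_of_swap (ρ t₀) (ρ s) (ρ s⁻¹) (B e') (B (B e'))
    · intro v; rw [← rho_mul, hsq0, rho_one]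
    · intro v; exact rho_rho_inv ρ s v
    · intro v
      have e3 : t₀ * s⁻¹ = s⁻¹ * (z * t₀) := by
        rw [← hs2]; group
      rw [← rho_mul, e3, rho_mul, rho_mul, hz.neg, map_neg]
    · intro v hv
      exact Frame.mem_span_neg hc ht' hf' hv
  · -- the quaternion case
    have hz01 : t₀ * φ t₀ = z * (φ t₀ * t₀) := by
      rcases hcomm t₀ h0T (φ t₀) h1T with h | h
      · exfalso
        apply hc01
        rwa [mul_inv_eq_one, mul_inv_eq_iff_eq_mul] at h
      · have e' : t₀ * φ t₀ = (t₀ * φ t₀ * t₀⁻¹ * (φ t₀)⁻¹) * (φ t₀ * t₀) := by group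
        rw [e', h]
    have hsq0 : t₀ * t₀ = z := by
      rcases hsq t₀ h0T with h | h
      · exfalso
        apply hc01
        have h1 : φ t₀ * φ t₀ = 1 := by rw [← map_mul, h, map_one]
        have h2 : φ (φ t₀) * φ (φ t₀) = 1 := by rw [← map_mul, h1, map_one]
        have h3 : φ (φ t₀) = (φ t₀ * t₀)⁻¹ := by
          rw [mul_assoc] at hprod
          exact eq_inv_of_mul_eq_one_left hprod
        have h4 : (φ t₀ * t₀)⁻¹ * (φ t₀ * t₀)⁻¹ = 1 := by rw [← h3]; exact h2
        have h5 : t₀⁻¹ = t₀ := inv_eq_of_mul_eq_one_left h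
        have h6 : (φ t₀)⁻¹ = φ t₀ := inv_eq_of_mul_eq_one_left h1
        simp only [mul_inv_rev, h5, h6] at h4
        have h7 := eq_inv_of_mul_eq_one_left h4
        rw [mul_inv_rev, h5, h6] at h7
        exact h7
      · exact h
    have hsq1 : φ t₀ * φ t₀ = z := by rw [← map_mul, hsq0, hz.fix]
    have hsq2 : φ (φ t₀) * φ (φ t₀) = z := by rw [← map_mul, hsq1, hz.fix]
    have hzc := hz.cen
    have hi0 : t₀⁻¹ = z * t₀ := by
      apply inv_eq_of_mul_eq_one_right
      rw [← mul_assoc, hzc, mul_assoc, hsq0, hz.sq]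
    have hi1 : (φ t₀)⁻¹ = z * φ t₀ := by
      apply inv_eq_of_mul_eq_one_right
      rw [← mul_assoc, hzc, mul_assoc, hsq1, hz.sq]
    have hr0 : t₀ * φ t₀ = φ (φ t₀) := by
      have h3 : φ (φ t₀) = (φ t₀ * t₀)⁻¹ := by
        rw [mul_assoc] at hprod
        exact eq_inv_of_mul_eq_one_left hprod
      rw [h3, mul_inv_rev, hi0, hi1]
      calc t₀ * φ t₀ = (z * z) * (t₀ * φ t₀) := by rw [hz.sq, one_mul]
        _ = z * (z * t₀) * φ t₀ := by group
        _ = z * (t₀ * z) * φ t₀ := by rw [hzc]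
        _ = z * t₀ * (z * φ t₀) := by group
    have hr1 : φ t₀ * φ (φ t₀) = t₀ := by
      have := congrArg φ hr0
      rwa [map_mul, hc.φ3] at this
    have hr2 : φ (φ t₀) * t₀ = φ t₀ := by
      have := congrArg φ hr1
      rwa [map_mul, hc.φ3] at this
    have hs0 : φ t₀ * t₀ = z * φ (φ t₀) := by
      rw [← hr0, hz01, ← mul_assoc, hz.sq, one_mul]
    have hs1 : φ (φ t₀) * φ t₀ = z * t₀ := by
      have := congrArg φ hs0
      rwa [map_mul, map_mul, hz.fix, hc.φ3] at this
    have hs2 : t₀ * φ (φ t₀) = z * φ t₀ := by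
      have := congrArg φ hs1
      rwa [map_mul, map_mul, hz.fix, hc.φ3] at this
    apply quat_dim (ρ t₀) (ρ (φ t₀)) (ρ (φ (φ t₀))) B
    · intro v; rw [← rho_mul, hsq0, hz.neg]
    · intro v; rw [← rho_mul, hr0]
    · intro v; rw [← rho_mul, hs0, rho_mul, hz.neg]
    · intro v; rw [← rho_mul, hr1]
    · intro v; rw [← rho_mul, hs1, rho_mul, hz.neg]
    · intro v; rw [← rho_mul, hr2]
    · intro v; rw [← rho_mul, hs2, rho_mul, hz.neg]
    · intro v; rw [← rho_mul, hsq1, hz.neg]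
    · intro v; rw [← rho_mul, hsq2, hz.neg]
    · intro v; exact hc.conj_apply _ v
    · intro v; exact hc.conj_apply _ v
    · intro v
      have := hc.conj_apply (φ (φ t₀)) v
      rwa [hc.φ3] at this
    · exact hc.rank

end Cfsg.Agent.Lib.Cubic3.Dim
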