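/-
A `3`-cycle normalizing a permutation group without elements of order `3`: at most one point of
the orbit lies outside the support of the cycle.
-/
import Mathlib

set_option autoImplicit false

namespace Cfsg.Agent.Lib.Cubic3.Perm

theorem zmod3_add3 : ∀ j : ZMod 3, j + 1 + 1 + 1 = j := by decide

theorem zmod3_ne : ∀ j : ZMod 3, j + 1 ≠ j := by decide

theorem zmod3_cases : ∀ j i : ZMod 3, i = j ∨ i = j + 1 ∨ i = j + 1 + 1 := by decide

theorem zmod3_ne2 : ∀ j : ZMod 3, j + 1 + 1 ≠ j := by decide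

variable {G X : Type*} [Group G] [MulAction G X]

/-- The hypotheses of the permutation lemma. -/
structure PermCtx (H : Subgroup G) (b : G) (s : ZMod 3 → X) : Prop where
  hb : ∀ h ∈ H, b * h * b⁻¹ ∈ H
  h3 : ∀ h ∈ H, ∀ p : X, h • h • h • p = p → h • p = p
  inj : Function.Injective s
  bs : ∀ i, b • s i = s (i + 1)
  fix : ∀ h ∈ H, ∀ i, (∀ j, h • s i ≠ s j) → b • (h • s i) = h • s i

variable {H : Subgroup G} {b : G} {s : ZMod 3 → X}

theorem claimA (hp : PermCtx H b s) {g : G} (hg : g ∈ H) (j : ZMod 3)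
    (hj : ∀ k, g • s j ≠ s k) :
    (∃ k, g • s (j + 1) = s k) ∧ (∃ k, g • s (j + 1 + 1) = s k) := by
  set c := g * b * g⁻¹ with hc
  have hcg : ∀ i, c • (g • s i) = g • s (i + 1) := by
    intro i
    rw [hc, mul_smul, mul_smul, inv_smul_smul, hp.bs]
  have hcfix : ∀ h' ∈ H, ∀ k, (∀ i, h' • s k ≠ g • s i) → c • (h' • s k) = h' • s k := by
    intro h' hh' k hk
    have h1 : g⁻¹ * h' ∈ H := mul_mem (inv_mem hg) hh'
    have h2 := hp.fix _ h1 k (fun i h3 => hk i (by
      rw [mul_smul, inv_smul_eq_iff] at h3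
      exact h3))
    rw [mul_smul] at h2
    rw [hc, mul_smul, mul_smul, h2, smul_inv_smul]
  have hone : ∀ i, (1 : G) • s i = s i := fun i => one_smul G (s i)
  have hcs : ∀ k, (∀ i, s k ≠ g • s i) → c • s k = s k := by
    intro k hk
    have := hcfix 1 (one_mem _) k (by simpa [hone] using hk)
    simpa [hone] using this
  have hbfix : ∀ i, (∀ k, g • s i ≠ s k) → b • (g • s i) = g • s i := hp.fix g hg
  have hw₀ : g * (b * g⁻¹ * b⁻¹) ∈ H := mul_mem hg (hp.hb _ (inv_mem hg))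
  have hw₀' : c * b⁻¹ = g * (b * g⁻¹ * b⁻¹) := by rw [hc]; group
  -- no point of `gS` in `S`
  have A0 : ¬ ∀ i k, g • s i ≠ s k := by
    intro hall
    set w := g * (b * g⁻¹ * b⁻¹) with hw
    have hstep : ∀ i, w • s (i + 1) = s i := by
      intro i
      have h1 : b⁻¹ • s (i + 1) = s i := by
        rw [inv_smul_eq_iff, hp.bs]
      rw [← hw₀', mul_smul, h1]
      apply hcs
      intro i' h2
      exact hall i' i h2.symm
    have h3 : w • w • w • s ((0 : ZMod 3) + 1) = s (0 + 1) := by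
      have e : ∀ i : ZMod 3, i + 1 = i + 1 + 1 + 1 + 1 := by decide
      conv_lhs => rw [e 0]
      rw [hstep, hstep, hstep]
    have h4 := hp.h3 w hw₀ _ h3
    rw [hstep] at h4
    exact zmod3_ne 0 (hp.inj h4).symm
  -- exactly one point of `gS` in `S`
  have A1 : ∀ j₀ k₀, g • s j₀ = s k₀ → (∀ k, g • s (j₀ + 1) ≠ s k) → (∀ k, g • s (j₀ + 1 + 1) ≠ s k) →
      False := by
    intro j₀ k₀ h0 h1 h2
    have ht3 : g • s (j₀ + 1 + 1 + 1) = s k₀ := by rw [zmod3_add3, h0]
    have hcr' : c • (g • s (j₀ + 1 + 1)) = s k₀ := by rw [hcg, ht3]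
    have hcp : c⁻¹ • s k₀ = g • s (j₀ + 1 + 1) := by
      rw [inv_smul_eq_iff, hcr']
    have hbr' : b⁻¹ • (g • s (j₀ + 1 + 1)) = g • s (j₀ + 1 + 1) := by
      rw [inv_smul_eq_iff, hbfix _ h2]
    have hcq' : c • s k₀ = g • s (j₀ + 1) := by rw [← h0, hcg]
    have hq : ∀ i, s (k₀ + 1) ≠ g • s i := by
      intro i h3
      have h4 := zmod3_cases j₀
      rcases h4 i with rfl | rfl | rfl
      · rw [h0] at h3
        exact zmod3_ne k₀ (hp.inj h3)
      · exact h1 _ h3.symm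
      · exact h2 _ h3.symm
    have hr : ∀ i, s (k₀ + 1 + 1) ≠ g • s i := by
      intro i h3
      have h4 := zmod3_cases j₀
      rcases h4 i with rfl | rfl | rfl
      · rw [h0] at h3
        exact zmod3_ne2 k₀ (hp.inj h3)
      · exact h1 _ h3.symm
      · exact h2 _ h3.symm
    set w := b * c * b⁻¹ * c⁻¹ with hw
    have hwH : w ∈ H := by
      have e : w = (b * (c * b⁻¹) * b⁻¹) * (c * b⁻¹)⁻¹ := by rw [hw]; group
      rw [e, hw₀']
      exact mul_mem (hp.hb _ hw₀) (inv_mem hw₀)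
    have w1 : w • s k₀ = s (k₀ + 1) := by
      rw [hw, mul_smul, mul_smul, mul_smul, hcp, hbr', hcr', hp.bs]
    have w2 : w • s (k₀ + 1) = g • s (j₀ + 1) := by
      have e1 : c⁻¹ • s (k₀ + 1) = s (k₀ + 1) := by rw [inv_smul_eq_iff, hcs _ hq]
      have e2 : b⁻¹ • s (k₀ + 1) = s k₀ := by rw [inv_smul_eq_iff, hp.bs]
      rw [hw, mul_smul, mul_smul, mul_smul, e1, e2, hcq', hbfix _ h1]
    have w3 : w • (g • s (j₀ + 1)) = s k₀ := by
      have e1 : c⁻¹ • (g • s (j₀ + 1)) = s k₀ := by rw [inv_smul_eq_iff, hcq']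
      have e2 : b⁻¹ • s k₀ = s (k₀ + 1 + 1) := by
        rw [inv_smul_eq_iff, hp.bs, zmod3_add3]
      rw [hw, mul_smul, mul_smul, mul_smul, e1, e2, hcs _ hr, hp.bs, zmod3_add3]
    have h3 : w • w • w • s k₀ = s k₀ := by rw [w1, w2, w3]
    have h4 := hp.h3 w hwH _ h3
    rw [w1] at h4
    exact zmod3_ne k₀ (hp.inj h4)
  constructor
  · by_contra hne
    push Not at hne
    by_cases h2 : ∃ k, g • s (j + 1 + 1) = s k
    · obtain ⟨k, hk⟩ := h2
      refine A1 (j + 1 + 1) k hk ?_ ?_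
      · rw [zmod3_add3]; exact hj
      · have : j + 1 + 1 + 1 + 1 = j + 1 := by rw [zmod3_add3]
        rw [this]; exact hne
    · push Not at h2
      apply A0
      intro i k
      have h4 := zmod3_cases j
      rcases h4 i with rfl | rfl | rfl
      · exact hj k
      · exact hne k
      · exact h2 k
  · by_contra hne
    push Not at hne
    by_cases h2 : ∃ k, g • s (j + 1) = s k
    · obtain ⟨k, hk⟩ := h2
      refine A1 (j + 1) k hk hne ?_
      rw [zmod3_add3]; exact hj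
    · push Not at h2
      apply A0
      intro i k
      have h4 := zmod3_cases j
      rcases h4 i with rfl | rfl | rfl
      · exact hj k
      · exact h2 k
      · exact hne k

/-- All points outside the support of the cycle coincide. -/
theorem perm_bound (hp : PermCtx H b s) {h₁ h₂ : G} (hh₁ : h₁ ∈ H) (hh₂ : h₂ ∈ H) (i₁ i₂ : ZMod 3)
    (hx : ∀ j, h₁ • s i₁ ≠ s j) (hy : ∀ j, h₂ • s i₂ ≠ s j) : h₁ • s i₁ = h₂ • s i₂ := by
  by_contra hne
  obtain ⟨⟨a, ha⟩, ⟨a', ha'⟩⟩ := claimA hp hh₁ i₁ hx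
  have hi := zmod3_cases i₁
  -- values of the rotated second translate lie in `{a, a'}`
  have key : ∀ h' ∈ H, ∀ i', h' • s i' = h₂ • s i₂ → ∀ d d', h' • s (i' + 1) = s d → h' • s (i' + 1 + 1) = s d' →
      (d = a ∨ d = a') ∧ (d' = a ∨ d' = a') := by
    intro h' hh' i' he d d' hd hd'
    have hg : h₁⁻¹ * h' ∈ H := mul_mem (inv_mem hh₁) hh'
    have hgi : ∀ k, (h₁⁻¹ * h') • s i' ≠ s k := by
      intro k h3
      rw [mul_smul, inv_smul_eq_iff, he] at h3
      rcases hi k with rfl | rfl | rfl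
      · exact hne h3.symm
      · rw [ha] at h3; exact hy _ h3
      · rw [ha'] at h3; exact hy _ h3
    obtain ⟨⟨m, hm⟩, ⟨m', hm'⟩⟩ := claimA hp hg i' hgi
    rw [mul_smul, inv_smul_eq_iff] at hm hm'
    constructor
    · rw [hd] at hm
      rcases hi m with rfl | rfl | rfl
      · exact absurd hm.symm (hx d)
      · left; rw [ha] at hm; exact hp.inj hm
      · right; rw [ha'] at hm; exact hp.inj hm
    · rw [hd'] at hm'
      rcases hi m' with rfl | rfl | rfl
      · exact absurd hm'.symm (hx d')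
      · left; rw [ha] at hm'; exact hp.inj hm'
      · right; rw [ha'] at hm'; exact hp.inj hm'
  obtain ⟨⟨c, hc⟩, ⟨c', hc'⟩⟩ := claimA hp hh₂ i₂ hy
  have k0 := key h₂ hh₂ i₂ rfl c c' hc hc'
  have hbh : b * h₂ * b⁻¹ ∈ H := hp.hb _ hh₂
  have hrot : ∀ i, (b * h₂ * b⁻¹) • s (i + 1) = b • (h₂ • s i) := by
    intro i
    have : b⁻¹ • s (i + 1) = s i := by rw [inv_smul_eq_iff, hp.bs]
    rw [mul_smul, mul_smul, this]
  have k1 := key _ hbh (i₂ + 1) (by rw [hrot]; exact hp.fix h₂ hh₂ i₂ hy) (c + 1) (c' + 1)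
    (by rw [hrot, hc, hp.bs]) (by rw [hrot, hc', hp.bs])
  have hcc' : c ≠ c' := by
    rintro rfl
    have h3 : h₂ • s (i₂ + 1) = h₂ • s (i₂ + 1 + 1) := by rw [hc, hc']
    have h4 := hp.inj (MulAction.injective h₂ h3)
    exact zmod3_ne _ h4.symm
  have final : ∀ a a' c c' : ZMod 3, c ≠ c' → (c = a ∨ c = a') ∧ (c' = a ∨ c' = a') →
      (c + 1 = a ∨ c + 1 = a') ∧ (c' + 1 = a ∨ c' + 1 = a') → False := by decide
  exact final a a' c c' hcc' k0 k1

end Cfsg.Agent.Lib.Cubic3.Perm
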