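/-
The lines spanned by the translates of a frame vector, when the triple lies in a normal subgroup of
exponent two.
-/
import Cfsg.Agent.Lib.Cubic3.Dim
import Cfsg.Agent.Lib.Cubic3.Perm

set_option autoImplicit false

open Pointwise

namespace Cfsg.Agent.Lib.Cubic3.Lines

open Cfsg.Agent.Lib.Cubic3.Basic Cfsg.Agent.Lib.Cubic3.Odd Cfsg.Agent.Lib.Cubic3.Dim
  Cfsg.Agent.Lib.Cubic3.Perm

variable {R W : Type*} [Group R] [AddCommGroup W] [Module (ZMod 3) W]

/-- The line through a vector over `𝔽₃`, as a set. -/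
def lineOf (v : W) : Set W := {v, -v}

theorem lineOf_eq_iff {v w : W} : lineOf v = lineOf w ↔ v = w ∨ v = -w := by
  constructor
  · intro h
    have : v ∈ lineOf w := by rw [← h]; exact Or.inl rfl
    exact this
  · rintro (rfl | rfl)
    · rfl
    · simp only [lineOf, neg_neg]
      exact Set.pair_comm _ _

theorem smul_lineOf (u : (Module.End (ZMod 3) W)ˣ) (v : W) :
    u • lineOf v = lineOf ((u : Module.End (ZMod 3) W) v) := by
  simp only [lineOf]
  rw [Set.smul_set_insert, Set.smul_set_singleton]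
  show ({(u : Module.End (ZMod 3) W) v, (u : Module.End (ZMod 3) W) (-v)} : Set W) = _
  rw [map_neg]

variable {ρ : R →* Module.End (ZMod 3) W} {B : Module.End (ZMod 3) W} {φ : R ≃* R} {x : R} {e : W}

/-- The frame vectors. -/
noncomputable def eI (B : Module.End (ZMod 3) W) (e : W) (i : ZMod 3) : W := (B ^ i.val) e

theorem eI_zero : eI B e 0 = e := by
  have : (0 : ZMod 3).val = 0 := rfl
  simp [eI, this]

theorem eI_one : eI B e 1 = B e := by
  have : (1 : ZMod 3).val = 1 := rfl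
  simp [eI, this]

theorem eI_two : eI B e 2 = B (B e) := by
  have : (2 : ZMod 3).val = 2 := rfl
  simp [eI, this, pow_succ]

theorem zmod3_cases' : ∀ i : ZMod 3, i = 0 ∨ i = 1 ∨ i = 2 := by decide

theorem B_eI (hc : Ctx ρ B φ) (i : ZMod 3) : B (eI B e i) = eI B e (i + 1) := by
  rcases zmod3_cases' i with rfl | rfl | rfl
  · rw [eI_zero, show (0 : ZMod 3) + 1 = 1 from rfl, eI_one]
  · rw [eI_one, show (1 : ZMod 3) + 1 = 2 from rfl, eI_two]
  · rw [eI_two, show (2 : ZMod 3) + 1 = 0 from rfl, eI_zero, hc.B3_apply]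

theorem eI_ne (hc : Ctx ρ B φ) (hf : Frame ρ B φ x e) (i : ZMod 3) : eI B e i ≠ 0 := by
  rcases zmod3_cases' i with rfl | rfl | rfl
  · rw [eI_zero]; exact hf.ne
  · rw [eI_one]; exact hc.B_ne_zero hf.ne
  · rw [eI_two]; exact hc.B_ne_zero (hc.B_ne_zero hf.ne)

/-- Exponent two gives commutativity. -/
theorem good_comm {A : Subgroup R} (hA : Good φ A) {a b : R} (ha : a ∈ A) (hb : b ∈ A) : a * b = b * a := by
  have h1 := hA.sq _ (mul_mem ha hb)
  have h2 := hA.sq _ ha
  have h3 := hA.sq _ hb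
  calc a * b = a * b * (b * a) * (b * a) := by
        have : b * a * (b * a) = 1 := hA.sq _ (mul_mem hb ha)
        rw [mul_assoc (a * b), this, mul_one]
    _ = a * (b * b) * a * (b * a) := by group
    _ = b * a := by rw [h3, mul_one, h2, one_mul]

theorem eigen_zero [Finite W] (hf : Frame ρ B φ x e) {A : Subgroup R} (hA : Good φ A)
    (hxA : x ∈ A) {a : R} (ha : a ∈ A) : ρ a e = e ∨ ρ a e = -e := by
  have a1 : ρ x (ρ a e) = ρ a e := by
    rw [← rho_mul, good_comm hA hxA ha, rho_mul, hf.h1]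
  have a2 : ρ (φ x) (ρ a e) = -ρ a e := by
    rw [← rho_mul, good_comm hA (hA.inv _ hxA) ha, rho_mul, hf.h2, map_neg]
  rcases hf.line _ a1 a2 with h | h | h
  · exfalso
    apply hf.ne
    apply rho_inj ρ a
    rw [h, map_zero]
  · exact Or.inl h
  · exact Or.inr h

theorem eigen_eI [Finite W] (hc : Ctx ρ B φ) (hf : Frame ρ B φ x e) {A : Subgroup R} (hA : Good φ A)
    (hxA : x ∈ A) {a : R} (ha : a ∈ A) (i : ZMod 3) :
    ρ a (eI B e i) = eI B e i ∨ ρ a (eI B e i) = -eI B e i := by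
  have step : ∀ v : W, (∀ a ∈ A, ρ a v = v ∨ ρ a v = -v) → ∀ a ∈ A, ρ a (B v) = B v ∨ ρ a (B v) = -B v := by
    intro v hv a ha
    have h1 := hc.conj_apply (φ (φ a)) v
    rw [hc.φ3] at h1
    rcases hv _ (hA.inv _ (hA.inv _ ha)) with h | h
    · left; rw [← h1, h]
    · right; rw [← h1, h, map_neg]
  have h0 : ∀ a ∈ A, ρ a e = e ∨ ρ a e = -e := fun a ha => eigen_zero hf hA hxA ha
  rcases zmod3_cases' i with rfl | rfl | rfl
  · rw [eI_zero]; exact h0 a ha
  · rw [eI_one]; exact step _ h0 a ha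
  · rw [eI_two]; exact step _ (step _ h0) a ha

theorem eigen_translate [Finite W] (hc : Ctx ρ B φ) (hf : Frame ρ B φ x e) {A : Subgroup R} (hA : Good φ A)
    (hxA : x ∈ A) {a : R} (ha : a ∈ A) (r : R) (i : ZMod 3) :
    ρ a (ρ r (eI B e i)) = ρ r (eI B e i) ∨ ρ a (ρ r (eI B e i)) = -ρ r (eI B e i) := by
  have h1 : r⁻¹ * a * r ∈ A := by
    have := hA.normal.conj_mem a ha r⁻¹
    rwa [inv_inv] at this
  have h2 : a * r = r * (r⁻¹ * a * r) := by group
  rw [← rho_mul, h2, rho_mul]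
  rcases eigen_eI hc hf hA hxA h1 i with h | h
  · left; rw [h]
  · right; rw [h, map_neg]

/-- A translate of a frame vector is a frame vector up to sign, or is fixed by `B`. -/
theorem translate_cases [Finite W] (hc : Ctx ρ B φ) (ht : Triple φ x) (hf : Frame ρ B φ x e)
    {A : Subgroup R} (hA : Good φ A) (hxA : x ∈ A) (r : R) (i : ZMod 3) :
    (∃ j, ρ r (eI B e i) = eI B e j ∨ ρ r (eI B e i) = -eI B e j) ∨
      (ρ x (ρ r (eI B e i)) = ρ r (eI B e i) ∧ ρ (φ x) (ρ r (eI B e i)) = ρ r (eI B e i)) := by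
  set v := ρ r (eI B e i) with hv
  have hv0 : v ≠ 0 := by
    intro h
    apply eI_ne hc hf i
    apply rho_inj ρ r
    rw [← hv, h, map_zero]
  have h1 := eigen_translate hc hf hA hxA hxA r i
  have h2 := eigen_translate hc hf hA hxA (hA.inv _ hxA) r i
  rw [← hv] at h1 h2
  rcases h1 with h1 | h1 <;> rcases h2 with h2 | h2
  · exact Or.inr ⟨h1, h2⟩
  · left
    rcases hf.line v h1 h2 with h | h | h
    · exact absurd h hv0
    · exact ⟨0, Or.inl (by rw [eI_zero]; exact h)⟩
    · exact ⟨0, Or.inr (by rw [eI_zero]; exact h)⟩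
  · left
    rcases Frame.line2 hc.toPreCtx ht hf h1 h2 with h | h | h
    · exact absurd h hv0
    · exact ⟨1, Or.inl (by rw [eI_one]; exact h)⟩
    · exact ⟨1, Or.inr (by rw [eI_one]; exact h)⟩
  · left
    rcases Frame.line3 hc.toPreCtx ht hf h1 h2 with h | h | h
    · exact absurd h hv0
    · exact ⟨2, Or.inl (by rw [eI_two]; exact h)⟩
    · exact ⟨2, Or.inr (by rw [eI_two]; exact h)⟩

/-- Weights of the frame vectors. -/
theorem eI_line_inj [Finite W] (hc : Ctx ρ B φ) (ht : Triple φ x) (hf : Frame ρ B φ x e) {i j : ZMod 3}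
    (h : lineOf (eI B e i) = lineOf (eI B e j)) : i = j := by
  obtain ⟨w21, w22⟩ := Frame.wt2 hc.toPreCtx ht hf
  obtain ⟨w31, w32⟩ := Frame.wt3 hc.toPreCtx ht hf
  have hne := fun k => eI_ne hc hf (e := e) k
  rw [lineOf_eq_iff] at h
  by_contra hij
  -- the contradiction in two steps
  have key : ∀ (T : Module.End (ZMod 3) W) (v w : W), v ≠ 0 → T v = v → T w = -w → (v = w ∨ v = -w) → False := by
    intro T v w hv hTv hTw hvw
    rcases hvw with rfl | rfl
    · exact hv ((eq_neg_self_iff v).mp (hTv.symm.trans hTw))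
    · rw [map_neg, hTw, neg_neg] at hTv
      have h5 : w = -w := hTv
      rw [(eq_neg_self_iff w).mp h5] at hv
      exact hv (by simp)
  have key' : ∀ (T : Module.End (ZMod 3) W) (v w : W), v ≠ 0 → T w = w → T v = -v → (v = w ∨ v = -w) → False := by
    intro T v w hv hTw hTv hvw
    rcases hvw with rfl | rfl
    · exact hv ((eq_neg_self_iff v).mp (hTw.symm.trans hTv))
    · rw [map_neg, hTw, neg_neg] at hTv
      have h5 : w = -w := hTv.symm
      rw [(eq_neg_self_iff w).mp h5] at hv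
      exact hv (by simp)
  rcases zmod3_cases' i with rfl | rfl | rfl <;> rcases zmod3_cases' j with rfl | rfl | rfl
  · exact hij rfl
  · rw [eI_zero, eI_one] at h
    exact key (ρ x) _ _ hf.ne hf.h1 w21 h
  · rw [eI_zero, eI_two] at h
    exact key (ρ x) _ _ hf.ne hf.h1 w31 h
  · rw [eI_zero, eI_one] at h
    exact key' (ρ x) _ _ (hc.B_ne_zero hf.ne) hf.h1 w21 h
  · exact hij rfl
  · rw [eI_one, eI_two] at h
    exact key (ρ (φ x)) _ _ (hc.B_ne_zero hf.ne) w22 w32 h
  · rw [eI_zero, eI_two] at h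
    exact key' (ρ x) _ _ (hc.B_ne_zero (hc.B_ne_zero hf.ne)) hf.h1 w31 h
  · rw [eI_one, eI_two] at h
    exact key' (ρ (φ x)) _ _ (hc.B_ne_zero (hc.B_ne_zero hf.ne)) w22 w32 h
  · exact hij rfl

/-- The unit given by `B`. -/
noncomputable def uB (hc : Ctx ρ B φ) : (Module.End (ZMod 3) W)ˣ where
  val := B
  inv := B * B
  val_inv := by
    have := hc.B3
    rw [pow_succ, pow_two, mul_assoc] at this
    exact this
  inv_val := by
    have := hc.B3
    rw [pow_succ, pow_two] at this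
    exact this

theorem permCtx [Finite W] [Finite R] (hc : Ctx ρ B φ) (ht : Triple φ x) (hf : Frame ρ B φ x e)
    {A : Subgroup R} (hA : Good φ A) (hxA : x ∈ A) :
    PermCtx (MonoidHom.toHomUnits ρ).range (uB hc) (fun i => lineOf (eI B e i)) := by
  refine ⟨?_, ?_, ?_, ?_, ?_⟩
  · rintro _ ⟨r, rfl⟩
    refine ⟨φ r, ?_⟩
    apply Units.ext
    have h1 : B * ρ r = ρ (φ r) * B := hc.conj r
    have h2 : B * (B * B) = 1 := (uB hc).val_inv
    simp only [MonoidHom.coe_toHomUnits, Units.val_mul]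
    change ρ (φ r) = B * ρ r * ((uB hc)⁻¹ : (Module.End (ZMod 3) W)ˣ).val
    rw [h1, mul_assoc]
    change ρ (φ r) = ρ (φ r) * (B * (B * B))
    rw [h2, mul_one]
  · rintro _ ⟨r, rfl⟩ p hp
    have hcop : Nat.Coprime 3 (orderOf r) := by
      rw [Nat.Prime.coprime_iff_not_dvd Nat.prime_three]
      exact fun h => hc.odd3 (h.trans (orderOf_dvd_natCard r))
    obtain ⟨m, hm⟩ := exists_pow_eq_self_of_coprime hcop
    set u := MonoidHom.toHomUnits ρ r with hu
    have h1 : (u ^ 3) • p = p := by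
      rw [pow_succ, pow_two, mul_smul, mul_smul]
      exact hp
    have h2 : (u ^ 3) ∈ MulAction.stabilizer (Module.End (ZMod 3) W)ˣ p := h1
    have h3 : (u ^ 3) ^ m ∈ MulAction.stabilizer (Module.End (ZMod 3) W)ˣ p := pow_mem h2 m
    have h4 : (u ^ 3) ^ m = u := by
      rw [hu, ← map_pow, ← map_pow, hm]
    rw [h4] at h3
    exact h3
  · intro i j h
    exact eI_line_inj hc ht hf h
  · intro i
    change uB hc • lineOf (eI B e i) = lineOf (eI B e (i + 1))
    rw [smul_lineOf]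
    exact congrArg lineOf (B_eI hc i)
  · rintro _ ⟨r, rfl⟩ i hne
    have e1 : MonoidHom.toHomUnits ρ r • lineOf (eI B e i) = lineOf (ρ r (eI B e i)) := by
      rw [smul_lineOf]; rfl
    change uB hc • (MonoidHom.toHomUnits ρ r • lineOf (eI B e i)) = MonoidHom.toHomUnits ρ r • lineOf (eI B e i)
    rw [e1, smul_lineOf]
    rw [e1] at hne
    rcases translate_cases hc ht hf hA hxA r i with ⟨j, h⟩ | ⟨h1, h2⟩
    · exfalso
      exact hne j (lineOf_eq_iff.mpr h)
    · have := hf.fix _ h1 h2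
      exact congrArg lineOf this

/-- The dichotomy for the translates of the frame vectors. -/
theorem lines_dichotomy [Finite W] [Finite R] (hc : Ctx ρ B φ) (ht : Triple φ x) (hf : Frame ρ B φ x e)
    {A : Subgroup R} (hA : Good φ A) (hxA : x ∈ A) :
    (∀ r i, ∃ j, ρ r (eI B e i) = eI B e j ∨ ρ r (eI B e i) = -eI B e j) ∨
    ∃ e₀ : W, e₀ ≠ 0 ∧ ρ x e₀ = e₀ ∧ ρ (φ x) e₀ = e₀ ∧ B e₀ = e₀ ∧ (∃ r₀ i₀, e₀ = ρ r₀ (eI B e i₀)) ∧
      ∀ r i, (∃ j, ρ r (eI B e i) = eI B e j ∨ ρ r (eI B e i) = -eI B e j) ∨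
        ρ r (eI B e i) = e₀ ∨ ρ r (eI B e i) = -e₀ := by
  by_cases h : ∀ r i, ∃ j, ρ r (eI B e i) = eI B e j ∨ ρ r (eI B e i) = -eI B e j
  · exact Or.inl h
  · right
    push Not at h
    obtain ⟨r₀, i₀, h0⟩ := h
    have hc0 : ρ x (ρ r₀ (eI B e i₀)) = ρ r₀ (eI B e i₀) ∧
        ρ (φ x) (ρ r₀ (eI B e i₀)) = ρ r₀ (eI B e i₀) := by
      rcases translate_cases hc ht hf hA hxA r₀ i₀ with ⟨j, hj⟩ | h'
      · exfalso
        rcases hj with hj | hj
        · exact (h0 j).1 hj
        · exact (h0 j).2 hj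
      · exact h'
    refine ⟨ρ r₀ (eI B e i₀), ?_, hc0.1, hc0.2, hf.fix _ hc0.1 hc0.2, ⟨r₀, i₀, rfl⟩, ?_⟩
    · intro h1
      apply eI_ne hc hf i₀
      apply rho_inj ρ r₀
      rw [h1, map_zero]
    · intro r i
      by_cases hr : ∃ j, ρ r (eI B e i) = eI B e j ∨ ρ r (eI B e i) = -eI B e j
      · exact Or.inl hr
      · right
        push Not at hr
        have hp := permCtx hc ht hf hA hxA
        have e1 : ∀ s, (MonoidHom.toHomUnits ρ s) • lineOf (eI B e i) = lineOf (ρ s (eI B e i)) := by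
          intro s; rw [smul_lineOf]; rfl
        have e2 : ∀ s i', (MonoidHom.toHomUnits ρ s) • lineOf (eI B e i') = lineOf (ρ s (eI B e i')) := by
          intro s i'; rw [smul_lineOf]; rfl
        have key := perm_bound hp (h₁ := MonoidHom.toHomUnits ρ r) (h₂ := MonoidHom.toHomUnits ρ r₀)
          ⟨r, rfl⟩ ⟨r₀, rfl⟩ i i₀
          (fun j hj => by
            change (MonoidHom.toHomUnits ρ r) • lineOf (eI B e i) = lineOf (eI B e j) at hj
            rw [e2] at hj
            rcases lineOf_eq_iff.mp hj with h3 | h3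
            · exact (hr j).1 h3
            · exact (hr j).2 h3)
          (fun j hj => by
            change (MonoidHom.toHomUnits ρ r₀) • lineOf (eI B e i₀) = lineOf (eI B e j) at hj
            rw [e2] at hj
            rcases lineOf_eq_iff.mp hj with h3 | h3
            · exact (h0 j).1 h3
            · exact (h0 j).2 h3)
        change (MonoidHom.toHomUnits ρ r) • lineOf (eI B e i) =
          (MonoidHom.toHomUnits ρ r₀) • lineOf (eI B e i₀) at key
        rw [e2, e2] at key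
        exact lineOf_eq_iff.mp key

end Cfsg.Agent.Lib.Cubic3.Lines
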