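/-
`R` is a `2`-group.
-/
import Cfsg.Agent.Lib.Cubic3.Lines

set_option autoImplicit false

namespace Cfsg.Agent.Lib.Cubic3.Two

open Cfsg Cfsg.Agent.Lib.Core.Basic
open Cfsg.Agent.Lib.Cubic3.Basic Cfsg.Agent.Lib.Cubic3.Odd Cfsg.Agent.Lib.Cubic3.Dim
  Cfsg.Agent.Lib.Cubic3.Lines

variable {R W : Type*} [Group R] [AddCommGroup W] [Module (ZMod 3) W]

variable {ρ : R →* Module.End (ZMod 3) W} {B : Module.End (ZMod 3) W} {φ : R ≃* R} {x : R} {e : W}

theorem card_modEq_fixed {α : Type*} [Finite α] (f : α → α) (p k : ℕ) [Fact p.Prime]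
    (hf : ∀ a, f^[p ^ k] a = a) : Nat.card α ≡ Nat.card {a // f a = a} [MOD p] := by
  classical
  have := Fintype.ofFinite α
  let g : Function.End α := f
  have hg : g ^ p ^ k = 1 := by
    funext a
    exact hf a
  have h := Equiv.Perm.card_fixedPoints_modEq (f := g) (p := p) (n := k) hg
  have e1 : Nat.card α = Fintype.card α := Nat.card_eq_fintype_card
  have e2 : Nat.card {a // f a = a} = Fintype.card (Function.fixedPoints g) := by
    rw [Nat.card_eq_fintype_card]
    exact Fintype.card_congr (Equiv.refl _)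
  rw [e1, e2]
  exact h

/-- `rank (B - 1) ≥ 2`. -/
theorem two_le_rank [Finite W] (hc : Ctx ρ B φ) (ht : Triple φ x) (hf : Frame ρ B φ x e) :
    2 ≤ Module.finrank (ZMod 3) (LinearMap.range (B - 1)) := by
  have : Module.Finite (ZMod 3) W := Module.Finite.of_finite
  obtain ⟨w21, w22⟩ := Frame.wt2 hc.toPreCtx ht hf
  obtain ⟨w31, w32⟩ := Frame.wt3 hc.toPreCtx ht hf
  let T : Module.End (ZMod 3) W := B - 1
  let f : Fin 2 → LinearMap.range T := ![⟨T e, ⟨e, rfl⟩⟩, ⟨T (B e), ⟨B e, rfl⟩⟩]
  have hli : LinearIndependent (ZMod 3) f := by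
    rw [Fintype.linearIndependent_iff]
    intro g hg
    rw [Fin.sum_univ_two] at hg
    have h4 := congrArg Subtype.val hg
    simp only [f, Submodule.coe_add, Submodule.coe_smul, Matrix.cons_val_zero, Matrix.cons_val_one,
      Submodule.coe_zero, T, LinearMap.sub_apply, Module.End.one_apply] at h4
    have k := comp_unique (ρ x) (ρ (φ x)) (v₀ := 0) (v₁ := - (g 0 • e)) (v₂ := (g 0 - g 1) • B e)
      (v₃ := g 1 • B (B e))
      (by simp) (by simp [hf.h1, hf.h2, smul_neg]) (by simp [w21, w22, smul_neg]) (by simp [w31, w32, smul_neg])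
      (by linear_combination (norm := module) h4)
    have h0 : g 0 = 0 := by
      have h5 : g 0 • e = 0 := by simpa using k.2.1
      rcases smul_eq_zero.mp h5 with h | h
      · exact h
      · exact absurd h hf.ne
    have h1 : g 1 = 0 := by
      rcases smul_eq_zero.mp k.2.2.2 with h | h
      · exact h
      · exact absurd h (hc.B_ne_zero (hc.B_ne_zero hf.ne))
    intro i
    fin_cases i
    · exact h0
    · exact h1
  have := hli.fintype_card_le_finrank
  simpa using this

/-- Odd-order elements fixed by `φ` are trivial in dimension at most four. -/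
theorem fix_odd [Finite W] (hc : Ctx ρ B φ) (ht : Triple φ x) (hf : Frame ρ B φ x e)
    (hdim : Module.finrank (ZMod 3) W ≤ 4) (y : R) (hfix : φ y = y)
    (hodd : Nat.Coprime (orderOf y) 6) (hfin : y ^ orderOf y = 1) : y = 1 := by
  have : Module.Finite (ZMod 3) W := Module.Finite.of_finite
  have hYk : ρ y ^ orderOf y = 1 := by rw [rho_pow, hfin, map_one]
  have hYB : ∀ v, B (ρ y v) = ρ y (B v) := by
    intro v
    rw [hc.conj_apply, hfix]
  let T : Module.End (ZMod 3) W := B - 1
  have hT : ∀ v, T v = B v - v := fun v => rfl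
  have hYT : ∀ v, T (ρ y v) = ρ y (T v) := by
    intro v
    rw [hT, hT, hYB, map_sub]
  have h1 := gl2_odd (ρ y) (orderOf y) hYk hodd (LinearMap.range T) (by
    rintro _ ⟨v, rfl⟩
    exact ⟨ρ y v, hYT v⟩) hc.rank
  have hr := two_le_rank hc ht hf
  have hnull := LinearMap.finrank_range_add_finrank_ker T
  have hker : Module.finrank (ZMod 3) (LinearMap.ker T) ≤ 2 := by
    have h2 : Module.finrank (ZMod 3) (LinearMap.range T) ≥ 2 := hr
    omega
  have h2 := gl2_odd (ρ y) (orderOf y) hYk hodd (LinearMap.ker T) (by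
    intro v hv
    rw [LinearMap.mem_ker] at hv ⊢
    rw [hYT, hv, map_zero]) hker
  have h3 : ∀ v, ρ y v - v ∈ LinearMap.ker T := by
    intro v
    rw [LinearMap.mem_ker, map_sub, hYT, h1 _ ⟨v, rfl⟩, sub_self]
  have h4 : ∀ v, ρ y (ρ y v) - ρ y v = ρ y v - v := by
    intro v
    have := h2 _ (h3 v)
    rwa [map_sub] at this
  have h5 : ∀ v, ρ y (ρ y (ρ y v)) = v := by
    intro v
    have e1 := h4 v
    have e2 := h4 (ρ y v)
    have t := three_smul (ρ y v)
    have t2 := three_smul v
    -- `Y³ v = Y² v + Y v - Y v ... `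
    have e3 : ρ y (ρ y (ρ y v)) - v = (3 : ZMod 3) • (ρ y v) - (3 : ZMod 3) • v := by
      linear_combination (norm := module) e2 + (2 : ZMod 3) • e1
    rw [t, t2] at e3
    simpa [sub_eq_zero] using e3
  have h6 : ρ (y ^ 3) = 1 := by
    ext v
    simpa [pow_succ, rho_mul] using h5 v
  have h7 : y ^ 3 = 1 := hc.inj (by rw [h6, map_one])
  have h8 : orderOf y ∣ 3 := orderOf_dvd_of_pow_eq_one h7
  have h9 : orderOf y = 1 := Nat.Coprime.eq_one_of_dvd (Nat.Coprime.coprime_dvd_right (by norm_num) hodd) h8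
  exact orderOf_eq_one_iff.mp h9

theorem prod_GL_dvd : ∀ m ≤ 4, (∏ i : Fin m, (3 ^ m - 3 ^ (i : ℕ))) ∣ 24261120 := by
  intro m hm
  interval_cases m <;> decide

/-- The order of `R` divides `|GL₄(3)|`-size number. -/
theorem card_dvd [Finite W] [Finite R] (hc : Ctx ρ B φ) (hdim : Module.finrank (ZMod 3) W ≤ 4) :
    Nat.card R ∣ 24261120 :=
  (card_dvd_GL _ rfl ρ hc.inj).trans (prod_GL_dvd _ hdim)

theorem not_dvd_thirteen [Finite W] [Finite R] [Group.IsSolvable R] (hc : Ctx ρ B φ) (ht : Triple φ x)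
    (hf : Frame ρ B φ x e) (hdim : Module.finrank (ZMod 3) W ≤ 4) : ¬ 13 ∣ Nat.card R := by
  intro h13
  have : Fact (Nat.Prime 13) := ⟨by norm_num⟩
  obtain ⟨y, hy⟩ := exists_prime_orderOf_dvd_card' 13 h13
  have hy13 : y ^ 13 = 1 := by rw [← hy]; exact pow_orderOf_eq_one y
  have hTn : (pCore 2 R).Normal := pCore_normal 2 R
  have hT2 : IsPGroup 2 (pCore 2 R) := pCore_isPGroup
  let f : pCore 2 R → pCore 2 R := fun t => ⟨y * t * y⁻¹, hTn.conj_mem t t.2 y⟩
  have hfit : ∀ (n : ℕ) (t : pCore 2 R), ((f^[n] t : pCore 2 R) : R) = y ^ n * t * (y ^ n)⁻¹ := by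
    intro n
    induction n with
    | zero => intro t; simp
    | succ n ih =>
      intro t
      rw [Function.iterate_succ_apply, ih]
      simp only [f]
      group
  have hmod := card_modEq_fixed f 13 1 (by
    intro t
    apply Subtype.ext
    rw [hfit, pow_one, hy13]
    simp)
  -- the fixed points form a subgroup
  let C : Subgroup (pCore 2 R) :=
    { carrier := {t | f t = t}
      one_mem' := by
        apply Subtype.ext
        simp [f]
      mul_mem' := by
        intro a b ha hb
        have ha' : y * (a : R) * y⁻¹ = a := congrArg Subtype.val ha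
        have hb' : y * (b : R) * y⁻¹ = b := congrArg Subtype.val hb
        apply Subtype.ext
        change y * ((a : R) * b) * y⁻¹ = a * b
        calc y * ((a : R) * b) * y⁻¹ = (y * a * y⁻¹) * (y * b * y⁻¹) := by group
          _ = a * b := by rw [ha', hb']
      inv_mem' := by
        intro a ha
        have ha' : y * (a : R) * y⁻¹ = a := congrArg Subtype.val ha
        apply Subtype.ext
        change y * ((a : R))⁻¹ * y⁻¹ = (a : R)⁻¹
        calc y * ((a : R))⁻¹ * y⁻¹ = (y * a * y⁻¹)⁻¹ := by group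
          _ = (a : R)⁻¹ := by rw [ha'] }
  have hCcard : Nat.card {t // f t = t} = Nat.card C := rfl
  rw [hCcard] at hmod
  obtain ⟨t, ht'⟩ := IsPGroup.iff_card.mp hT2
  have hCd : Nat.card C ∣ Nat.card (pCore 2 R) := Subgroup.card_subgroup_dvd_card C
  rw [ht'] at hCd hmod
  obtain ⟨c, hcle, hc'⟩ := (Nat.dvd_prime_pow Nat.prime_two).mp hCd
  rw [hc'] at hmod
  have htle : t ≤ 9 := by
    by_contra hlt
    push Not at hlt
    have h1 : 2 ^ t ∣ 24261120 := by
      rw [← ht']
      exact (Subgroup.card_subgroup_dvd_card _).trans (card_dvd hc hdim)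
    have h2 : 2 ^ 10 ∣ 24261120 := (pow_dvd_pow 2 hlt).trans h1
    norm_num at h2
  have htc : t = c := by
    have hdec : ∀ t ≤ 9, ∀ c ≤ t, 2 ^ t ≡ 2 ^ c [MOD 13] → t = c := by decide
    exact hdec t htle c hcle hmod
  have hCtop : C = ⊤ := by
    apply Subgroup.eq_top_of_card_eq
    rw [hc', ht', htc]
  have hyC : y ∈ Subgroup.centralizer ((pCore 2 R : Subgroup R) : Set R) := by
    rw [Subgroup.mem_centralizer_iff]
    intro s hs
    have h1 : (⟨s, hs⟩ : pCore 2 R) ∈ C := by rw [hCtop]; trivial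
    have h2 : y * s * y⁻¹ = s := congrArg Subtype.val h1
    rw [mul_inv_eq_iff_eq_mul] at h2
    exact h2.symm
  have hyT := centralizer_le hc ht hf hyC
  have h1 : orderOf y ∣ 2 ^ t := by
    rw [← ht']
    exact Subgroup.orderOf_dvd_natCard _ hyT
  rw [hy] at h1
  have h2 := Nat.Prime.dvd_of_dvd_pow (by norm_num : Nat.Prime 13) h1
  omega

theorem not_dvd_five [Finite W] [Finite R] (hc : Ctx ρ B φ) (ht : Triple φ x)
    (hf : Frame ρ B φ x e) (hdim : Module.finrank (ZMod 3) W ≤ 4) : ¬ 5 ∣ Nat.card R := by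
  intro h5
  have : Fact (Nat.Prime 5) := ⟨by norm_num⟩
  have : Fact (Nat.Prime 3) := ⟨by norm_num⟩
  -- a `φ`-invariant Sylow subgroup
  let σ : MulAut R := φ
  have hσ3 : σ * σ * σ = 1 := by
    ext r
    exact hc.φ3 r
  obtain ⟨P₀⟩ : Nonempty (Sylow 5 R) := inferInstance
  let f : Sylow 5 R → Sylow 5 R := fun P => σ • P
  have hmod := card_modEq_fixed f 3 1 (by
    intro P
    change σ • σ • σ • P = P
    rw [← mul_smul, ← mul_smul, hσ3, one_smul])
  have hcard : ¬ 3 ∣ Nat.card (Sylow 5 R) := by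
    intro h
    exact hc.odd3 (h.trans ((Sylow.card_dvd_index P₀).trans (Subgroup.index_dvd_card _)))
  have hne : Nonempty {P // f P = P} := by
    by_contra hemp
    have hemp' := not_nonempty_iff.mp hemp
    have h0 : Nat.card {P // f P = P} = 0 := Nat.card_of_isEmpty
    rw [h0] at hmod
    exact hcard ((Nat.modEq_zero_iff_dvd).mp hmod)
  obtain ⟨⟨P, hP⟩⟩ := hne
  have hPφ : ∀ g ∈ (P : Subgroup R), φ g ∈ (P : Subgroup R) := by
    intro g hg
    have h1 : (σ • P : Sylow 5 R) = P := hP
    have h2 : ((σ • P : Sylow 5 R) : Subgroup R) = (P : Subgroup R) := by rw [h1]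
    rw [← h2]
    rw [Sylow.pointwise_smul_def]
    exact ⟨g, hg, rfl⟩
  have hP5 : IsPGroup 5 (P : Subgroup R) := P.isPGroup'
  obtain ⟨k, hk⟩ := IsPGroup.iff_card.mp hP5
  let g : ↥(P : Subgroup R) → ↥(P : Subgroup R) := fun a => ⟨φ a, hPφ a a.2⟩
  have hg := card_modEq_fixed g 3 1 (by
    intro a
    apply Subtype.ext
    exact hc.φ3 a)
  have hfixed : Nat.card {a // g a = a} = 1 := by
    rw [Nat.card_eq_one_iff_unique]
    refine ⟨⟨?_⟩, ⟨⟨1, by apply Subtype.ext; simp [g]⟩⟩⟩
    rintro ⟨a, ha⟩ ⟨b, hb⟩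
    have key : ∀ c : ↥(P : Subgroup R), g c = c → c = 1 := by
      intro c hc'
      have hc1 : φ (c : R) = c := congrArg Subtype.val hc'
      obtain ⟨m, hm⟩ := hP5 c
      have hm' : (c : R) ^ (5 ^ m) = 1 := by
        have := congrArg Subtype.val hm
        simpa using this
      have hord : orderOf (c : R) ∣ 5 ^ m := orderOf_dvd_of_pow_eq_one hm'
      have hcop : Nat.Coprime (orderOf (c : R)) 6 := by
        apply Nat.Coprime.coprime_dvd_left hord
        apply Nat.Coprime.pow_left
        norm_num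
      have := fix_odd hc ht hf hdim c hc1 hcop (pow_orderOf_eq_one _)
      exact Subtype.ext this
    apply Subtype.ext
    exact (key a ha).trans (key b hb).symm
  rw [hfixed, hk] at hg
  -- `k = 1`
  have hk1 : k = 1 := by
    have hk2 : k ≤ 1 := by
      by_contra hlt
      push Not at hlt
      have h1 : 5 ^ k ∣ 24261120 := by
        rw [← hk]
        exact (Subgroup.card_subgroup_dvd_card _).trans (card_dvd hc hdim)
      have h2 : 5 ^ 2 ∣ 24261120 := (pow_dvd_pow 5 hlt).trans h1
      norm_num at h2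
    have hk3 : k ≠ 0 := by
      rintro rfl
      have h1 : ¬ 5 ∣ (P : Subgroup R).index := P.not_dvd_index
      have h2 := (P : Subgroup R).card_mul_index
      rw [hk, pow_zero, one_mul] at h2
      rw [h2] at h1
      exact h1 h5
    omega
  rw [hk1] at hg
  exact absurd hg (by decide)

/-- `R` is a `2`-group once `dim W ≤ 4`. -/
theorem isPGroup_two [Finite W] [Finite R] [Group.IsSolvable R] (hc : Ctx ρ B φ) (ht : Triple φ x)
    (hf : Frame ρ B φ x e) (hdim : Module.finrank (ZMod 3) W ≤ 4) : IsPGroup 2 R := by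
  rw [IsPGroup.iff_card]
  have h5 := not_dvd_five hc ht hf hdim
  have h13 := not_dvd_thirteen hc ht hf hdim
  have hd := card_dvd hc hdim
  refine ⟨_, Nat.eq_prime_pow_of_unique_prime_dvd Nat.card_pos.ne' ?_⟩
  intro d hd1 hd2
  have hN : (24261120 : ℕ) = 2 ^ 9 * 3 ^ 6 * 5 * 13 := by norm_num
  have h1 : d ∣ 2 ^ 9 * 3 ^ 6 * 5 * 13 := by
    rw [← hN]; exact hd2.trans hd
  rcases (Nat.Prime.dvd_mul hd1).mp h1 with h2 | h2
  · rcases (Nat.Prime.dvd_mul hd1).mp h2 with h3 | h3
    · rcases (Nat.Prime.dvd_mul hd1).mp h3 with h4 | h4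
      · have := Nat.Prime.dvd_of_dvd_pow hd1 h4
        exact (Nat.prime_dvd_prime_iff_eq hd1 Nat.prime_two).mp this
      · have h6 := Nat.Prime.dvd_of_dvd_pow hd1 h4
        have h7 := (Nat.prime_dvd_prime_iff_eq hd1 Nat.prime_three).mp h6
        subst h7
        exact absurd hd2 hc.odd3
    · have h7 := (Nat.prime_dvd_prime_iff_eq hd1 (by norm_num)).mp h3
      subst h7
      exact absurd hd2 h5
  · have h7 := (Nat.prime_dvd_prime_iff_eq hd1 (by norm_num)).mp h2
    subst h7
    exact absurd hd2 h13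

/-- A `φ`-moved element of a good subgroup yields a triple in that subgroup. -/
theorem triple_of_good (hc : Ctx ρ B φ) {A : Subgroup R} (hA : Good φ A) {a : R} (ha : a ∈ A)
    (hne : φ a ≠ a) : Triple φ (φ a * a) ∧ φ a * a ∈ A := by
  have h1 : φ a ∈ A := hA.inv _ ha
  have h2 : φ (φ a) ∈ A := hA.inv _ h1
  have hx : φ a * a ∈ A := mul_mem h1 ha
  refine ⟨⟨hA.sq _ hx, ?_, ?_⟩, hx⟩
  · intro h
    apply hne
    have h3 : a * a = 1 := hA.sq _ ha
    calc φ a = φ a * (a * a) := by rw [h3, mul_one]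
      _ = (φ a * a) * a := by group
      _ = a := by rw [h, one_mul]
  · have e1 : φ (φ a * a) = φ (φ a) * φ a := by rw [map_mul]
    have e2 : φ (φ (φ a * a)) = a * φ (φ a) := by rw [e1, map_mul, hc.φ3]
    rw [e2, e1]
    have c1 : a * φ (φ a) = φ (φ a) * a := good_comm hA ha h2
    calc φ a * a * (φ (φ a) * φ a) * (a * φ (φ a))
        = φ a * a * (φ (φ a) * φ a) * (φ (φ a) * a) := by rw [c1]
      _ = φ a * (a * φ (φ a)) * (φ a * φ (φ a)) * a := by group
      _ = φ a * (φ (φ a) * a) * (φ (φ a) * φ a) * a := by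
          rw [c1, good_comm hA h1 h2]
      _ = φ a * φ (φ a) * (a * φ (φ a)) * (φ a * a) := by group
      _ = φ a * φ (φ a) * (φ (φ a) * a) * (φ a * a) := by rw [c1]
      _ = φ a * (φ (φ a) * φ (φ a)) * (a * φ a) * a := by group
      _ = φ a * (a * φ a) * a := by rw [hA.sq _ h2, mul_one]
      _ = φ a * (φ a * a) * a := by rw [good_comm hA ha h1]
      _ = (φ a * φ a) * (a * a) := by group
      _ = 1 := by rw [hA.sq _ h1, hA.sq _ ha, one_mul]

/-- In the presence of a good subgroup containing the triple, `dim W ≤ 4`. -/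
theorem finrank_le_of_good [Finite W] [Finite R] (hc : Ctx ρ B φ) (ht : Triple φ x) (hf : Frame ρ B φ x e)
    {A : Subgroup R} (hA : Good φ A) (hxA : x ∈ A) : Module.finrank (ZMod 3) W ≤ 4 := by
  classical
  have : Module.Finite (ZMod 3) W := Module.Finite.of_finite
  have key : ∀ S : Finset W, S.card ≤ 4 → e ∈ S → (∀ v ∈ S, B v ∈ S) →
      (∀ r, ∀ v ∈ S, ρ r v ∈ S ∨ - ρ r v ∈ S) → Module.finrank (ZMod 3) W ≤ 4 := by
    intro S hS he hBS hrS
    let N := Submodule.span (ZMod 3) (S : Set W)
    have i1 : ∀ r, ∀ v ∈ N, ρ r v ∈ N := by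
      intro r v hv
      induction hv using Submodule.span_induction with
      | mem u hu =>
        rcases hrS r u hu with h | h
        · exact Submodule.subset_span h
        · have := N.neg_mem (Submodule.subset_span h)
          simpa using this
      | zero => simp
      | add u₁ u₂ _ _ h₁ h₂ => rw [map_add]; exact N.add_mem h₁ h₂
      | smul t u _ h₁ => rw [map_smul]; exact N.smul_mem _ h₁
    have i2 : ∀ v ∈ N, B v ∈ N := by
      intro v hv
      induction hv using Submodule.span_induction with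
      | mem u hu => exact Submodule.subset_span (hBS u hu)
      | zero => simp
      | add u₁ u₂ _ _ h₁ h₂ => rw [map_add]; exact N.add_mem h₁ h₂
      | smul t u _ h₁ => rw [map_smul]; exact N.smul_mem _ h₁
    have hN : N = ⊤ := by
      rcases hc.irr N i1 i2 with h | h
      · exfalso
        have h3 : e ∈ N := Submodule.subset_span he
        rw [h] at h3
        exact hf.ne (by simpa using h3)
      · exact h
    have h1 := finrank_span_finset_le_card (R := ZMod 3) S
    rw [← finrank_top (ZMod 3) W]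
    have h2 : Module.finrank (ZMod 3) (⊤ : Submodule (ZMod 3) W) = Module.finrank (ZMod 3) N := by rw [hN]
    rw [h2]
    exact h1.trans hS
  have heI0 : e = eI B e 0 := eI_zero.symm
  rcases lines_dichotomy hc ht hf hA hxA with h | ⟨e₀, h0, _, _, hB0, ⟨r₀, i₀, hr₀⟩, h⟩
  · apply key (Finset.univ.image (eI B e))
    · exact Finset.card_image_le.trans (by simp [ZMod.card])
    · rw [Finset.mem_image]; exact ⟨0, Finset.mem_univ _, eI_zero⟩
    · intro v hv
      obtain ⟨i, _, rfl⟩ := Finset.mem_image.mp hv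
      rw [B_eI hc]
      exact Finset.mem_image.mpr ⟨_, Finset.mem_univ _, rfl⟩
    · intro r v hv
      obtain ⟨i, _, rfl⟩ := Finset.mem_image.mp hv
      obtain ⟨j, hj | hj⟩ := h r i
      · left; rw [hj]; exact Finset.mem_image.mpr ⟨_, Finset.mem_univ _, rfl⟩
      · right; rw [hj, neg_neg]; exact Finset.mem_image.mpr ⟨_, Finset.mem_univ _, rfl⟩
  · apply key (insert e₀ (Finset.univ.image (eI B e)))
    · refine (Finset.card_insert_le _ _).trans ?_
      have : (Finset.univ.image (eI B e)).card ≤ 3 := Finset.card_image_le.trans (by simp [ZMod.card])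
      omega
    · rw [Finset.mem_insert, Finset.mem_image]; exact Or.inr ⟨0, Finset.mem_univ _, eI_zero⟩
    · intro v hv
      rcases Finset.mem_insert.mp hv with rfl | hv
      · rw [hB0]; exact Finset.mem_insert_self _ _
      · obtain ⟨i, _, rfl⟩ := Finset.mem_image.mp hv
        rw [B_eI hc]
        exact Finset.mem_insert_of_mem (Finset.mem_image.mpr ⟨_, Finset.mem_univ _, rfl⟩)
    · have hS : ∀ r i, ρ r (eI B e i) ∈ insert e₀ (Finset.univ.image (eI B e)) ∨
          - ρ r (eI B e i) ∈ insert e₀ (Finset.univ.image (eI B e)) := by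
        intro r i
        rcases h r i with ⟨j, hj | hj⟩ | hj | hj
        · left; rw [hj]; exact Finset.mem_insert_of_mem (Finset.mem_image.mpr ⟨_, Finset.mem_univ _, rfl⟩)
        · right; rw [hj, neg_neg]; exact Finset.mem_insert_of_mem (Finset.mem_image.mpr ⟨_, Finset.mem_univ _, rfl⟩)
        · left; rw [hj]; exact Finset.mem_insert_self _ _
        · right; rw [hj, neg_neg]; exact Finset.mem_insert_self _ _
      intro r v hv
      rcases Finset.mem_insert.mp hv with h' | hv
      · have e4 : ρ r v = ρ (r * r₀) (eI B e i₀) := by rw [h', rho_mul, ← hr₀]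
        rw [e4]; exact hS _ _
      · obtain ⟨i, _, rfl⟩ := Finset.mem_image.mp hv
        exact hS r i

/-- In all cases, `dim W ≤ 4`. -/
theorem finrank_le [Finite W] [Finite R] [Group.IsSolvable R] (hc : Ctx ρ B φ) (ht : Triple φ x) :
    Module.finrank (ZMod 3) W ≤ 4 := by
  obtain ⟨e, hf⟩ := hc.toPreCtx.exists_frame ht
  by_cases h : ∀ A, Good φ A → ∀ a ∈ A, φ a = a
  · exact finrank_le_of_no_good hc ht hf h
  · push Not at h
    obtain ⟨A, hA, a, ha, hne⟩ := h
    obtain ⟨ht', hxA⟩ := triple_of_good hc hA ha hne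
    obtain ⟨e', hf'⟩ := hc.toPreCtx.exists_frame ht'
    exact finrank_le_of_good hc ht' hf' hA hxA

/-- In a `2`-group there is a good subgroup moved by `φ`. -/
theorem exists_good [Finite W] [Finite R] [Group.IsSolvable R] (hc : Ctx ρ B φ) (ht : Triple φ x)
    (hf : Frame ρ B φ x e) (h2 : IsPGroup 2 R) : ∃ A, Good φ A ∧ ∃ a ∈ A, φ a ≠ a := by
  by_contra hno
  push Not at hno
  have hgood : ∀ A, Good φ A → ∀ a ∈ A, φ a = a := hno
  have hall : ∀ r, r ∈ pCore 2 R := by
    intro r
    rw [pCore_eq_of_isPGroup h2]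
    trivial
  obtain ⟨z, hzT, hz⟩ := exists_minus hc ht hf hgood
  have hFr := frattini_le hc hf hgood hzT hz
  have hcomm : ∀ a b : R, a * b * a⁻¹ * b⁻¹ = 1 ∨ a * b * a⁻¹ * b⁻¹ = z := by
    intro a b
    apply hFr
    have e' : a * b * a⁻¹ * b⁻¹ = (a * b) * (a * b) * ((b⁻¹ * a⁻¹ * b) * (b⁻¹ * a⁻¹ * b)) * (b⁻¹ * b⁻¹) := by
      group
    rw [e']
    exact mul_mem (mul_mem (Subgroup.subset_closure ⟨_, hall _, rfl⟩)
      (Subgroup.subset_closure ⟨_, hall _, rfl⟩)) (Subgroup.subset_closure ⟨_, hall _, rfl⟩)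
  have hzc := hz.cen
  -- the normal subgroup `Q × ⟨z⟩`
  let A : Subgroup R :=
    { carrier := {g | g ∈ fourGroup ht ∨ z * g ∈ fourGroup ht}
      one_mem' := Or.inl (one_mem _)
      mul_mem' := by
        rintro a b (ha | ha) (hb | hb)
        · exact Or.inl (mul_mem ha hb)
        · right
          have e' : z * (a * b) = a * (z * b) := by
            rw [← mul_assoc, ← hzc, mul_assoc]
          rw [e']; exact mul_mem ha hb
        · right
          have e' : z * (a * b) = (z * a) * b := by group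
          rw [e']; exact mul_mem ha hb
        · left
          have e' : a * b = (z * a) * (z * b) := by
            calc a * b = (z * z) * (a * b) := by rw [hz.sq, one_mul]
              _ = z * (z * a) * b := by group
              _ = z * (a * z) * b := by rw [hzc]
              _ = (z * a) * (z * b) := by group
          rw [e']; exact mul_mem ha hb
      inv_mem' := by
        rintro a (ha | ha)
        · exact Or.inl (inv_mem ha)
        · right
          have e' : z * a⁻¹ = (z * a)⁻¹ := by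
            rw [mul_inv_rev, inv_eq_of_mul_eq_one_left hz.sq, hzc]
          rw [e']; exact inv_mem ha }
  have hA : Good φ A := by
    have hQinv : ∀ q ∈ fourGroup ht, φ q ∈ fourGroup ht := by
      rintro q (rfl | rfl | rfl | rfl)
      · left; simp
      · right; right; left; rfl
      · right; right; right; rfl
      · right; left; exact hc.φ3 x
    have hQsq : ∀ q ∈ fourGroup ht, q * q = 1 := by
      intro q hq
      have := (fourGroup_elementary ht).2 q hq
      rwa [pow_two] at this
    refine ⟨⟨?_⟩, ?_, ?_⟩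
    · intro n hn g
      -- `g n g⁻¹ = [g, n] n`
      have e1 : g * n * g⁻¹ = (g * n * g⁻¹ * n⁻¹) * n := by group
      rcases hcomm g n with h | h
      · rw [e1, h, one_mul]; exact hn
      · rw [e1, h]
        rcases hn with hn | hn
        · exact Or.inr (by
            have : z * (z * n) = n := by rw [← mul_assoc, hz.sq, one_mul]
            rw [this]; exact hn)
        · exact Or.inl hn
    · rintro a (ha | ha)
      · exact Or.inl (hQinv _ ha)
      · right
        have : z * φ a = φ (z * a) := by rw [map_mul, hz.fix]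
        rw [this]
        exact hQinv _ ha
    · rintro a (ha | ha)
      · exact hQsq a ha
      · have := hQsq _ ha
        calc a * a = (z * z) * (a * a) := by rw [hz.sq, one_mul]
          _ = z * (z * a) * a := by group
          _ = z * (a * z) * a := by rw [hzc]
          _ = (z * a) * (z * a) := by group
          _ = 1 := this
  exact ht.phi_ne (hgood A hA x (Or.inl (Or.inr (Or.inl rfl))))

end Cfsg.Agent.Lib.Cubic3.Two
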