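/-
Monomial representations over `𝔽₃`: permutation part, signs and determinant.
-/
import Cfsg.Agent.Lib.Cubic3.Two

set_option autoImplicit false

namespace Cfsg.Agent.Lib.Cubic3.Mono

open Cfsg.Agent.Lib.Cubic3.Basic Cfsg.Agent.Lib.Cubic3.Odd Cfsg.Agent.Lib.Cubic3.Dim
  Cfsg.Agent.Lib.Cubic3.Lines Cfsg.Agent.Lib.Cubic3.Two

variable {R W : Type*} [Group R] [AddCommGroup W] [Module (ZMod 3) W]
variable {ι : Type*} [Fintype ι] [DecidableEq ι]

/-- `R` permutes a basis up to signs. -/
structure MonoBasis (ρ : R →* Module.End (ZMod 3) W) (f : ι → W) : Prop where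
  li : LinearIndependent (ZMod 3) f
  span : ⊤ ≤ Submodule.span (ZMod 3) (Set.range f)
  act : ∀ r i, ∃ j, ρ r (f i) = f j ∨ ρ r (f i) = - f j

variable {ρ : R →* Module.End (ZMod 3) W} {f : ι → W}

theorem MonoBasis.eq_of_eq (hm : MonoBasis ρ f) {i j : ι} (h : f i = f j ∨ f i = - f j) : i = j := by
  by_contra hij
  have h1 := hm.li.notMem_span_image (s := {j}) (x := i) (by simpa using hij)
  apply h1
  rcases h with h | h
  · rw [h]; exact Submodule.subset_span ⟨j, rfl, rfl⟩
  · rw [h]; exact Submodule.neg_mem _ (Submodule.subset_span ⟨j, rfl, rfl⟩)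

theorem pm_trans {a b x : W} (h1 : x = a ∨ x = -a) (h2 : x = b ∨ x = -b) : a = b ∨ a = -b := by
  rcases h1 with rfl | rfl <;> rcases h2 with h | h
  · exact Or.inl h
  · exact Or.inr h
  · right; rw [← h]; simp
  · left; exact neg_injective h

/-- The permutation part and signs. -/
theorem MonoBasis.exists_mono (hm : MonoBasis ρ f) :
    ∃ (π : R →* Equiv.Perm ι) (s : R → ι → ZMod 3),
      (∀ r i, ρ r (f i) = s r i • f (π r i)) ∧ (∀ r i, s r i = 1 ∨ s r i = -1) := by
  classical
  choose idx hidx using hm.act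
  have hone : ∀ i, idx 1 i = i := by
    intro i
    have := hidx 1 i
    rw [rho_one] at this
    exact hm.eq_of_eq (pm_trans this (Or.inl rfl))
  have hmul : ∀ r r' i, idx (r * r') i = idx r (idx r' i) := by
    intro r r' i
    have h1 := hidx (r * r') i
    apply hm.eq_of_eq
    refine pm_trans h1 ?_
    rw [rho_mul]
    rcases hidx r' i with h2 | h2
    · rw [h2]; exact hidx r _
    · rw [h2, map_neg]
      rcases hidx r (idx r' i) with h3 | h3
      · right; rw [h3]
      · left; rw [h3]; simp
  let π₀ : R → Equiv.Perm ι := fun r =>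
    { toFun := idx r
      invFun := idx r⁻¹
      left_inv := fun i => by rw [← hmul, inv_mul_cancel, hone]
      right_inv := fun i => by rw [← hmul, mul_inv_cancel, hone] }
  have hπ₀ : ∀ r i, π₀ r i = idx r i := fun _ _ => rfl
  let π : R →* Equiv.Perm ι := MonoidHom.mk' π₀ (by
    intro r r'
    ext i
    change idx (r * r') i = idx r (idx r' i)
    exact hmul r r' i)
  have hπ : ∀ r i, π r i = idx r i := fun _ _ => rfl
  refine ⟨π, fun r i => if ρ r (f i) = f (idx r i) then 1 else -1, ?_, ?_⟩
  · intro r i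
    rw [hπ]
    by_cases h : ρ r (f i) = f (idx r i)
    · simp [h]
    · simp only [h, if_false, neg_smul, one_smul]
      exact (hidx r i).resolve_left h
  · intro r i
    by_cases h : ρ r (f i) = f (idx r i)
    · left; simp [h]
    · right; simp [h]

/-- Determinant of a monomial map. -/
theorem MonoBasis.det_eq (hm : MonoBasis ρ f) (g : Module.End (ZMod 3) W) (π : Equiv.Perm ι)
    (s : ι → ZMod 3) (hg : ∀ i, g (f i) = s i • f (π i)) :
    LinearMap.det g = ((Equiv.Perm.sign π : ℤ) : ZMod 3) * ∏ i, s i := by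
  classical
  let b := Module.Basis.mk hm.li hm.span
  have hb : ∀ i, b i = f i := fun i => Module.Basis.mk_apply _ _ i
  rw [← LinearMap.det_toMatrix b g]
  have hM : ∀ i j, LinearMap.toMatrix b b g i j = if i = π j then s j else 0 := by
    intro i j
    rw [LinearMap.toMatrix_apply, hb, hg, ← hb, map_smul, Module.Basis.repr_self]
    simp [Finsupp.single_apply, eq_comm]
  rw [Matrix.det_apply']
  rw [Finset.sum_eq_single π]
  · congr 1
    apply Finset.prod_congr rfl
    intro i _
    rw [hM]
    simp
  · intro σ _ hσ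
    have : ∃ i, σ i ≠ π i := by
      by_contra hno
      push Not at hno
      exact hσ (Equiv.ext hno)
    obtain ⟨i, hi⟩ := this
    rw [Finset.prod_eq_zero (Finset.mem_univ i) (by rw [hM]; simp [hi]), mul_zero]
  · simp

variable {B : Module.End (ZMod 3) W} {φ : R ≃* R} {x : R} {e : W}

/-- The determinant is trivial on `R`. -/
theorem det_eq_one (hc : Ctx ρ B φ) (r : R) : LinearMap.det (ρ r) = 1 := by
  have hBu : LinearMap.det B ≠ 0 := by
    intro h
    have h1 : LinearMap.det (B ^ 3) = 0 := by rw [map_pow, h]; simp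
    rw [hc.B3, map_one] at h1
    exact one_ne_zero h1
  have hφ : ∀ r, LinearMap.det (ρ (φ r)) = LinearMap.det (ρ r) := by
    intro r
    have h1 := congrArg LinearMap.det (hc.conj r)
    rw [map_mul, map_mul, mul_comm] at h1
    exact (mul_right_cancel₀ hBu h1).symm
  let H : Subgroup R :=
    { carrier := {r | LinearMap.det (ρ r) = 1}
      one_mem' := by
        change LinearMap.det (ρ 1) = 1
        rw [map_one, map_one]
      mul_mem' := by
        intro a b ha hb
        change LinearMap.det (ρ (a * b)) = 1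
        rw [map_mul, map_mul, ha, hb, one_mul]
      inv_mem' := by
        intro a ha
        change LinearMap.det (ρ a⁻¹) = 1
        have h1 : LinearMap.det (ρ a⁻¹) * LinearMap.det (ρ a) = 1 := by
          rw [← map_mul, ← map_mul, inv_mul_cancel, map_one, map_one]
        rw [ha, mul_one] at h1
        exact h1 }
  have hH : H = ⊤ := by
    apply hc.gen
    intro r
    change LinearMap.det (ρ (r⁻¹ * φ r)) = 1
    rw [map_mul, map_mul, hφ, ← map_mul, ← map_mul, inv_mul_cancel, map_one, map_one]
  have : r ∈ H := by rw [hH]; trivial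
  exact this

end Cfsg.Agent.Lib.Cubic3.Mono
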