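/-
Diagonal elements of monomial representations.
-/
import Cfsg.Agent.Lib.Cubic3.Mono
import Cfsg.Agent.Lib.PGroups.Basic

set_option autoImplicit false

namespace Cfsg.Agent.Lib.Cubic3.Diag

open Cfsg.Agent.Lib.Cubic3.Basic Cfsg.Agent.Lib.Cubic3.Odd Cfsg.Agent.Lib.Cubic3.Dim
  Cfsg.Agent.Lib.Cubic3.Lines Cfsg.Agent.Lib.Cubic3.Two Cfsg.Agent.Lib.Cubic3.Mono

variable {R W : Type*} [Group R] [AddCommGroup W] [Module (ZMod 3) W]
variable {ι : Type*} [Fintype ι] [DecidableEq ι]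
variable {ρ : R →* Module.End (ZMod 3) W} {f : ι → W}
variable {B : Module.End (ZMod 3) W} {φ : R ≃* R}

/-- `d` acts diagonally with entries `p`. -/
def IsDiag (ρ : R →* Module.End (ZMod 3) W) (f : ι → W) (d : R) (p : ι → ZMod 3) : Prop :=
  ∀ i, ρ d (f i) = p i • f i

theorem hm_ext (hm : MonoBasis ρ f) {g g' : Module.End (ZMod 3) W}
    (h : ∀ i, g (f i) = g' (f i)) : g = g' := by
  apply LinearMap.ext_on_range (v := f) (top_unique hm.span)
  exact h

theorem hm_ne_zero (hm : MonoBasis ρ f) (i : ι) : f i ≠ 0 := hm.li.ne_zero i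

theorem diag_ext (hc : Ctx ρ B φ) (hm : MonoBasis ρ f) {d d' : R} {p : ι → ZMod 3}
    (h : IsDiag ρ f d p) (h' : IsDiag ρ f d' p) : d = d' := by
  apply hc.inj
  apply hm_ext hm
  intro i
  rw [h i, h' i]

theorem diag_unique (hm : MonoBasis ρ f) {d : R} {p q : ι → ZMod 3}
    (h : IsDiag ρ f d p) (h' : IsDiag ρ f d q) : p = q := by
  funext i
  have h1 := (h i).symm.trans (h' i)
  have h2 : (p i - q i) • f i = 0 := by rw [sub_smul, h1, sub_self]
  rcases smul_eq_zero.mp h2 with h3 | h3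
  · exact sub_eq_zero.mp h3
  · exact absurd h3 (hm_ne_zero hm i)

theorem diag_mul {d d' : R} {p p' : ι → ZMod 3}
    (h : IsDiag ρ f d p) (h' : IsDiag ρ f d' p') : IsDiag ρ f (d * d') (fun i => p i * p' i) := by
  intro i
  rw [rho_mul, h' i, map_smul, h i, smul_smul, mul_comm]

theorem diag_one : IsDiag ρ f (1 : R) (fun _ => 1) := by
  intro i
  rw [rho_one, one_smul]

section mono

variable {π : R →* Equiv.Perm ι} {s : R → ι → ZMod 3}

theorem diag_conj (hρ : ∀ r i, ρ r (f i) = s r i • f (π r i)) (hs : ∀ r i, s r i = 1 ∨ s r i = -1)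
    {d : R} {p : ι → ZMod 3} (h : IsDiag ρ f d p) (r : R) :
    IsDiag ρ f (r * d * r⁻¹) (fun i => p ((π r)⁻¹ i)) := by
  intro i
  obtain ⟨i', rfl⟩ : ∃ i', π r i' = i := (π r).surjective i
  have e0 : (π r)⁻¹ (π r i') = i' := by simp
  have ht : s r i' * s r i' = 1 := by
    rcases hs r i' with h1 | h1 <;> rw [h1] <;> decide
  have h1 : ρ r⁻¹ (f (π r i')) = s r i' • f i' := by
    have h2 := hρ r i'
    have h3 : ρ r⁻¹ (s r i' • ρ r (f i')) = s r i' • f i' := by
      rw [map_smul, rho_inv_rho]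
    rw [← h3, h2, smul_smul, ht, one_smul]
  simp only [e0]
  rw [rho_mul, rho_mul, h1, map_smul, h i', map_smul, map_smul, hρ r i', smul_smul, smul_smul]
  congr 1
  calc s r i' * p i' * s r i' = (s r i' * s r i') * p i' := by ring
    _ = p i' := by rw [ht, one_mul]

theorem diag_of_ker (hρ : ∀ r i, ρ r (f i) = s r i • f (π r i)) {r : R} (h : π r = 1) :
    IsDiag ρ f r (s r) := by
  intro i
  rw [hρ, h]
  rfl

theorem ker_of_diag (hm : MonoBasis ρ f) (hρ : ∀ r i, ρ r (f i) = s r i • f (π r i))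
    (hs : ∀ r i, s r i = 1 ∨ s r i = -1) {d : R} {p : ι → ZMod 3} (h : IsDiag ρ f d p)
    (hp : ∀ i, p i = 1 ∨ p i = -1) : π d = 1 := by
  ext i
  show π d i = i
  have h1 := (hρ d i).symm.trans (h i)
  apply hm.eq_of_eq
  rcases hs d i with h2 | h2 <;> rcases hp i with h3 | h3 <;> rw [h2, h3] at h1
  · left; simpa using h1
  · right; simpa using h1
  · right
    have : - f (π d i) = f i := by simpa using h1
    rw [← this, neg_neg]
  · left; simpa using h1

end mono

section group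

variable {π : R →* Equiv.Perm ι} {s : R → ι → ZMod 3}

/-- `π (φ r) = c π(r) c⁻¹`. -/
theorem pi_phi (hc : Ctx ρ B φ) (hm : MonoBasis ρ f) (hρ : ∀ r i, ρ r (f i) = s r i • f (π r i))
    (hs : ∀ r i, s r i = 1 ∨ s r i = -1) (c : Equiv.Perm ι) (hBf : ∀ i, B (f i) = f (c i)) (r : R) :
    π (φ r) = c * π r * c⁻¹ := by
  ext i
  obtain ⟨i', rfl⟩ : ∃ i', c i' = i := c.surjective i
  have h1 : ρ (φ r) (f (c i')) = s r i' • f (c (π r i')) := by
    rw [← hBf, ← hc.conj_apply, hρ, map_smul, hBf]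
  rw [hρ] at h1
  have e0 : (c * π r * c⁻¹) (c i') = c (π r i') := by simp
  rw [e0]
  apply hm.eq_of_eq
  rcases hs (φ r) (c i') with h2 | h2 <;> rcases hs r i' with h3 | h3 <;> rw [h2, h3] at h1
  · left; simpa using h1
  · right; simpa using h1
  · right
    have : - f (π (φ r) (c i')) = f (c (π r i')) := by simpa using h1
    rw [← this, neg_neg]
  · left; simpa using h1

/-- No element of order three in the permutation part of a `2`-group. -/
theorem pi_pow3 [Finite R] (h2 : IsPGroup 2 R) (r : R) (h : (π r) ^ 3 = 1) : π r = 1 := by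
  obtain ⟨k, hk⟩ := h2 r
  have h1 : (π r) ^ (2 ^ k) = 1 := by rw [← map_pow, hk, map_one]
  have h3 := pow_gcd_eq_one.mpr ⟨h1, h⟩
  have h4 : Nat.gcd (2 ^ k) 3 = 1 := Nat.Coprime.pow_left k (by norm_num)
  rwa [h4, pow_one] at h3

/-- Determinant one in terms of signs. -/
theorem sign_prod (hc : Ctx ρ B φ) (hm : MonoBasis ρ f) (hρ : ∀ r i, ρ r (f i) = s r i • f (π r i))
    (r : R) : ((Equiv.Perm.sign (π r) : ℤ) : ZMod 3) * ∏ i, s r i = 1 := by
  rw [← hm.det_eq (ρ r) (π r) (s r) (hρ r), det_eq_one hc r]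

end group

end Cfsg.Agent.Lib.Cubic3.Diag
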