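/-
The three-dimensional case: `R` is the four-group.
-/
import Cfsg.Agent.Lib.Cubic3.Diag

set_option autoImplicit false

namespace Cfsg.Agent.Lib.Cubic3.CaseThree

open Cfsg.Agent.Lib.Cubic3.Basic Cfsg.Agent.Lib.Cubic3.Odd Cfsg.Agent.Lib.Cubic3.Dim
  Cfsg.Agent.Lib.Cubic3.Lines Cfsg.Agent.Lib.Cubic3.Two Cfsg.Agent.Lib.Cubic3.Mono
  Cfsg.Agent.Lib.Cubic3.Diag Equiv

variable {R W : Type*} [Group R] [AddCommGroup W] [Module (ZMod 3) W]
variable {ρ : R →* Module.End (ZMod 3) W} {B : Module.End (ZMod 3) W} {φ : R ≃* R} {x : R} {e : W}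

/-- The three-cycle. -/
abbrev c3 : Perm (Fin 3) := swap 0 1 * swap 1 2

set_option maxRecDepth 100000 in
theorem perm3_dec : ∀ g : Perm (Fin 3), g = 1 ∨
    ((g * (c3 * g * c3⁻¹)) ^ 3 = 1 ∧ g * (c3 * g * c3⁻¹) ≠ 1) := by decide

theorem sign3_dec : ∀ a b c : ZMod 3, (a = 1 ∨ a = -1) → (b = 1 ∨ b = -1) → (c = 1 ∨ c = -1) →
    a * b * c = 1 → (a = 1 ∧ b = 1 ∧ c = 1) ∨ (a = 1 ∧ b = -1 ∧ c = -1) ∨
      (a = -1 ∧ b = 1 ∧ c = -1) ∨ (a = -1 ∧ b = -1 ∧ c = 1) := by decide

theorem fin3_cases : ∀ i : Fin 3, i = 0 ∨ i = 1 ∨ i = 2 := by decide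

/-- The three-dimensional case. -/
theorem case3 [Finite W] [Finite R] (hc : Ctx ρ B φ) (ht : Triple φ x) (hf : Frame ρ B φ x e)
    (h2 : IsPGroup 2 R)
    (hact : ∀ r i, ∃ j, ρ r (eI B e i) = eI B e j ∨ ρ r (eI B e i) = -eI B e j) :
    (∀ a b : R, a * b = b * a) ∧ (∀ a : R, a * a = 1) ∧ Nat.card R = 4 := by
  classical
  obtain ⟨haa, hcc, hac, hd, hBa, hBc, hBd⟩ := hc.ops ht
  obtain ⟨w21, w22⟩ := Frame.wt2 hc.toPreCtx ht hf
  obtain ⟨w31, w32⟩ := Frame.wt3 hc.toPreCtx ht hf
  let f : Fin 3 → W := ![e, B e, B (B e)]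
  have f0 : f 0 = e := rfl
  have f1 : f 1 = B e := rfl
  have f2 : f 2 = B (B e) := rfl
  have hev : ∀ j : ZMod 3, ∃ k, eI B e j = f k := by
    intro j
    rcases zmod3_cases' j with rfl | rfl | rfl
    · exact ⟨0, eI_zero⟩
    · exact ⟨1, eI_one⟩
    · exact ⟨2, eI_two⟩
  have hfe : ∀ k : Fin 3, ∃ j, f k = eI B e j := by
    intro k
    rcases fin3_cases k with rfl | rfl | rfl
    · exact ⟨0, eI_zero.symm⟩
    · exact ⟨1, eI_one.symm⟩
    · exact ⟨2, eI_two.symm⟩
  have hne : ∀ i, f i ≠ 0 := by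
    intro i
    rcases fin3_cases i with rfl | rfl | rfl
    · exact hf.ne
    · exact hc.B_ne_zero hf.ne
    · exact hc.B_ne_zero (hc.B_ne_zero hf.ne)
  have hBf : ∀ i, B (f i) = f (c3 i) := by
    intro i
    rcases fin3_cases i with rfl | rfl | rfl
    · rw [show c3 0 = 1 by decide]; rfl
    · rw [show c3 1 = 2 by decide]; rfl
    · rw [show c3 2 = 0 by decide, f2, f0]; exact hc.B3_apply e
  have hact' : ∀ r i, ∃ j, ρ r (f i) = f j ∨ ρ r (f i) = - f j := by
    intro r i
    obtain ⟨j, hj⟩ := hfe i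
    rw [hj]
    obtain ⟨j', hj'⟩ := hact r j
    obtain ⟨k, hk⟩ := hev j'
    exact ⟨k, by rwa [hk] at hj'⟩
  have hm : MonoBasis ρ f := by
    refine ⟨?_, ?_, hact'⟩
    · rw [Fintype.linearIndependent_iff]
      intro g hg
      rw [Fin.sum_univ_three, f0, f1, f2] at hg
      have k := comp_unique (ρ x) (ρ (φ x)) (v₀ := 0) (v₁ := g 0 • e) (v₂ := g 1 • B e)
        (v₃ := g 2 • B (B e))
        (by simp) (by simp [hf.h1, hf.h2, smul_neg]) (by simp [w21, w22, smul_neg])
        (by simp [w31, w32, smul_neg])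
        (by simpa using hg)
      intro i
      rcases fin3_cases i with rfl | rfl | rfl
      · exact (smul_eq_zero.mp k.2.1).resolve_right hf.ne
      · exact (smul_eq_zero.mp k.2.2.1).resolve_right (hc.B_ne_zero hf.ne)
      · exact (smul_eq_zero.mp k.2.2.2).resolve_right (hc.B_ne_zero (hc.B_ne_zero hf.ne))
    · let N := Submodule.span (ZMod 3) (Set.range f)
      have i1 : ∀ r, ∀ v ∈ N, ρ r v ∈ N := by
        intro r v hv
        induction hv using Submodule.span_induction with
        | mem u hu =>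
          obtain ⟨i, rfl⟩ := hu
          obtain ⟨j, hj | hj⟩ := hact' r i
          · rw [hj]; exact Submodule.subset_span ⟨j, rfl⟩
          · rw [hj]; exact N.neg_mem (Submodule.subset_span ⟨j, rfl⟩)
        | zero => simp
        | add u₁ u₂ _ _ h₁ h₂ => rw [map_add]; exact N.add_mem h₁ h₂
        | smul t u _ h₁ => rw [map_smul]; exact N.smul_mem _ h₁
      have i2 : ∀ v ∈ N, B v ∈ N := by
        intro v hv
        induction hv using Submodule.span_induction with
        | mem u hu =>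
          obtain ⟨i, rfl⟩ := hu
          rw [hBf]; exact Submodule.subset_span ⟨_, rfl⟩
        | zero => simp
        | add u₁ u₂ _ _ h₁ h₂ => rw [map_add]; exact N.add_mem h₁ h₂
        | smul t u _ h₁ => rw [map_smul]; exact N.smul_mem _ h₁
      rcases hc.irr N i1 i2 with h | h
      · exfalso
        have h3 : f 0 ∈ N := Submodule.subset_span ⟨0, rfl⟩
        rw [h] at h3
        exact hne 0 (by simpa using h3)
      · exact h.ge
  obtain ⟨π, s, hρ, hs⟩ := hm.exists_mono
  have hπφ := pi_phi hc hm hρ hs c3 hBf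
  have hπ1 : ∀ r, π r = 1 := by
    intro r
    rcases perm3_dec (π r) with h | ⟨h3, h4⟩
    · exact h
    · exfalso
      apply h4
      rw [← hπφ, ← map_mul] at h3 ⊢
      exact pi_pow3 h2 _ h3
  have hD : ∀ r, IsDiag ρ f r (s r) := fun r => diag_of_ker hρ (hπ1 r)
  have hprod : ∀ r, s r 0 * s r 1 * s r 2 = 1 := by
    intro r
    have := sign_prod hc hm hρ r
    rw [hπ1, Fin.prod_univ_three] at this
    simpa using this
  have diag_eq : ∀ (r d : R) (a b c : ZMod 3), IsDiag ρ f d ![a, b, c] → s r 0 = a → s r 1 = b → s r 2 = c → r = d := by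
    intro r d a b c hd' h0 h1 h2'
    apply diag_ext hc hm (hD r)
    have : s r = ![a, b, c] := by
      funext i
      rcases fin3_cases i with rfl | rfl | rfl
      · exact h0
      · exact h1
      · exact h2'
    rw [this]
    exact hd'
  have hall : ∀ r, r ∈ fourGroup ht := by
    intro r
    have key := sign3_dec _ _ _ (hs r 0) (hs r 1) (hs r 2) (hprod r)
    rcases key with ⟨h0, h1, h2'⟩ | ⟨h0, h1, h2'⟩ | ⟨h0, h1, h2'⟩ | ⟨h0, h1, h2'⟩
    · left
      refine diag_eq r 1 1 1 1 ?_ h0 h1 h2'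
      intro i
      rw [rho_one]
      rcases fin3_cases i with rfl | rfl | rfl <;> simp
    · right; left
      refine diag_eq r x 1 (-1) (-1) ?_ h0 h1 h2'
      intro i
      rcases fin3_cases i with rfl | rfl | rfl
      · rw [f0]; simpa using hf.h1
      · rw [f1]; simpa using w21
      · rw [f2]; simpa using w31
    · right; right; left
      refine diag_eq r (φ x) (-1) 1 (-1) ?_ h0 h1 h2'
      intro i
      rcases fin3_cases i with rfl | rfl | rfl
      · rw [f0]; simpa using hf.h2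
      · rw [f1]; simpa using w22
      · rw [f2]; simpa using w32
    · right; right; right
      refine diag_eq r (φ (φ x)) (-1) (-1) 1 ?_ h0 h1 h2'
      intro i
      rcases fin3_cases i with rfl | rfl | rfl
      · rw [f0, hd, hf.h2, map_neg, hf.h1]; simp
      · rw [f1, hd, w22, w21]; simp
      · rw [f2, hd, w32, map_neg, w31]; simp
  have hel := fourGroup_elementary ht
  have hcomm : ∀ a b : R, a * b = b * a := by
    intro a b
    have := hel.1.is_comm.comm ⟨a, hall a⟩ ⟨b, hall b⟩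
    exact congrArg Subtype.val this
  have hsq : ∀ a : R, a * a = 1 := by
    intro a
    have := hel.2 a (hall a)
    rwa [pow_two] at this
  refine ⟨hcomm, hsq, ?_⟩
  obtain ⟨k, hk⟩ := IsPGroup.iff_card.mp h2
  have hle : Nat.card R ≤ 4 := by
    let g : Fin 4 → R := ![1, x, φ x, φ (φ x)]
    have hg : Function.Surjective g := by
      intro r
      rcases hall r with h | h | h | h
      · exact ⟨0, h.symm⟩
      · exact ⟨1, h.symm⟩
      · exact ⟨2, h.symm⟩
      · exact ⟨3, h.symm⟩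
    have := Nat.card_le_card_of_surjective g hg
    simpa using this
  have hge : 3 ≤ Nat.card R := by
    have h3 := three_le_card_fourGroup ht
    have h4 : Nat.card (fourGroup ht) ≤ Nat.card R := Subgroup.card_le_card_group _
    omega
  rw [hk] at hle hge ⊢
  have hk2 : k = 2 := by
    have h5 : k < 3 := by
      by_contra h6
      push Not at h6
      have := Nat.pow_le_pow_right (by norm_num : 0 < 2) h6
      omega
    interval_cases k <;> omega
  rw [hk2]; norm_num

end Cfsg.Agent.Lib.Cubic3.CaseThree
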