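/-
The four-dimensional case: `R` is extraspecial of order `32`.
-/
import Cfsg.Agent.Lib.Cubic3.CaseThree

set_option autoImplicit false

open scoped commutatorElement

namespace Cfsg.Agent.Lib.Cubic3.CaseFour

open Cfsg.Agent.Lib.Cubic3.Basic Cfsg.Agent.Lib.Cubic3.Odd Cfsg.Agent.Lib.Cubic3.Dim
  Cfsg.Agent.Lib.Cubic3.Lines Cfsg.Agent.Lib.Cubic3.Two Cfsg.Agent.Lib.Cubic3.Mono
  Cfsg.Agent.Lib.Cubic3.Diag Equiv

variable {R W : Type*} [Group R] [AddCommGroup W] [Module (ZMod 3) W]
variable {ρ : R →* Module.End (ZMod 3) W} {B : Module.End (ZMod 3) W} {φ : R ≃* R} {x : R} {e : W}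

/-- The three-cycle on `{1,2,3}`. -/
abbrev c4 : Perm (Fin 4) := swap 1 2 * swap 2 3
/-- The fixed-point-free involutions. -/
abbrev v1 : Perm (Fin 4) := swap 0 1 * swap 2 3
abbrev v2 : Perm (Fin 4) := swap 0 2 * swap 1 3
abbrev v3 : Perm (Fin 4) := swap 0 3 * swap 1 2

/-- The Klein four-group of `S₄`. -/
def IsV4 (g : Perm (Fin 4)) : Prop := g = 1 ∨ g = v1 ∨ g = v2 ∨ g = v3

set_option maxRecDepth 100000 in
theorem perm4_dec : ∀ g : Perm (Fin 4), (g = 1 ∨ g = v1 ∨ g = v2 ∨ g = v3) ∨
    ((g * (c4 * g * c4⁻¹)) ^ 3 = 1 ∧ g * (c4 * g * c4⁻¹) ≠ 1) := by decide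

theorem v4_eq_of_zero {g h : Perm (Fin 4)} (hg : IsV4 g) (hh : IsV4 h) (e : g 0 = h 0) : g = h := by
  rcases hg with rfl | rfl | rfl | rfl <;> rcases hh with rfl | rfl | rfl | rfl <;>
    first
      | rfl
      | exact absurd e (by decide)

theorem v4_sign {g : Perm (Fin 4)} (hg : IsV4 g) : Perm.sign g = 1 := by
  rcases hg with rfl | rfl | rfl | rfl <;> decide

theorem v4_invol {g : Perm (Fin 4)} (hg : IsV4 g) (i : Fin 4) : g (g i) = i := by
  revert i
  rcases hg with rfl | rfl | rfl | rfl <;> decide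

theorem v4_inv {g : Perm (Fin 4)} (hg : IsV4 g) (i : Fin 4) : g⁻¹ i = g i := by
  rw [Perm.inv_eq_iff_eq, v4_invol hg]

theorem fin4_cases : ∀ i : Fin 4, i = 0 ∨ i = 1 ∨ i = 2 ∨ i = 3 := by decide

theorem v4_exists (j : Fin 4) : ∃ g : Perm (Fin 4), IsV4 g ∧ g 0 = j := by
  rcases fin4_cases j with rfl | rfl | rfl | rfl
  · exact ⟨1, Or.inl rfl, rfl⟩
  · exact ⟨v1, Or.inr (Or.inl rfl), by decide⟩
  · exact ⟨v2, Or.inr (Or.inr (Or.inl rfl)), by decide⟩
  · exact ⟨v3, Or.inr (Or.inr (Or.inr rfl)), by decide⟩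

theorem sign4_dec : ∀ a b c d : ZMod 3, (a = 1 ∨ a = -1) → (b = 1 ∨ b = -1) → (c = 1 ∨ c = -1) →
    (d = 1 ∨ d = -1) → a * b * c * d = 1 →
      (a = b * c * d) ∧ (a * b = c * d) ∧ (a * c = b * d) ∧ (a * d = b * c) := by decide

/-- The constant pattern of squares. -/
theorem square_pattern {g : Perm (Fin 4)} (hg : IsV4 g) (a : Fin 4 → ZMod 3)
    (ha : ∀ i, a i = 1 ∨ a i = -1) (hp : a 0 * a 1 * a 2 * a 3 = 1) (i : Fin 4) :
    a i * a (g i) = a 0 * a (g 0) := by
  obtain ⟨h1, h2, h3, h4⟩ := sign4_dec _ _ _ _ (ha 0) (ha 1) (ha 2) (ha 3) hp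
  have hsq : ∀ i, a i * a i = 1 := by
    intro i
    rcases ha i with h | h <;> rw [h] <;> decide
  rcases hg with rfl | rfl | rfl | rfl <;> rcases fin4_cases i with rfl | rfl | rfl | rfl
  · rfl
  · change a 1 * a 1 = a 0 * a 0; rw [hsq, hsq]
  · change a 2 * a 2 = a 0 * a 0; rw [hsq, hsq]
  · change a 3 * a 3 = a 0 * a 0; rw [hsq, hsq]
  · rfl
  · rw [show v1 1 = 0 by decide, show v1 0 = 1 by decide, mul_comm]
  · rw [show v1 2 = 3 by decide, show v1 0 = 1 by decide]; exact h2.symm
  · rw [show v1 3 = 2 by decide, show v1 0 = 1 by decide, mul_comm]; exact h2.symm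
  · rfl
  · rw [show v2 1 = 3 by decide, show v2 0 = 2 by decide]; exact h3.symm
  · rw [show v2 2 = 0 by decide, show v2 0 = 2 by decide, mul_comm]
  · rw [show v2 3 = 1 by decide, show v2 0 = 2 by decide, mul_comm]; exact h3.symm
  · rfl
  · rw [show v3 1 = 2 by decide, show v3 0 = 3 by decide]; exact h4.symm
  · rw [show v3 2 = 1 by decide, show v3 0 = 3 by decide, mul_comm]; exact h4.symm
  · rw [show v3 3 = 0 by decide, show v3 0 = 3 by decide, mul_comm]

/-- Two-valued functions agreeing on the value `1` agree. -/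
theorem pm_eq_dec : ∀ a b : ZMod 3, (a = 1 ∨ a = -1) → (b = 1 ∨ b = -1) → (a = 1 ↔ b = 1) → a = b := by
  decide

/-- The patterns of two involutions separate the four points. -/
theorem pattern_sep : ∀ j i : Fin 4, (![1, 1, -1, -1] : Fin 4 → ZMod 3) j = (![1, 1, -1, -1] : Fin 4 → ZMod 3) i →
    (![1, -1, 1, -1] : Fin 4 → ZMod 3) j = (![1, -1, 1, -1] : Fin 4 → ZMod 3) i → j = i := by decide

/-- The four-dimensional case. -/
theorem case4 [Finite W] [Finite R] (hc : Ctx ρ B φ) (ht : Triple φ x) (hf : Frame ρ B φ x e)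
    (h2 : IsPGroup 2 R) (e₀ : W) (h0 : e₀ ≠ 0) (hx0 : ρ x e₀ = e₀) (hc0 : ρ (φ x) e₀ = e₀)
    (hB0 : B e₀ = e₀) (hr0 : ∃ r₀ i₀, e₀ = ρ r₀ (eI B e i₀))
    (hact : ∀ r i, (∃ j, ρ r (eI B e i) = eI B e j ∨ ρ r (eI B e i) = -eI B e j) ∨
      ρ r (eI B e i) = e₀ ∨ ρ r (eI B e i) = -e₀) :
    Cfsg.IsSpecial 2 R ∧ Nat.card (Subgroup.center R) = 2 ∧ Nat.card R = 32 ∧
      ∃ A : Subgroup R, Cfsg.IsElementaryAbelian 2 A ∧ Nat.card A = 8 := by
  classical
  obtain ⟨haa, hcc, hac, hd, hBa, hBc, hBd⟩ := hc.ops ht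
  obtain ⟨w21, w22⟩ := Frame.wt2 hc.toPreCtx ht hf
  obtain ⟨w31, w32⟩ := Frame.wt3 hc.toPreCtx ht hf
  have hWnt : Nontrivial W := ⟨⟨e, 0, hf.ne⟩⟩
  let f : Fin 4 → W := ![e₀, e, B e, B (B e)]
  have f0 : f 0 = e₀ := rfl
  have f1 : f 1 = e := rfl
  have f2 : f 2 = B e := rfl
  have f3 : f 3 = B (B e) := rfl
  have hev : ∀ j : ZMod 3, ∃ k, eI B e j = f k := by
    intro j
    rcases zmod3_cases' j with rfl | rfl | rfl
    · exact ⟨1, eI_zero⟩
    · exact ⟨2, eI_one⟩
    · exact ⟨3, eI_two⟩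
  have hne : ∀ i, f i ≠ 0 := by
    intro i
    rcases fin4_cases i with rfl | rfl | rfl | rfl
    · exact h0
    · exact hf.ne
    · exact hc.B_ne_zero hf.ne
    · exact hc.B_ne_zero (hc.B_ne_zero hf.ne)
  have hBf : ∀ i, B (f i) = f (c4 i) := by
    intro i
    rcases fin4_cases i with rfl | rfl | rfl | rfl
    · rw [show c4 0 = 0 by decide]; exact hB0
    · rw [show c4 1 = 2 by decide]; rfl
    · rw [show c4 2 = 3 by decide]; rfl
    · rw [show c4 3 = 1 by decide, f3, f1]; exact hc.B3_apply e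
  have hT : ∀ r (j : ZMod 3), ∃ k, ρ r (eI B e j) = f k ∨ ρ r (eI B e j) = - f k := by
    intro r j
    rcases hact r j with ⟨j', hj'⟩ | h | h
    · obtain ⟨k, hk⟩ := hev j'
      exact ⟨k, by rwa [hk] at hj'⟩
    · exact ⟨0, Or.inl h⟩
    · exact ⟨0, Or.inr h⟩
  have hact' : ∀ r i, ∃ j, ρ r (f i) = f j ∨ ρ r (f i) = - f j := by
    intro r i
    rcases fin4_cases i with rfl | rfl | rfl | rfl
    · obtain ⟨r₀, i₀, he⟩ := hr0
      rw [f0, he, ← rho_mul]
      exact hT _ _
    · have := hT r 0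
      rwa [eI_zero] at this
    · have := hT r 1
      rwa [eI_one] at this
    · have := hT r 2
      rwa [eI_two] at this
  have hm : MonoBasis ρ f := by
    refine ⟨?_, ?_, hact'⟩
    · rw [Fintype.linearIndependent_iff]
      intro g hg
      rw [Fin.sum_univ_four, f0, f1, f2, f3] at hg
      have k := comp_unique (ρ x) (ρ (φ x)) (v₀ := g 0 • e₀) (v₁ := g 1 • e) (v₂ := g 2 • B e)
        (v₃ := g 3 • B (B e))
        (by simp [hx0, hc0]) (by simp [hf.h1, hf.h2, smul_neg]) (by simp [w21, w22, smul_neg])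
        (by simp [w31, w32, smul_neg])
        hg
      intro i
      rcases fin4_cases i with rfl | rfl | rfl | rfl
      · exact (smul_eq_zero.mp k.1).resolve_right h0
      · exact (smul_eq_zero.mp k.2.1).resolve_right hf.ne
      · exact (smul_eq_zero.mp k.2.2.1).resolve_right (hc.B_ne_zero hf.ne)
      · exact (smul_eq_zero.mp k.2.2.2).resolve_right (hc.B_ne_zero (hc.B_ne_zero hf.ne))
    · let N := Submodule.span (ZMod 3) (Set.range f)
      have i1 : ∀ r, ∀ v ∈ N, ρ r v ∈ N := by
        intro r v hv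
        induction hv using Submodule.span_induction with
        | mem u hu =>
          obtain ⟨i, rfl⟩ := hu
          obtain ⟨j, hj | hj⟩ := hact' r i
          · rw [hj]; exact Submodule.subset_span ⟨j, rfl⟩
          · rw [hj]; exact N.neg_mem (Submodule.subset_span ⟨j, rfl⟩)
        | zero => simp
        | add u₁ u₂ _ _ h₁ h₂ => rw [map_add]; exact N.add_mem h₁ h₂
        | smul t u _ h₁ => rw [map_smul]; exact N.smul_mem _ h₁
      have i2 : ∀ v ∈ N, B v ∈ N := by
        intro v hv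
        induction hv using Submodule.span_induction with
        | mem u hu =>
          obtain ⟨i, rfl⟩ := hu
          rw [hBf]; exact Submodule.subset_span ⟨_, rfl⟩
        | zero => simp
        | add u₁ u₂ _ _ h₁ h₂ => rw [map_add]; exact N.add_mem h₁ h₂
        | smul t u _ h₁ => rw [map_smul]; exact N.smul_mem _ h₁
      rcases hc.irr N i1 i2 with h | h
      · exfalso
        have h3 : f 0 ∈ N := Submodule.subset_span ⟨0, rfl⟩
        rw [h] at h3
        exact hne 0 (by simpa using h3)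
      · exact h.ge
  obtain ⟨π, s, hρ, hs⟩ := hm.exists_mono
  have hπφ := pi_phi hc hm hρ hs c4 hBf
  have hV : ∀ r, IsV4 (π r) := by
    intro r
    rcases perm4_dec (π r) with h | ⟨h3, h4⟩
    · exact h
    · exfalso
      apply h4
      rw [← hπφ, ← map_mul] at h3 ⊢
      exact pi_pow3 h2 _ h3
  have hprod : ∀ r, s r 0 * s r 1 * s r 2 * s r 3 = 1 := by
    intro r
    have := sign_prod hc hm hρ r
    rw [v4_sign (hV r), Fin.prod_univ_four] at this
    simpa using this
  -- transitivity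
  have htrans : ∀ j, ∃ r, π r 0 = j := by
    intro j
    by_contra hno
    push Not at hno
    let N := Submodule.span (ZMod 3) (Set.range fun r => ρ r (f 0))
    have i1 : ∀ r, ∀ v ∈ N, ρ r v ∈ N := by
      intro r v hv
      induction hv using Submodule.span_induction with
      | mem u hu =>
        obtain ⟨r', rfl⟩ := hu
        exact Submodule.subset_span ⟨r * r', by simp only [rho_mul]⟩
      | zero => simp
      | add u₁ u₂ _ _ h₁ h₂ => rw [map_add]; exact N.add_mem h₁ h₂
      | smul t u _ h₁ => rw [map_smul]; exact N.smul_mem _ h₁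
    have i2 : ∀ v ∈ N, B v ∈ N := by
      intro v hv
      induction hv using Submodule.span_induction with
      | mem u hu =>
        obtain ⟨r', rfl⟩ := hu
        refine Submodule.subset_span ⟨φ r', ?_⟩
        simp only
        rw [hc.conj_apply, hBf, show c4 0 = 0 by decide]
      | zero => simp
      | add u₁ u₂ _ _ h₁ h₂ => rw [map_add]; exact N.add_mem h₁ h₂
      | smul t u _ h₁ => rw [map_smul]; exact N.smul_mem _ h₁
    have hN : N = ⊤ := by
      rcases hc.irr N i1 i2 with h | h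
      · exfalso
        have h3 : ρ 1 (f 0) ∈ N := Submodule.subset_span ⟨1, rfl⟩
        rw [h, rho_one] at h3
        exact hne 0 (by simpa using h3)
      · exact h
    have hle : N ≤ Submodule.span (ZMod 3) (f '' {i | i ≠ j}) := by
      apply Submodule.span_le.mpr
      rintro _ ⟨r, rfl⟩
      simp only
      rw [hρ]
      exact Submodule.smul_mem _ _ (Submodule.subset_span ⟨_, hno r, rfl⟩)
    have h3 : f j ∈ Submodule.span (ZMod 3) (f '' {i | i ≠ j}) := by
      apply hle
      rw [hN]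
      trivial
    exact hm.li.notMem_span_image (s := {i | i ≠ j}) (x := j) (by simp) h3
  have hsurj : ∀ g, IsV4 g → ∃ r, π r = g := by
    intro g hg
    obtain ⟨r, hr⟩ := htrans (g 0)
    exact ⟨r, v4_eq_of_zero (hV r) hg hr⟩
  -- patterns
  let p₁ : Fin 4 → ZMod 3 := ![1, 1, -1, -1]
  let p₂ : Fin 4 → ZMod 3 := ![1, -1, 1, -1]
  have Dx : IsDiag ρ f x p₁ := by
    intro i
    rcases fin4_cases i with rfl | rfl | rfl | rfl
    · change ρ x e₀ = (1 : ZMod 3) • e₀
      rw [hx0, one_smul]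
    · change ρ x e = (1 : ZMod 3) • e
      rw [hf.h1, one_smul]
    · change ρ x (B e) = (-1 : ZMod 3) • B e
      rw [w21, neg_smul, one_smul]
    · change ρ x (B (B e)) = (-1 : ZMod 3) • B (B e)
      rw [w31, neg_smul, one_smul]
  have Dφ : IsDiag ρ f (φ x) p₂ := by
    intro i
    rcases fin4_cases i with rfl | rfl | rfl | rfl
    · change ρ (φ x) e₀ = (1 : ZMod 3) • e₀
      rw [hc0, one_smul]
    · change ρ (φ x) e = (-1 : ZMod 3) • e
      rw [hf.h2, neg_smul, one_smul]
    · change ρ (φ x) (B e) = (1 : ZMod 3) • B e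
      rw [w22, one_smul]
    · change ρ (φ x) (B (B e)) = (-1 : ZMod 3) • B (B e)
      rw [w32, neg_smul, one_smul]
  have hπx : π x = 1 := ker_of_diag hm hρ hs Dx (by
    intro i
    rcases fin4_cases i with rfl | rfl | rfl | rfl
    · exact Or.inl rfl
    · exact Or.inl rfl
    · exact Or.inr rfl
    · exact Or.inr rfl)
  have hπφx : π (φ x) = 1 := ker_of_diag hm hρ hs Dφ (by
    intro i
    rcases fin4_cases i with rfl | rfl | rfl | rfl
    · exact Or.inl rfl
    · exact Or.inr rfl
    · exact Or.inl rfl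
    · exact Or.inr rfl)
  obtain ⟨r₂, hr₂⟩ := hsurj v2 (Or.inr (Or.inr (Or.inl rfl)))
  obtain ⟨z, hzdef⟩ : ∃ z, z = x * (r₂ * x * r₂⁻¹) := ⟨_, rfl⟩
  have Dz : IsDiag ρ f z (fun _ => -1) := by
    have h1 := diag_mul Dx (diag_conj hρ hs Dx r₂)
    rw [← hzdef, hr₂] at h1
    have h3 : (fun i => p₁ i * p₁ (v2⁻¹ i)) = fun _ => (-1 : ZMod 3) := by
      funext i
      revert i
      decide
    rwa [h3] at h1
  have hzneg : ∀ v, ρ z v = -v := by
    have h1 : ρ z = -1 := by
      apply hm_ext hm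
      intro i
      rw [Dz i]
      simp
    intro v
    rw [h1]
    simp
  have hz : IsMinus ρ φ z := isMinus_of_neg hc hzneg
  have hzne : z ≠ 1 := hz.ne_one
  -- the diagonal subgroup
  have hD : ∀ d ∈ π.ker, IsDiag ρ f d (s d) := fun d hd' => diag_of_ker hρ (MonoidHom.mem_ker.mp hd')
  have hDcomm : ∀ a ∈ π.ker, ∀ b ∈ π.ker, a * b = b * a := by
    intro a ha b hb
    have h1 := diag_mul (hD a ha) (hD b hb)
    have h3 := diag_mul (hD b hb) (hD a ha)
    refine diag_ext hc hm h1 ?_
    have : (fun i => s a i * s b i) = fun i => s b i * s a i := by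
      funext i; exact mul_comm _ _
    rw [this]
    exact h3
  have hssq : ∀ r i, s r i * s r i = 1 := by
    intro r i
    rcases hs r i with h | h <;> rw [h] <;> decide
  have hDsq : ∀ a ∈ π.ker, a * a = 1 := by
    intro a ha
    have h1 := diag_mul (hD a ha) (hD a ha)
    simp only [hssq] at h1
    exact diag_ext hc hm h1 diag_one
  have hDel : Cfsg.IsElementaryAbelian 2 π.ker := by
    refine ⟨⟨⟨?_⟩⟩, ?_⟩
    · rintro ⟨a, ha⟩ ⟨b, hb⟩
      apply Subtype.ext
      exact hDcomm a ha b hb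
    · intro a ha
      rw [pow_two]
      exact hDsq a ha
  have hDle : Nat.card π.ker ≤ 8 := by
    let Φ : π.ker → Bool × Bool × Bool := fun d =>
      (decide (s d 1 = 1), decide (s d 2 = 1), decide (s d 3 = 1))
    have hΦ : Function.Injective Φ := by
      rintro ⟨d, hd1⟩ ⟨d', hd2⟩ h
      simp only [Φ, Prod.mk.injEq, decide_eq_decide] at h
      obtain ⟨h1, h3, h4⟩ := h
      have e1 := pm_eq_dec _ _ (hs d 1) (hs d' 1) h1
      have e2 := pm_eq_dec _ _ (hs d 2) (hs d' 2) h3
      have e3 := pm_eq_dec _ _ (hs d 3) (hs d' 3) h4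
      have e0 : s d 0 = s d' 0 := by
        rw [(sign4_dec _ _ _ _ (hs d 0) (hs d 1) (hs d 2) (hs d 3) (hprod d)).1,
          (sign4_dec _ _ _ _ (hs d' 0) (hs d' 1) (hs d' 2) (hs d' 3) (hprod d')).1, e1, e2, e3]
      apply Subtype.ext
      refine diag_ext hc hm (hD d hd1) ?_
      have : s d = s d' := by
        funext i
        rcases fin4_cases i with rfl | rfl | rfl | rfl
        · exact e0
        · exact e1
        · exact e2
        · exact e3
      rw [this]
      exact hD d' hd2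
    have h1 := Nat.card_le_card_of_injective Φ hΦ
    have h3 : Nat.card (Bool × Bool × Bool) = 8 := by
      rw [Nat.card_eq_fintype_card]; rfl
    omega
  have hzD : z ∈ π.ker := MonoidHom.mem_ker.mpr (ker_of_diag hm hρ hs Dz (fun _ => Or.inr rfl))
  have hDge : 8 ≤ Nat.card π.ker := by
    have hQD : fourGroup ht ≤ π.ker := by
      rintro g (rfl | rfl | rfl | rfl)
      · exact one_mem _
      · exact hπx
      · exact hπφx
      · rw [ht.third]
        exact mul_mem hπφx hπx
    have hzQ : z ∉ fourGroup ht := by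
      have hz0 : ρ z e₀ = -e₀ := hzneg e₀
      have key : ∀ t, ρ t e₀ = e₀ → z ≠ t := by
        rintro t ht' rfl
        rw [ht'] at hz0
        exact h0 ((eq_neg_self_iff e₀).mp hz0)
      rintro (h | h | h | h)
      · exact hzne h
      · exact key x hx0 h
      · exact key _ hc0 h
      · exact key _ (by rw [hd, hc0, hx0]) h
    have hlt : fourGroup ht < π.ker := lt_of_le_of_ne hQD (fun h => hzQ (by rw [h]; exact hzD))
    have h3 := Cfsg.Agent.Lib.PGroups.Basic.card_lt_of_lt hlt
    have h4 := three_le_card_fourGroup ht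
    have h5 := Subgroup.card_dvd_of_le hQD
    obtain ⟨b, hb⟩ := IsPGroup.iff_card.mp (h2.to_subgroup π.ker)
    rw [hb] at h3 h5 hDle ⊢
    have hb3 : b ≤ 3 := by
      by_contra h6
      push Not at h6
      have := Nat.pow_le_pow_right (by norm_num : 0 < 2) h6
      omega
    interval_cases b
    · omega
    · omega
    · exfalso
      have h6 : Nat.card (fourGroup ht) = 3 := by omega
      rw [h6] at h5
      omega
    · norm_num
  have hDcard : Nat.card π.ker = 8 := le_antisymm hDle hDge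
  have hrange : Nat.card π.range = 4 := by
    let Ψ : π.range → Fin 4 := fun g => (g : Perm (Fin 4)) 0
    have hΨ : Function.Bijective Ψ := by
      constructor
      · rintro ⟨_, r, rfl⟩ ⟨_, r', rfl⟩ h
        apply Subtype.ext
        exact v4_eq_of_zero (hV r) (hV r') h
      · intro j
        obtain ⟨r, hr⟩ := htrans j
        exact ⟨⟨π r, r, rfl⟩, hr⟩
    rw [Nat.card_congr (Equiv.ofBijective Ψ hΨ)]
    simp
  have hcard : Nat.card R = 32 := by
    have h1 := Subgroup.card_mul_index π.ker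
    rw [Subgroup.index_ker, hDcard, hrange] at h1
    omega
  -- squares
  have hsq' : ∀ r, r * r = 1 ∨ r * r = z := by
    intro r
    have hdiag : IsDiag ρ f (r * r) (fun _ => s r 0 * s r (π r 0)) := by
      intro i
      rw [rho_mul, hρ, map_smul, hρ, v4_invol (hV r), smul_smul]
      rw [square_pattern (hV r) (s r) (hs r) (hprod r) i]
    have h1 : s r 0 * s r (π r 0) = 1 ∨ s r 0 * s r (π r 0) = -1 := by
      rcases hs r 0 with h3 | h3 <;> rcases hs r (π r 0) with h4 | h4 <;> rw [h3, h4] <;> decide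
    rcases h1 with h1 | h1
    · left
      rw [h1] at hdiag
      exact diag_ext hc hm hdiag diag_one
    · right
      rw [h1] at hdiag
      exact diag_ext hc hm hdiag Dz
  -- the centre
  have hcen : ∀ c ∈ Subgroup.center R, c = 1 ∨ c = z := by
    intro c hcz
    have hcomm' : ∀ g, c * g * c⁻¹ = g := by
      intro g
      have := (Subgroup.mem_center_iff.mp hcz) g
      rw [← this]
      group
    have hπc : π c = 1 := by
      have h1 := diag_conj hρ hs Dx c
      rw [hcomm'] at h1
      have h3 := diag_conj hρ hs Dφ c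
      rw [hcomm'] at h3
      have e1 := diag_unique hm h1 Dx
      have e2 := diag_unique hm h3 Dφ
      have h4 : (π c)⁻¹ = 1 := by
        apply Equiv.ext
        intro i
        show (π c)⁻¹ i = i
        exact pattern_sep _ _ (congrFun e1 i) (congrFun e2 i)
      rwa [inv_eq_one] at h4
    have hDc := diag_of_ker hρ hπc
    have hconst : ∀ j, s c j = s c 0 := by
      intro j
      obtain ⟨r, hr⟩ := htrans j
      have h1 := diag_conj hρ hs hDc r
      have hcr : r * c * r⁻¹ = c := by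
        have := (Subgroup.mem_center_iff.mp hcz) r
        rw [this]
        group
      rw [hcr] at h1
      have e1 := diag_unique hm h1 hDc
      have e2 := congrFun e1 j
      have e3 : (π r)⁻¹ j = 0 := by
        rw [Perm.inv_eq_iff_eq, hr]
      simp only [e3] at e2
      exact e2.symm
    have hc1 : IsDiag ρ f c (fun _ => s c 0) := by
      intro i
      rw [hDc i, hconst i]
    rcases hs c 0 with h1 | h1
    · left
      rw [h1] at hc1
      exact diag_ext hc hm hc1 diag_one
    · right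
      rw [h1] at hc1
      exact diag_ext hc hm hc1 Dz
  have hzc : z ∈ Subgroup.center R := Subgroup.mem_center_iff.mpr hz.cen
  have hsqc : ∀ r, r * r ∈ Subgroup.center R := by
    intro r
    rcases hsq' r with h | h <;> rw [h]
    · exact one_mem _
    · exact hzc
  have hcle : commutator R ≤ Subgroup.center R := by
    rw [commutator_def, Subgroup.commutator_le]
    intro a _ b _
    rw [commutatorElement_def]
    have e' : a * b * a⁻¹ * b⁻¹ = (a * b) * (a * b) * ((b⁻¹ * a⁻¹ * b) * (b⁻¹ * a⁻¹ * b)) * (b⁻¹ * b⁻¹) := by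
      group
    rw [e']
    exact mul_mem (mul_mem (hsqc _) (hsqc _)) (hsqc _)
  have hzcomm : z ∈ commutator R := by
    rw [commutator_def]
    have e' : z = ⁅x, r₂⁆ := by
      rw [commutatorElement_def, hzdef, ht.inv]
      group
    rw [e']
    exact Subgroup.commutator_mem_commutator (Subgroup.mem_top _) (Subgroup.mem_top _)
  have hcge : Subgroup.center R ≤ commutator R := by
    intro c hcz
    rcases hcen c hcz with rfl | rfl
    · exact one_mem _
    · exact hzcomm
  have hfle : frattini R ≤ Subgroup.center R :=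
    Cfsg.Agent.Lib.PGroups.Basic.frattini_le_of_normal (p := 2) _ hcle (fun r => by
      rw [pow_two]; exact hsqc r)
  have hfge : Subgroup.center R ≤ frattini R :=
    hcge.trans (Cfsg.Agent.Lib.PGroups.Basic.commutator_le_frattini h2)
  refine ⟨⟨h2, le_antisymm hfle hfge, le_antisymm hcle hcge⟩, ?_, hcard, π.ker, hDel, hDcard⟩
  rw [Nat.card_eq_two_iff' (1 : Subgroup.center R)]
  refine ⟨⟨z, hzc⟩, ?_, ?_⟩
  · intro h
    exact hzne (congrArg Subtype.val h)
  · rintro ⟨c, hcz⟩ hc1
    apply Subtype.ext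
    rcases hcen c hcz with h | h
    · exact absurd (Subtype.ext h) hc1
    · exact h

end Cfsg.Agent.Lib.Cubic3.CaseFour
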