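/-
The main theorem on groups normalized by a cubic operator with a cycled four-group.
-/
import Cfsg.Agent.Lib.Cubic3.CaseFour

set_option autoImplicit false

namespace Cfsg.Agent.Lib.Cubic3.Core

open Cfsg.Agent.Lib.Cubic3.Basic Cfsg.Agent.Lib.Cubic3.Odd Cfsg.Agent.Lib.Cubic3.Dim
  Cfsg.Agent.Lib.Cubic3.Lines Cfsg.Agent.Lib.Cubic3.Two

variable {R W : Type*} [Group R] [AddCommGroup W] [Module (ZMod 3) W]
variable {ρ : R →* Module.End (ZMod 3) W} {B : Module.End (ZMod 3) W} {φ : R ≃* R} {x : R}

/-- The structure of `R`. -/
theorem core [Finite W] [Finite R] [Group.IsSolvable R] (hc : Ctx ρ B φ) (ht : Triple φ x) :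
    ((∀ a b : R, a * b = b * a) ∧ (∀ a : R, a * a = 1) ∧ Nat.card R = 4) ∨
    (Cfsg.IsSpecial 2 R ∧ Nat.card (Subgroup.center R) = 2 ∧ Nat.card R = 32 ∧
      ∃ A : Subgroup R, Cfsg.IsElementaryAbelian 2 A ∧ Nat.card A = 8) := by
  obtain ⟨e, hf⟩ := hc.toPreCtx.exists_frame ht
  have hdim := finrank_le hc ht
  have h2 := isPGroup_two hc ht hf hdim
  obtain ⟨A, hA, a, ha, hne⟩ := exists_good hc ht hf h2
  obtain ⟨ht', hxA⟩ := triple_of_good hc hA ha hne
  obtain ⟨e', hf'⟩ := hc.toPreCtx.exists_frame ht'
  rcases lines_dichotomy hc ht' hf' hA hxA with h | ⟨e₀, h0, hx0, hc0, hB0, hr0, h⟩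
  · left
    exact CaseThree.case3 hc ht' hf' h2 h
  · right
    exact CaseFour.case4 hc ht' hf' h2 e₀ h0 hx0 hc0 hB0 hr0 h

/-- Irreducibility from the absence of fixed vectors. -/
theorem irr_of_free [Finite W] (hc : PreCtx ρ B φ) (ht : Triple φ x)
    (hgen : ∀ H : Subgroup R, (∀ r, r⁻¹ * φ r ∈ H) → H = ⊤)
    (hfree : ∀ v, (∀ r, ρ r v = v) → v = 0)
    (hcomm : ∀ N : Submodule (ZMod 3) W, (∀ r v, ρ r v - v ∈ N) → N = ⊤) :
    ∀ N : Submodule (ZMod 3) W, (∀ r, ∀ v ∈ N, ρ r v ∈ N) → (∀ v ∈ N, B v ∈ N) → N = ⊥ ∨ N = ⊤ := by
  obtain ⟨e, hf⟩ := hc.exists_frame ht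
  intro N hR hB
  obtain ⟨haa, hcc, hac, hd, hBa, hBc, hBd⟩ := hc.ops ht
  by_cases hU : e ∈ N
  · right
    apply hcomm
    have hT : ∀ v, B v - v ∈ N := by
      intro v
      obtain ⟨v₀, α, β, γ, rfl, h3, h4⟩ := Frame.expand hc ht hf v
      have e1 : B e ∈ N := hB _ hU
      have e2 : B (B e) ∈ N := hB _ e1
      have e3 : B (B (B e)) ∈ N := hB _ e2
      have h5 : B v₀ = v₀ := hf.fix _ h3 h4
      simp only [map_add, map_smul, h5]
      have e' : v₀ + α • B e + β • B (B e) + γ • B (B (B e)) - (v₀ + α • e + β • B e + γ • B (B e)) =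
          α • B e + β • B (B e) + γ • B (B (B e)) - (α • e + β • B e + γ • B (B e)) := by abel
      rw [e']
      exact N.sub_mem (N.add_mem (N.add_mem (N.smul_mem _ e1) (N.smul_mem _ e2)) (N.smul_mem _ e3))
        (N.add_mem (N.add_mem (N.smul_mem _ hU) (N.smul_mem _ e1)) (N.smul_mem _ e2))
    let H : Subgroup R :=
      { carrier := {r | ∀ v, ρ r v - v ∈ N}
        one_mem' := fun v => by rw [rho_one, sub_self]; exact N.zero_mem
        mul_mem' := by
          intro r s hr hs v
          have : ρ (r * s) v - v = (ρ r (ρ s v) - ρ s v) + (ρ s v - v) := by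
            rw [rho_mul]; abel
          rw [this]
          exact N.add_mem (hr _) (hs _)
        inv_mem' := by
          intro r hr v
          have h1 := hr (ρ r⁻¹ v)
          rw [rho_rho_inv] at h1
          have := N.neg_mem h1
          rwa [neg_sub] at this }
    have hH : H = ⊤ := by
      apply hgen
      intro r v
      -- `φ r ≡ r` modulo `N`
      have h1 : ρ (φ r) v - ρ r v ∈ N := by
        have h2 := hc.conj_apply r (B (B v))
        rw [hc.B3_apply] at h2
        have h3 : ρ (φ r) v - ρ r v = (B (ρ r (B (B v))) - ρ r (B (B v))) + ρ r (B (B v) - v) := by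
          rw [h2, map_sub]; abel
        rw [h3]
        refine N.add_mem (hT _) (hR _ _ ?_)
        have h4 : B (B v) - v = (B (B v) - B v) + (B v - v) := by abel
        rw [h4]
        exact N.add_mem (hT _) (hT _)
      have h2 := hR r⁻¹ _ h1
      rw [map_sub, rho_inv_rho, ← rho_mul] at h2
      exact h2
    intro r v
    have : r ∈ H := by rw [hH]; trivial
    exact this v
  · left
    have hfix : ∀ v ∈ N, B v = v := by
      intro v hv
      set a := ρ x with ha
      set c := ρ (φ x) with hc'
      have i1 : a v ∈ N := hR _ _ hv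
      have i2 : c v ∈ N := hR _ _ hv
      have i3 : a (c v) ∈ N := hR _ _ i2
      have hB3 : ∀ w, w ∈ N → w = B e ∨ w = - B e → False := by
        intro w hw h3
        apply hU
        have h4 : B e ∈ N := by
          rcases h3 with rfl | rfl
          · exact hw
          · simpa using N.neg_mem hw
        have h5 := hB _ (hB _ h4)
        rwa [hc.B3_apply] at h5
      have hB4 : ∀ w, w ∈ N → w = B (B e) ∨ w = - B (B e) → False := by
        intro w hw h3
        apply hU
        have h4 : B (B e) ∈ N := by
          rcases h3 with rfl | rfl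
          · exact hw
          · simpa using N.neg_mem hw
        have h5 := hB _ h4
        rwa [hc.B3_apply] at h5
      -- the three nontrivial components vanish
      have c1 : v + a v - c v - a (c v) = 0 := by
        have hmem : v + a v - c v - a (c v) ∈ N :=
          N.sub_mem (N.sub_mem (N.add_mem hv i1) i2) i3
        have w1 : a (v + a v - c v - a (c v)) = v + a v - c v - a (c v) := by
          simp only [map_add, map_sub, haa]
          abel
        have w2 : c (v + a v - c v - a (c v)) = -(v + a v - c v - a (c v)) := by
          simp only [map_add, map_sub, hcc, ← hac]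
          abel
        rcases hf.line _ w1 w2 with h | h | h
        · exact h
        · exact absurd (h ▸ hmem) hU
        · exfalso
          apply hU
          have := N.neg_mem hmem
          rw [h, neg_neg] at this
          exact this
      have c2 : v - a v + c v - a (c v) = 0 := by
        have hmem : v - a v + c v - a (c v) ∈ N :=
          N.sub_mem (N.add_mem (N.sub_mem hv i1) i2) i3
        have w1 : a (v - a v + c v - a (c v)) = -(v - a v + c v - a (c v)) := by
          simp only [map_add, map_sub, haa]
          abel
        have w2 : c (v - a v + c v - a (c v)) = v - a v + c v - a (c v) := by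
          simp only [map_add, map_sub, hcc, ← hac]
          abel
        rcases Frame.line2 hc ht hf w1 w2 with h | h | h
        · exact h
        · exact (hB3 _ hmem (Or.inl h)).elim
        · exact (hB3 _ hmem (Or.inr h)).elim
      have c3 : v - a v - c v + a (c v) = 0 := by
        have hmem : v - a v - c v + a (c v) ∈ N :=
          N.add_mem (N.sub_mem (N.sub_mem hv i1) i2) i3
        have w1 : a (v - a v - c v + a (c v)) = -(v - a v - c v + a (c v)) := by
          simp only [map_add, map_sub, haa]
          abel
        have w2 : c (v - a v - c v + a (c v)) = -(v - a v - c v + a (c v)) := by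
          simp only [map_add, map_sub, hcc, ← hac]
          abel
        rcases Frame.line3 hc ht hf w1 w2 with h | h | h
        · exact h
        · exact (hB4 _ hmem (Or.inl h)).elim
        · exact (hB4 _ hmem (Or.inr h)).elim
      have e1 : a v = v := by
        have t := three_smul (a v)
        have t2 := three_smul v
        linear_combination (norm := module) c2 + c3 + t - t2
      have e2 : c v = v := by
        have t := three_smul (c v)
        have t2 := three_smul v
        linear_combination (norm := module) c1 + c3 + t - t2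
      exact hf.fix v e1 e2
    let H : Subgroup R :=
      { carrier := {r | ∀ v ∈ N, ρ r v = v}
        one_mem' := fun v _ => rho_one ρ v
        mul_mem' := by
          intro r s hr hs v hv
          rw [rho_mul, hs v hv, hr v hv]
        inv_mem' := by
          intro r hr v hv
          have h1 := hr v hv
          have h2 := rho_inv_rho ρ r v
          rwa [h1] at h2 }
    have hH : H = ⊤ := by
      apply hgen
      intro r v hv
      rw [rho_mul]
      have h1 := hc.conj_apply r v
      rw [hfix _ (hR r v hv), hfix v hv] at h1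
      rw [← h1, rho_inv_rho]
    rw [eq_bot_iff]
    intro v hv
    rw [Submodule.mem_bot]
    apply hfree
    intro r
    have : r ∈ H := by rw [hH]; trivial
    exact this v hv

end Cfsg.Agent.Lib.Cubic3.Core
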