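/-
Reduction of the statement on `𝔽₃`-modules to the main theorem on cubic operators.
-/
import Cfsg.Agent.Lib.Cubic3.Core
import Cfsg.Agent.Lib.Coprime.Action

set_option autoImplicit false

open scoped commutatorElement

namespace Cfsg.Agent.Lib.Cubic3.Reduce

open Cfsg.Agent.Lib.Cubic3.Basic Cfsg.Agent.Lib.Cubic3.Odd Cfsg.Agent.Lib.Cubic3.Core

variable {S E : Type*} [Group S] [AddCommGroup E] [Module (ZMod 3) E]

/-- Averaging over a subgroup of order prime to `3`. -/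
theorem exists_avg (ρ : S →* Module.End (ZMod 3) E) (H : Subgroup S) [Finite H]
    (h3 : ¬ 3 ∣ Nat.card H) :
    ∃ π : Module.End (ZMod 3) E,
      (∀ h ∈ H, ∀ v, π (ρ h v) = π v) ∧ (∀ h ∈ H, ∀ v, ρ h (π v) = π v) ∧
      (∀ v, (∀ h ∈ H, ρ h v = v) → π v = v) ∧
      (∀ (v : E) (N : Submodule (ZMod 3) E), (∀ h ∈ H, v - ρ h v ∈ N) → v - π v ∈ N) ∧
      (∀ g : S, (∀ h ∈ H, g * h * g⁻¹ ∈ H) → (∀ h ∈ H, g⁻¹ * h * g ∈ H) →
        ∀ v, ρ g (π v) = π (ρ g v)) := by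
  classical
  have := Fintype.ofFinite H
  have hn : ((Fintype.card H : ℕ) : ZMod 3) ≠ 0 := by
    intro h
    rw [ZMod.natCast_eq_zero_iff] at h
    rw [Nat.card_eq_fintype_card] at h3
    exact h3 h
  set n : ZMod 3 := ((Fintype.card H : ℕ) : ZMod 3) with hndef
  have hπ : ∀ v, (n⁻¹ • ∑ h : H, ρ h : Module.End (ZMod 3) E) v = n⁻¹ • ∑ h : H, ρ h v := by
    intro v
    simp [LinearMap.sum_apply]
  refine ⟨n⁻¹ • ∑ h : H, ρ h, ?_, ?_, ?_, ?_, ?_⟩
  · intro h hh v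
    rw [hπ, hπ]
    congr 1
    have : ∀ k : H, ρ k (ρ h v) = ρ (k * ⟨h, hh⟩ : H) v := by
      intro k
      simp [rho_mul]
    simp only [this]
    exact Fintype.sum_equiv (Equiv.mulRight (⟨h, hh⟩ : H)) _ _ (fun _ => rfl)
  · intro h hh v
    rw [hπ, map_smul, map_sum]
    congr 1
    have : ∀ k : H, ρ h (ρ k v) = ρ (⟨h, hh⟩ * k : H) v := by
      intro k
      simp [rho_mul]
    simp only [this]
    exact Fintype.sum_equiv (Equiv.mulLeft (⟨h, hh⟩ : H)) _ _ (fun _ => rfl)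
  · intro v hv
    rw [hπ]
    have : ∀ k : H, ρ k v = v := fun k => hv k k.2
    simp only [this, Finset.sum_const, Finset.card_univ]
    rw [← Nat.cast_smul_eq_nsmul (ZMod 3), smul_smul, inv_mul_cancel₀ hn, one_smul]
  · intro v N hN
    rw [hπ]
    have e1 : v = n⁻¹ • ∑ _k : H, v := by
      rw [Finset.sum_const, Finset.card_univ, ← Nat.cast_smul_eq_nsmul (ZMod 3), smul_smul,
        inv_mul_cancel₀ hn, one_smul]
    have e2 : v - n⁻¹ • ∑ h : H, ρ h v = n⁻¹ • ∑ h : H, (v - ρ h v) := by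
      rw [Finset.sum_sub_distrib, smul_sub, ← e1]
    rw [e2]
    exact N.smul_mem _ (N.sum_mem fun k _ => hN k k.2)
  · intro g hg hg' v
    rw [hπ, hπ, map_smul, map_sum]
    congr 1
    let σ : H ≃ H :=
      { toFun := fun k => ⟨g * k * g⁻¹, hg k k.2⟩
        invFun := fun k => ⟨g⁻¹ * k * g, hg' k k.2⟩
        left_inv := fun k => by
          apply Subtype.ext
          simp only
          group
        right_inv := fun k => by
          apply Subtype.ext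
          simp only
          group }
    refine Fintype.sum_equiv σ _ _ (fun k => ?_)
    change ρ g (ρ k v) = ρ (g * k * g⁻¹) (ρ g v)
    rw [← rho_mul, ← rho_mul]
    congr 2
    group

/-- Restriction of a representation to an invariant submodule. -/
def resHom (ρ : S →* Module.End (ZMod 3) E) (H : Subgroup S) (F : Submodule (ZMod 3) E)
    (hF : ∀ h ∈ H, ∀ v ∈ F, ρ h v ∈ F) : H →* Module.End (ZMod 3) F where
  toFun h := (ρ h).restrict (hF h h.2)
  map_one' := by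
    ext v
    simp [LinearMap.restrict_coe_apply]
  map_mul' a b := by
    ext v
    simp [LinearMap.restrict_coe_apply]

theorem resHom_apply (ρ : S →* Module.End (ZMod 3) E) (H : Subgroup S) (F : Submodule (ZMod 3) E)
    (hF : ∀ h ∈ H, ∀ v ∈ F, ρ h v ∈ F) (h : H) (v : F) :
    ((resHom ρ H F hF h v : F) : E) = ρ h v := rfl

/-- Conjugation by `b` on a subgroup normalized by `b`, when `b³ = 1`. -/
def conjEquiv (H : Subgroup S) (b : S) (hb : ∀ r ∈ H, b * r * b⁻¹ ∈ H) (hb' : ∀ r ∈ H, b⁻¹ * r * b ∈ H) :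
    H ≃* H where
  toFun r := ⟨b * r * b⁻¹, hb r r.2⟩
  invFun r := ⟨b⁻¹ * r * b, hb' r r.2⟩
  left_inv r := by
    apply Subtype.ext
    simp only
    group
  right_inv r := by
    apply Subtype.ext
    simp only
    group
  map_mul' x y := by
    apply Subtype.ext
    simp only [Subgroup.coe_mul]
    group

theorem conjEquiv_apply (H : Subgroup S) (b : S) (hb : ∀ r ∈ H, b * r * b⁻¹ ∈ H)
    (hb' : ∀ r ∈ H, b⁻¹ * r * b ∈ H) (r : H) : ((conjEquiv H b hb hb' r : H) : S) = b * r * b⁻¹ := rfl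

-- REDUCE2
section reduce

theorem isElementaryAbelian_map {X Y : Type*} [Group X] [Group Y] (f : X →* Y)
    (A : Subgroup X) (hA : Cfsg.IsElementaryAbelian 2 A) : Cfsg.IsElementaryAbelian 2 (A.map f) := by
  obtain ⟨hc, hp⟩ := hA
  refine ⟨⟨⟨?_⟩⟩, ?_⟩
  · rintro ⟨_, x, hx, rfl⟩ ⟨_, y, hy, rfl⟩
    apply Subtype.ext
    have := congrArg Subtype.val (hc.is_comm.comm (⟨x, hx⟩ : A) ⟨y, hy⟩)
    simp only [Subgroup.coe_mul] at this ⊢
    rw [← map_mul, ← map_mul, this]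
  · rintro _ ⟨x, hx, rfl⟩
    rw [← map_pow, hp x hx, map_one]

theorem gen_aux [Finite S] (R₀ : Subgroup S) (b : S) (hb : ∀ r ∈ R₀, b * r * b⁻¹ ∈ R₀)
    (hb' : ∀ r ∈ R₀, b⁻¹ * r * b ∈ R₀) (B : Subgroup S) (hzB : Subgroup.zpowers b = B)
    (hRB : ⁅R₀, B⁆ = R₀) (H : Subgroup R₀)
    (hH : ∀ r : R₀, r⁻¹ * conjEquiv R₀ b hb hb' r ∈ H) : H = ⊤ := by
  have step : ∀ k : ℕ, ∀ s : R₀, ∃ t : R₀, (t : S) = b ^ k * s * (b ^ k)⁻¹ ∧ s⁻¹ * t ∈ H := by
    intro k
    induction k with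
    | zero =>
      intro s
      exact ⟨s, by simp, by simp [H.one_mem]⟩
    | succ k ih =>
      intro s
      obtain ⟨t, ht, hm⟩ := ih s
      refine ⟨conjEquiv R₀ b hb hb' t, ?_, ?_⟩
      · rw [conjEquiv_apply, ht, pow_succ']
        group
      · have := H.mul_mem hm (hH t)
        convert this using 1
        group
  have hle : R₀ ≤ H.map R₀.subtype := by
    refine hRB.symm.le.trans ?_
    rw [Subgroup.commutator_le]
    intro s hs c hc
    rw [← hzB] at hc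
    have hfin : IsOfFinOrder b := isOfFinOrder_of_finite b
    obtain ⟨k, rfl⟩ := (hfin.mem_powers_iff_mem_zpowers).2 hc
    obtain ⟨t, ht, hm⟩ := step k ⟨s⁻¹, R₀.inv_mem hs⟩
    refine ⟨_, hm, ?_⟩
    simp only [Subgroup.subtype_apply, Subgroup.coe_mul, Subgroup.coe_inv, ht, inv_inv,
      commutatorElement_def]
    group
  rw [eq_top_iff]
  intro r _
  obtain ⟨r', hr', he⟩ := hle r.2
  have : r' = r := Subtype.ext he
  rwa [← this]

variable [Group.IsSolvable S] [Finite S] [Finite E]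

theorem reduce (ρ : S →* Module.End (ZMod 3) E) (hfaith : Function.Injective ρ)
    (B : Subgroup S) (b : S) (hb3 : b ^ 3 = 1) (hzB : Subgroup.zpowers b = B)
    (R₀ : Subgroup S) (hbR : ∀ r ∈ R₀, b * r * b⁻¹ ∈ R₀) (h3 : ¬ 3 ∣ Nat.card R₀)
    (hRB : ⁅R₀, B⁆ = R₀)
    (hrank : Module.finrank (ZMod 3) (LinearMap.range (ρ b - 1)) ≤ 2)
    (a : S) (haR : a ∈ R₀) (ha2 : a * a = 1) (ha1 : a ≠ 1)
    (hprod : a * (b * a * b⁻¹) * (b * (b * a * b⁻¹) * b⁻¹) = 1) :
    ((Cfsg.IsElementaryAbelian 2 R₀ ∧ Nat.card R₀ = 4) ∨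
      (Cfsg.IsExtraspecial 2 R₀ ∧ Nat.card R₀ = 32 ∧
        ∃ A : Subgroup S, A ≤ R₀ ∧ Cfsg.IsElementaryAbelian 2 A ∧ Nat.card A = 8)) ∧
    ∃ F₀ F₁ : Submodule (ZMod 3) E, F₀ ⊓ F₁ = ⊥ ∧ F₀ ⊔ F₁ = ⊤ ∧
      (∀ r ∈ R₀, ∀ v ∈ F₁, ρ r v = v) ∧ (∀ r ∈ R₀ ⊔ B, ∀ v ∈ F₀, ρ r v ∈ F₀) ∧
      (∀ r ∈ R₀ ⊔ B, (∀ v ∈ F₀, ρ r v = v) → r = 1) ∧
      (∀ N : Submodule (ZMod 3) E, N ≤ F₀ → (∀ r ∈ R₀ ⊔ B, ∀ v ∈ N, ρ r v ∈ N) → N = ⊥ ∨ N = F₀) := by
  classical
  have hbbb : b * b * b = 1 := by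
    have := hb3
    rwa [pow_succ, pow_two] at this
  have hbinv : b⁻¹ = b * b := by
    exact inv_eq_of_mul_eq_one_right (by rw [← mul_assoc]; exact hbbb)
  have hbinv2 : b⁻¹ * b⁻¹ = b := by
    rw [hbinv]
    calc b * b * (b * b) = (b * b * b) * b := by group
      _ = b := by rw [hbbb, one_mul]
  have hbR' : ∀ r ∈ R₀, b⁻¹ * r * b ∈ R₀ := by
    intro r hr
    have := hbR _ (hbR r hr)
    convert this using 1
    calc b⁻¹ * r * b = (b * b) * r * (b⁻¹ * b⁻¹) := by rw [hbinv2, ← hbinv]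
      _ = _ := by group
  have hnorm : B ≤ Subgroup.normalizer (R₀ : Set S) := by
    rw [← hzB, Subgroup.zpowers_le, Subgroup.mem_normalizer_iff]
    intro h
    constructor
    · exact hbR h
    · intro hh
      have := hbR' _ hh
      convert this using 1
      group
  haveI hfinR : Finite R₀ := inferInstance
  obtain ⟨π, p1, p2, p3, p4, p5⟩ := exists_avg ρ R₀ h3
  have hidem : ∀ v, π (π v) = π v := fun v => p3 _ (fun h hh => p2 h hh v)
  have hcomm : ∀ v, ρ b (π v) = π (ρ b v) := p5 b hbR hbR'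
  set F₀ : Submodule (ZMod 3) E := LinearMap.ker π with hF₀
  set F₁ : Submodule (ZMod 3) E := LinearMap.range π with hF₁
  have hF0R : ∀ h ∈ R₀, ∀ v ∈ F₀, ρ h v ∈ F₀ := by
    intro h hh v hv
    rw [hF₀, LinearMap.mem_ker] at hv ⊢
    rw [p1 h hh, hv]
  have hF0b : ∀ v ∈ F₀, ρ b v ∈ F₀ := by
    intro v hv
    rw [hF₀, LinearMap.mem_ker] at hv ⊢
    rw [← hcomm, hv, map_zero]
  have hdec : ∀ v, v - π v ∈ F₀ := by
    intro v
    rw [hF₀, LinearMap.mem_ker, map_sub, hidem, sub_self]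
  -- the action on `F₀`
  let ρ₀ : R₀ →* Module.End (ZMod 3) F₀ := resHom ρ R₀ F₀ hF0R
  let B₀ : Module.End (ZMod 3) F₀ := (ρ b).restrict hF0b
  let φ₀ : R₀ ≃* R₀ := conjEquiv R₀ b hbR hbR'
  have hρ₀ : ∀ (r : R₀) (v : F₀), ((ρ₀ r v : F₀) : E) = ρ r v := fun _ _ => rfl
  have hB₀ : ∀ v : F₀, ((B₀ v : F₀) : E) = ρ b v := fun _ => rfl
  have hφ₀ : ∀ r : R₀, ((φ₀ r : R₀) : S) = b * r * b⁻¹ := fun _ => rfl
  have hpre : PreCtx ρ₀ B₀ φ₀ := by
    refine ⟨?_, ?_, ?_, ?_, ?_⟩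
    · intro r r' h
      apply Subtype.ext
      apply hfaith
      apply LinearMap.ext
      intro v
      have e : v = (v - π v) + π v := by abel
      rw [e, map_add, map_add, p2 _ r.2, p2 _ r'.2]
      congr 1
      have := congrArg Subtype.val (LinearMap.congr_fun h ⟨v - π v, hdec v⟩)
      exact this
    · ext v
      simp only [pow_succ, pow_zero, one_mul, Module.End.mul_apply, Module.End.one_apply, hB₀]
      rw [← rho_mul, ← rho_mul, hbbb, rho_one]
    · intro r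
      ext v
      simp only [Module.End.mul_apply, hB₀, hρ₀, hφ₀]
      rw [← rho_mul, ← rho_mul]
      congr 2
      group
    · intro r
      apply Subtype.ext
      simp only [hφ₀]
      have e1 : b * (b * (b * (r : S) * b⁻¹) * b⁻¹) * b⁻¹ = (b * b * b) * r * (b * b * b)⁻¹ := by group
      rw [e1, hbbb]
      simp
    · have hle : (LinearMap.range (B₀ - 1)).map F₀.subtype ≤ LinearMap.range (ρ b - 1) := by
        rintro _ ⟨_, ⟨v, rfl⟩, rfl⟩
        refine ⟨v, ?_⟩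
        simp [hB₀]
      calc Module.finrank (ZMod 3) (LinearMap.range (B₀ - 1))
          = Module.finrank (ZMod 3) ((LinearMap.range (B₀ - 1)).map F₀.subtype) :=
            (Submodule.finrank_map_subtype_eq _ _).symm
        _ ≤ Module.finrank (ZMod 3) (LinearMap.range (ρ b - 1)) := Submodule.finrank_mono hle
        _ ≤ 2 := hrank
  have ht : Triple φ₀ (⟨a, haR⟩ : R₀) := by
    refine ⟨Subtype.ext ha2, ?_, Subtype.ext hprod⟩
    intro h
    exact ha1 (congrArg Subtype.val h)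
  have hgen : ∀ H : Subgroup R₀, (∀ r, r⁻¹ * φ₀ r ∈ H) → H = ⊤ :=
    fun H hH => gen_aux R₀ b hbR hbR' B hzB hRB H hH
  have hfree : ∀ v : F₀, (∀ r, ρ₀ r v = v) → v = 0 := by
    intro v hv
    apply Subtype.ext
    have h1 : π (v : E) = v := p3 _ (fun h hh => congrArg Subtype.val (hv ⟨h, hh⟩))
    have h2 : π (v : E) = 0 := v.2
    simpa using h1.symm.trans h2
  have hcomN : ∀ N : Submodule (ZMod 3) F₀, (∀ r v, ρ₀ r v - v ∈ N) → N = ⊤ := by
    intro N hN
    rw [eq_top_iff]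
    intro v _
    have h1 : (v : E) - π v ∈ N.map F₀.subtype := by
      apply p4
      intro h hh
      refine ⟨-(ρ₀ ⟨h, hh⟩ v - v), N.neg_mem (hN _ _), ?_⟩
      simp [hρ₀]
    have h2 : π (v : E) = 0 := v.2
    rw [h2, sub_zero] at h1
    obtain ⟨w, hw, hwv⟩ := h1
    have : w = v := Subtype.ext hwv
    rwa [← this]
  have hirr := irr_of_free hpre ht hgen hfree hcomN
  have hctx : Ctx ρ₀ B₀ φ₀ :=
    { hpre with
      irr := hirr
      gen := hgen
      odd3 := h3 }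
  haveI : Group.IsSolvable R₀ := solvable_of_solvable_injective R₀.subtype_injective
  have hcore := core hctx ht
  obtain ⟨e, hf⟩ := hpre.exists_frame ht
  have hbmem : ∀ k : ℕ, b ^ k ∈ B := fun k => by
    rw [← hzB]
    exact Subgroup.npow_mem_zpowers b k
  have hpowF : ∀ k : ℕ, ∀ v ∈ F₀, ρ (b ^ k) v ∈ F₀ := by
    intro k
    induction k with
    | zero =>
      intro v hv
      simpa using hv
    | succ k ih =>
      intro v hv
      rw [pow_succ, rho_mul]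
      exact ih _ (hF0b v hv)
  have hpres : ∀ r ∈ R₀ ⊔ B, ∀ v ∈ F₀, ρ r v ∈ F₀ := by
    intro r hr v hv
    obtain ⟨k, hk, c, hc, rfl⟩ := Cfsg.Agent.Lib.Coprime.Action.exists_mul_of_mem_sup hnorm hr
    rw [rho_mul]
    rw [← hzB] at hc
    obtain ⟨n, rfl⟩ := ((isOfFinOrder_of_finite b).mem_powers_iff_mem_zpowers).2 hc
    exact hF0R k hk _ (hpowF n v hv)
  refine ⟨?_, F₀, F₁, ?_, ?_, ?_, hpres, ?_, ?_⟩
  · rcases hcore with ⟨hc, hs, hcard⟩ | ⟨hsp, hz, hcard, A, hA, hcardA⟩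
    · left
      refine ⟨⟨⟨⟨hc⟩⟩, ?_⟩, hcard⟩
      intro r hr
      rw [sq]
      exact congrArg Subtype.val (hs ⟨r, hr⟩)
    · right
      refine ⟨⟨hsp, hz⟩, hcard, A.map R₀.subtype, ?_, ?_, ?_⟩
      · exact Subgroup.map_subtype_le A
      · exact isElementaryAbelian_map _ _ hA
      · rw [← hcardA]
        exact (Nat.card_congr (A.equivMapOfInjective _ R₀.subtype_injective).toEquiv).symm
  · rw [eq_bot_iff]
    rintro v ⟨h0, ⟨w, rfl⟩⟩
    have h2 : π (π w) = 0 := h0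
    rw [hidem] at h2
    simpa using h2
  · rw [eq_top_iff]
    intro v _
    have e : v = (v - π v) + π v := by abel
    rw [e]
    exact Submodule.add_mem_sup (hdec v) ⟨v, rfl⟩
  · rintro r hr _ ⟨w, rfl⟩
    exact p2 r hr w
  · intro r hr htriv
    obtain ⟨k, hk, c, hc, rfl⟩ := Cfsg.Agent.Lib.Coprime.Action.exists_mul_of_mem_sup hnorm hr
    rw [← hzB] at hc
    obtain ⟨n, rfl⟩ := ((isOfFinOrder_of_finite b).mem_powers_iff_mem_zpowers).2 hc
    dsimp only at htriv ⊢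
    -- `ρ (b ^ n)` acts on `F₀` as `ρ k⁻¹`
    have h1 : ∀ v ∈ F₀, ρ (b ^ n) v = ρ k⁻¹ v := by
      intro v hv
      have := htriv v hv
      rw [rho_mul] at this
      have h2 := congrArg (ρ k⁻¹) this
      rwa [rho_inv_rho] at h2
    -- cube
    have h3' : ∀ v ∈ F₀, ρ (k⁻¹ ^ 3) v = v := by
      intro v hv
      have hcube : ρ ((b ^ n) ^ 3) v = v := by
        rw [← pow_mul, mul_comm, pow_mul, hb3, one_pow, rho_one]
      have e1 : ρ ((b ^ n) ^ 3) v = ρ (b ^ n) (ρ (b ^ n) (ρ (b ^ n) v)) := by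
        simp only [pow_succ, pow_zero, one_mul, rho_mul]
      have e2 : ρ (k⁻¹ ^ 3) v = ρ k⁻¹ (ρ k⁻¹ (ρ k⁻¹ v)) := by
        simp only [pow_succ, pow_zero, one_mul, rho_mul]
      rw [e2, ← h1 _ (hF0R _ (R₀.inv_mem hk) _ (hF0R _ (R₀.inv_mem hk) _ hv)),
        ← h1 _ (hF0R _ (R₀.inv_mem hk) _ hv), ← h1 _ hv]
      rw [← e1, hcube]
    have hk3 : k⁻¹ ^ 3 = 1 := by
      have hmem : k⁻¹ ^ 3 ∈ R₀ := R₀.pow_mem (R₀.inv_mem hk) 3
      have : (⟨k⁻¹ ^ 3, hmem⟩ : R₀) = 1 := by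
        apply hpre.inj
        ext v
        simp only [map_one, Module.End.one_apply]
        exact h3' v v.2
      exact congrArg Subtype.val this
    have hk1 : k = 1 := by
      have hcop : Nat.Coprime (Nat.card R₀) 3 :=
        ((Nat.Prime.coprime_iff_not_dvd Nat.prime_three).2 h3).symm
      have hk' : (⟨k⁻¹, R₀.inv_mem hk⟩ : R₀) ^ 3 = 1 := Subtype.ext hk3
      have : (⟨k⁻¹, R₀.inv_mem hk⟩ : R₀) = 1 := by
        have h5 : orderOf (⟨k⁻¹, R₀.inv_mem hk⟩ : R₀) ∣ Nat.gcd (Nat.card R₀) 3 :=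
          Nat.dvd_gcd (orderOf_dvd_natCard _) (orderOf_dvd_of_pow_eq_one hk')
        rw [hcop, Nat.dvd_one, orderOf_eq_one_iff] at h5
        exact h5
      have h6 := congrArg Subtype.val this
      simpa using h6
    subst hk1
    rw [one_mul] at htriv ⊢
    -- if `b ^ n ≠ 1`, then `b` acts trivially on `F₀`
    have hbne : ∃ v ∈ F₀, ρ b v ≠ v := by
      refine ⟨e, e.2, ?_⟩
      intro h
      have h1 : B₀ e = e := Subtype.ext h
      have h2 := (Frame.wt2 hpre ht hf).1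
      rw [h1, hf.h1] at h2
      exact hf.ne ((eq_neg_self_iff e).1 h2)
    have hmod : b ^ n = b ^ (n % 3) := pow_eq_pow_mod n hb3
    rw [hmod] at htriv ⊢
    have hlt : n % 3 < 3 := Nat.mod_lt _ (by norm_num)
    generalize n % 3 = m at hlt htriv ⊢
    interval_cases m
    · simp
    · obtain ⟨v, hv, hne⟩ := hbne
      exact absurd (by simpa using htriv v hv) hne
    · obtain ⟨v, hv, hne⟩ := hbne
      exfalso
      apply hne
      have h1 := htriv v hv
      have h2 := htriv (ρ (b ^ 2) v) (hpowF 2 v hv)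
      have e : b ^ 2 * b ^ 2 = b := by
        rw [pow_two]
        calc b * b * (b * b) = (b * b * b) * b := by group
          _ = b := by rw [hbbb, one_mul]
      rw [← rho_mul, e, h1] at h2
      exact h2
  · intro N hN hinv
    have hNr : ∀ r ∈ R₀, ∀ v ∈ N, ρ r v ∈ N := fun r hr v hv =>
      hinv r (Subgroup.mem_sup_left hr) v hv
    have hNb : ∀ v ∈ N, ρ b v ∈ N := fun v hv =>
      hinv b (Subgroup.mem_sup_right (by rw [← hzB]; exact Subgroup.mem_zpowers b)) v hv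
    rcases hctx.irr (N.comap F₀.subtype) (fun r v hv => hNr r r.2 _ hv) (fun v hv => hNb _ hv) with h | h
    · left
      rw [eq_bot_iff]
      intro v hv
      have : (⟨v, hN hv⟩ : F₀) ∈ N.comap F₀.subtype := hv
      rw [h, Submodule.mem_bot] at this
      simpa using congrArg Subtype.val this
    · right
      apply le_antisymm hN
      intro v hv
      have : (⟨v, hv⟩ : F₀) ∈ N.comap F₀.subtype := by rw [h]; trivial
      exact this

end reduce

end Cfsg.Agent.Lib.Cubic3.Reduce
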